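/-
Project SP2 (S3597): groups of order dividing `p² (p⁴ - 1) / 2` with a self-centralising Sylow subgroup of order `p²`.
Definitions and the steps of the proof as propositions.
-/
import Cfsg.Agent.Even.Amb2
import Cfsg.Prelude.Def_Characters
import Mathlib.LinearAlgebra.Matrix.ProjectiveSpecialLinearGroup

set_option autoImplicit false
set_option linter.unusedSectionVars false
open Cfsg Subgroup CL.Even CL.Grp

namespace CL.SP2

universe u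

/-- The group theoretic hypothesis. -/
structure Hy (p : ℕ) (G : Type u) [Group G] : Prop where
  five : 5 < p
  dvd : 2 * Nat.card G ∣ p ^ 2 * (p ^ 4 - 1)
  card : ∀ P : Sylow p G, Nat.card P = p ^ 2
  cen : ∀ P : Sylow p G, 𝒞((P : Subgroup G)) ≤ P
  big : p ^ 2 ≤ Nat.card (Sylow p G)
  nn : ∀ D : Subgroup G, D.Normal → Nat.card D ≠ p

/-- The conclusion. -/
def Con (p : ℕ) (G : Type u) [Group G] : Prop := 2 * Nat.card G = p ^ 2 * (p ^ 4 - 1) ∧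
  ∃ (K : Type) (_ : Field K) (_ : Fintype K), Fintype.card K = p ^ 2 ∧
    Nonempty (G ≃* Matrix.ProjectiveSpecialLinearGroup (Fin 2) K)

section
variable {G : Type u} [Group G]

/-- the number of Sylow subgroups containing `D` -/
noncomputable def mD (p : ℕ) (D : Subgroup G) : ℕ := Nat.card {Q : Sylow p G // D ≤ Q}
/-- the join of the Sylow subgroups containing `D` -/
def Y0 (p : ℕ) (D : Subgroup G) : Subgroup G := ⨆ Q : {Q : Sylow p G // D ≤ Q}, (Q.1 : Subgroup G)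
/-- the number of conjugates of `D` under `N(P)` -/
noncomputable def cD {p : ℕ} (P : Sylow p G) (D : Subgroup G) : ℕ := (𝒩(D)).relIndex 𝒩((P : Subgroup G))
/-- the subgroups of order `p` of `P` -/
noncomputable def sub [Finite G] {p : ℕ} (P : Sylow p G) : Finset (Subgroup G) :=
  (Set.toFinite {D : Subgroup G | D ≤ P ∧ Nat.card D = p}).toFinset

theorem mem_sub [Finite G] {p : ℕ} {P : Sylow p G} {D : Subgroup G} : D ∈ sub P ↔ D ≤ P ∧ Nat.card D = p :=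
  Set.Finite.mem_toFinset _

/-- affine type -/
def TB (p : ℕ) (D : Subgroup G) : Prop := mD p D = p + 1 ∧ ∃ M ≤ 𝒞(D), IsPGroup 2 M ∧ Nat.card M = p + 1
/-- non-solvable type -/
def TN (p : ℕ) (D : Subgroup G) : Prop := p ∣ Nat.card (⁅Y0 p D, Y0 p D⁆ : Subgroup G) ∧ (mD p D < p ^ 2 →
  (mD p D = p + 1 ∧ p ^ 2 * (p ^ 2 - 1) ∣ 2 * Nat.card 𝒞(D)) ∨ (p = 17 ∧ mD p D = 120 ∧ 17 * 4080 ∣ Nat.card 𝒞(D)))
end

section
variable (p : ℕ) (G : Type u) [Group G] [Finite G]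

/-- Basic facts, part 1. -/
structure B1 : Prop where
  hy : Hy p G
  ab : ∀ P : Sylow p G, (P : Subgroup G) ≤ 𝒞((P : Subgroup G))
  sup : ∀ (P : Sylow p G), ∀ D ∈ sub P, ∀ D' ∈ sub P, D ≠ D' → D ⊔ D' = P
  nc : ∀ (D : Subgroup G) (x : G) (k : ℕ), Nat.card D = p → x ^ p ^ k = 1 → x ∈ 𝒩(D) → x ∈ 𝒞(D)
  tr : ∀ D : Subgroup G, ∀ P Q : Sylow p G, D ≤ P → D ≤ Q → ∃ h ∈ 𝒞(D), cj h (P : Subgroup G) = Q
  fus : ∀ (P : Sylow p G) (D : Subgroup G) (g : G), D ≤ P → cj g D ≤ P → ∃ h ∈ 𝒩((P : Subgroup G)), cj h D = cj g D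
  mC : ∀ (P : Sylow p G) (D : Subgroup G), D ≤ P →
    Nat.card 𝒞(D) = mD p D * Nat.card (𝒞(D) ⊓ 𝒩((P : Subgroup G)) : Subgroup G)
  mS : ∀ (P : Sylow p G) (D : Subgroup G), D ≤ P → mD p D = Nat.card (Sylow p 𝒞(D))
  mmod : ∀ (P : Sylow p G) (D : Subgroup G), D ≤ P → mD p D % p = 1
  ev : ∀ (P : Sylow p G) (D : Subgroup G), D ≤ P → Even (mD p D) → 4 ∣ Nat.card 𝒞(D)
  ncs : ∀ (P : Sylow p G) (D : Subgroup G), D ≤ P → Nat.card (Sylow p G) * cD P D = (𝒩(D)).index * mD p D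
  mcj : ∀ (g : G) (D : Subgroup G), mD p (cj g D) = mD p D
  nmod : Nat.card (Sylow p G) % p = 1
  e0 : ∀ P : Sylow p G, ∃ e k : ℕ, Nat.card 𝒩((P : Subgroup G)) = p ^ 2 * e ∧
    2 * e * k * Nat.card (Sylow p G) + 1 = p ^ 4 ∧ ∀ D : Subgroup G, D ≤ P → cD P D ∣ e

/-- Basic facts, part 2. -/
structure B2 : Prop where
  subc : ∀ P : Sylow p G, (sub P).card ≤ p + 1
  cnt : ∀ P : Sylow p G, ∃ t, Nat.card (Sylow p G) = 1 + ∑ D ∈ sub P, (mD p D - 1) + p ^ 2 * t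
  orb : ∀ (P : Sylow p G) (A : Finset (Subgroup G)), (∀ h ∈ 𝒩((P : Subgroup G)), ∀ D ∈ A, cj h D ∈ A) →
    ∀ d, (∀ D ∈ A, d ∣ cD P D) → d ∣ A.card
  orb1 : ∀ (P : Sylow p G) (A : Finset (Subgroup G)), (∀ h ∈ 𝒩((P : Subgroup G)), ∀ D ∈ A, cj h D ∈ A) →
    ∀ D ∈ A, (∀ D' ∈ A, ∃ h ∈ 𝒩((P : Subgroup G)), cj h D = D') → A.card = cD P D

def Loc : Prop := ∀ P : Sylow p G, ∀ D ∈ sub P, mD p D = 1 ∨ TB p D ∨ TN p D

def Blk : Prop := ∀ P : Sylow p G, ∀ D ∈ sub P, 𝒩((P : Subgroup G)) ≤ 𝒩(D) →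
  (∀ g : G, (P : Subgroup G) ⊓ 𝒩(cj g D) ≠ ⊥) → p ∣ Nat.card (⁅Y0 p D, Y0 p D⁆ : Subgroup G) →
  ∃ D0 ∈ sub P, D0 ≠ D ∧ mD p D0 = (𝒩(D)).index

def Two : Prop := ∀ P : Sylow p G, ∀ D ∈ sub P, 𝒩((P : Subgroup G)) ≤ 𝒩(D) →
  ((𝒩(D)).index = p ^ 2 + 1 → ∀ g : G, (P : Subgroup G) ⊓ 𝒩(cj g D) ≠ ⊥) ∧
  ((∀ D' ∈ sub P, D' ≠ D → mD p D' = 1) → ∀ g : G, cj g D ≠ D → (P : Subgroup G) ⊓ 𝒩(cj g D) = ⊥)

def Sy2 : Prop := ∀ D D' : Subgroup G, Nat.card D = p → Nat.card D' = p → TB p D → TB p D' → ∃ g : G, cj g D = D'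
end

/-- A statement about all groups. -/
def All (F : ∀ (_ : ℕ) (G : Type u) [Group G] [Finite G], Prop) : Prop :=
  ∀ (p : ℕ) [Fact p.Prime] (G : Type u) [Group G] [Finite G], F p G

def ChS : Prop := All.{u} fun p G _ _ => 5 < p → 2 * Nat.card G = p ^ 2 * (p ^ 4 - 1) →
  (∃ χ : IrrCharacter G, (χ : G → ℂ) 1 = (p ^ 2 : ℕ)) → ∃ (K : Subgroup G) (_ : K.Normal), Hy p (G ⧸ K)
def L0S : Prop := All.{u} fun p G _ _ => 5 < p → ∀ (M : Subgroup G) (x : G), orderOf x = p → x ∈ 𝒩(M) →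
  (∀ y ∈ M, x * y = y * x → y = 1) → M ≠ ⊥ → 2 * Nat.card M ∣ p ^ 4 - 1 → Nat.card M = p + 1 ∧ IsPGroup 2 M
def EvS : Prop := All.{u} fun p G _ _ => p ≠ 2 → Even (Nat.card (Sylow p G)) → 4 ∣ Nat.card G
/-- the perfect case -/
def L1S : Prop := L0S.{u} → All.{u} fun p Y _ _ => 5 < p → commutator Y = ⊤ → ∀ Q : Sylow p Y, Nat.card Q = p →
  𝒞((Q : Subgroup Y)) ≤ Q → 2 * Nat.card Y ∣ p * (p ^ 4 - 1) → Nat.card (Sylow p Y) < p ^ 2 →
  (Nat.card (Sylow p Y) = p + 1 ∧ p * (p ^ 2 - 1) ∣ 2 * Nat.card Y) ∨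
    (p = 17 ∧ Nat.card (Sylow p Y) = 120 ∧ 4080 ∣ Nat.card Y)
/-- the local dichotomy -/
def L2 (p : ℕ) (X : Type u) [Group X] : Prop := 5 < p → ∀ Q : Sylow p X, Nat.card Q = p →
  𝒞((Q : Subgroup X)) ≤ Q → 2 * Nat.card X ∣ p * (p ^ 4 - 1) → Nat.card (Sylow p X) = 1 ∨
  (Nat.card (Sylow p X) = p + 1 ∧ ∃ M : Subgroup X, IsPGroup 2 M ∧ Nat.card M = p + 1) ∨
  ((Q : Subgroup X) ≤ ⁅normalClosure ((Q : Subgroup X) : Set X), normalClosure ((Q : Subgroup X) : Set X)⁆ ∧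
    (Nat.card (Sylow p X) < p ^ 2 → (Nat.card (Sylow p X) = p + 1 ∧ p * (p ^ 2 - 1) ∣ 2 * Nat.card X) ∨
      (p = 17 ∧ Nat.card (Sylow p X) = 120 ∧ 4080 ∣ Nat.card X)))
def L2S : Prop := L0S.{u} → L1S.{u} → All.{u} fun p X _ _ => L2 p X
def B1S : Prop := EvS.{u} → All.{u} fun p G _ _ => Hy p G → B1 p G
def B2S : Prop := All.{u} fun p G _ _ => B1 p G → B2 p G
def LocS : Prop := (All.{u} fun p X _ _ => L2 p X) → All.{u} fun p G _ _ => B1 p G → Loc p G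
def BlkS : Prop := All.{u} fun p G _ _ => B1 p G → Blk p G
def TwoS : Prop := All.{u} fun p G _ _ => B1 p G → Two p G
def Sy2S : Prop := All.{u} fun p G _ _ => B1 p G → Sy2 p G
def G1S : Prop := All.{u} fun p G _ _ => B1 p G → Loc p G → Blk p G → ∀ P : Sylow p G, ∀ D ∈ sub P, mD p D < p ^ 2
def G17S : Prop := All.{u} fun p G _ _ => B1 p G → B2 p G → Loc p G → ∀ P : Sylow p G,
  (∀ D ∈ sub P, mD p D < p ^ 2) → ∀ D ∈ sub P, mD p D = 1 ∨ mD p D = p + 1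
def G2S : Prop := All.{u} fun p G _ _ => B1 p G → B2 p G → Loc p G → Blk p G → Two p G → Sy2 p G → ∀ P : Sylow p G,
  (∀ D ∈ sub P, mD p D = 1 ∨ mD p D = p + 1) → ∀ D ∈ sub P, mD p D = 1

/-! ### The case of trivial intersections -/

/-- `U a` is normal in the stabiliser of `a` and regular on the other `p²` points. -/
structure Ta (p : ℕ) (G Ω : Type u) [Group G] [MulAction G Ω] (U : Ω → Subgroup G) : Prop where
  five : 5 < p
  dvd : 2 * Nat.card G ∣ p ^ 2 * (p ^ 4 - 1)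
  cardΩ : Nat.card Ω = p ^ 2 + 1
  cardU : ∀ a, Nat.card (U a) = p ^ 2
  fix : ∀ a, ∀ x ∈ U a, x • a = a
  conj : ∀ (g : G) a, ∀ x ∈ U a, g * x * g⁻¹ ∈ U (g • a)
  free : ∀ a b, a ≠ b → ∀ x ∈ U a, x • b = b → x = 1
  tr : ∀ a b c, a ≠ b → a ≠ c → ∃ x ∈ U a, x • b = c
  cen : ∀ a, 𝒞(U a) ≤ U a

section
variable {G : Type u} [Group G]

/-- the two-point stabiliser -/
abbrev st2 (G : Type u) [Group G] {Ω : Type u} [MulAction G Ω] (a b : Ω) : Subgroup G :=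
  MulAction.stabilizer G a ⊓ MulAction.stabilizer G b

/-- counting facts -/
structure Tc (p : ℕ) (G Ω : Type u) [Group G] [MulAction G Ω] (U : Ω → Subgroup G) : Prop where
  ta : Ta p G Ω U
  ab : ∀ a, U a ≤ 𝒞(U a)
  t2 : ∀ a b c d : Ω, a ≠ b → c ≠ d → ∃ g : G, g • a = c ∧ g • b = d
  ord : ∀ a b : Ω, a ≠ b → Nat.card G = (p ^ 2 + 1) * p ^ 2 * Nat.card (st2 G a b) ∧ 2 * Nat.card (st2 G a b) ∣ p ^ 2 - 1
  fa : ∀ (a b : Ω) (g : G), a ≠ b → g • a = a → g • b = b → g ∈ 𝒞(U a) → g = 1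
  fx : ∀ (a b : Ω) (g : G), a ≠ b → g • a = a → g • b = b →
    Nat.card {c : Ω // g • c = c} = Nat.card (U a ⊓ centralizer {g} : Subgroup G) + 1

/-- the fixed points of `y` form a line -/
structure Ln (p : ℕ) (Ω : Type u) [MulAction G Ω] (U : Ω → Subgroup G) (y : G) : Prop where
  ne : y ≠ 1
  card : Nat.card {c : Ω // y • c = c} = p + 1
  fixc : ∀ a, y • a = a → Nat.card (U a ⊓ centralizer {y} : Subgroup G) = p
  tr : ∀ a b c : Ω, y • a = a → y • b = b → y • c = c → a ≠ b → a ≠ c → ∃ x ∈ U a ⊓ centralizer {y}, x • b = c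
  t2 : ∀ a b c d : Ω, y • a = a → y • b = b → y • c = c → y • d = d → a ≠ b → c ≠ d →
    ∃ h ∈ centralizer {y}, h • a = c ∧ h • b = d
  three : ∀ k ∈ centralizer {y}, ∀ a b c : Ω, y • a = a → y • b = b → y • c = c → a ≠ b → b ≠ c → a ≠ c →
    k • a = a → k • b = b → k • c = c → ∀ d : Ω, y • d = d → k • d = d
  ord : ∀ a b : Ω, y • a = a → y • b = b → a ≠ b →
    Nat.card (centralizer {y} : Subgroup G) = (p + 1) * p * Nat.card (centralizer {y} ⊓ st2 G a b : Subgroup G) ∧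
      Nat.card (centralizer {y} ⊓ st2 G a b : Subgroup G) ∣ p - 1

/-- `y` is a reflection -/
structure Rf (p : ℕ) (Ω : Type u) [MulAction G Ω] (y : G) : Prop where
  yy : y * y = 1
  md : p % 4 = 1
  card : Nat.card (centralizer {y} : Subgroup G) = (p + 1) * p * (p - 1)
  ker : ∀ k ∈ centralizer {y}, (∀ c : Ω, y • c = c → k • c = c) → k = 1 ∨ k = y
  fix : ∀ v ∈ centralizer {y}, v * v = 1 → ∃ c : Ω, y • c = c ∧ v • c = c
end

/-- there is no homology -/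
def Nh (p : ℕ) {G Ω : Type u} [Group G] (U : Ω → Subgroup G) : Prop :=
  ∀ a, ∀ x ∈ U a, x ≠ 1 → ∀ y : G, (orderOf y).Prime → orderOf y ≠ p → y * x ≠ x * y

def AllT (F : ∀ (_ : ℕ) (G Ω : Type u) [Group G] [MulAction G Ω], (Ω → Subgroup G) → Prop) : Prop :=
  ∀ (p : ℕ) [Fact p.Prime] (G Ω : Type u) [Group G] [Finite G] [Finite Ω] [MulAction G Ω] (U : Ω → Subgroup G), F p G Ω U

def TcS : Prop := AllT.{u} fun p G Ω _ _ U => Ta p G Ω U → Tc p G Ω U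
def T0S : Prop := AllT.{u} fun p G Ω _ _ U => Tc p G Ω U → ¬ Nh p U → ∃ y : G, (orderOf y).Prime ∧ Ln p Ω U y
def T1S : Prop := AllT.{u} fun p G Ω _ _ U => Tc p G Ω U → (∀ H : Subgroup G, H.index ≠ 2) → ∀ y : G,
  (orderOf y).Prime → Ln p Ω U y → Rf p Ω y
def T2S : Prop := AllT.{u} fun p G Ω _ _ U => Tc p G Ω U → ∀ y : G, Ln p Ω U y → ¬ Rf p Ω y
def T3S : Prop := L0S.{u} → AllT.{u} fun p G Ω _ _ U => Tc p G Ω U → Nh p U → Con p G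
def T4S : Prop := (AllT.{u} fun p G Ω _ _ U => Ta p G Ω U → (∀ H : Subgroup G, H.index ≠ 2) → Con p G) →
  AllT.{u} fun p G Ω _ _ U => Ta p G Ω U → Con p G

end CL.SP2
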