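/-
Project SP2 (S3597): the case where every subgroup of order `p` lies in `1` or `p + 1` Sylow subgroups.
-/
import Cfsg.Agent.SP2.Defs

set_option autoImplicit false
set_option linter.unusedSectionVars false
open Cfsg Subgroup CL.Even CL.Grp

namespace CL.SP2

universe u

namespace G2

theorem nt {p n a t B : ℕ} (hp : 5 < p) (hn : n = 1 + a * p + p ^ 2 * t) (hB : B * n + 1 = p ^ 4) (big : p ^ 2 ≤ n)
    (a1 : 0 < a) (a2 : a ≤ p + 1) : (n = p ^ 2 + 1 ∧ a = p) ∨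
      ∃ b, 0 < b ∧ b < p ∧ B + 1 = b * p ∧ (a = b ∨ (b = 1 ∧ a = p + 1)) := by
  obtain ⟨b, hb⟩ : p ∣ B + 1 := (Nat.dvd_add_right (Dvd.intro (B * a + B * p * t) rfl)).1
    ⟨p ^ 3, by rw [← pow_succ', ← hB, hn]; ring⟩
  have b0 : 0 < b := Nat.pos_of_ne_zero fun e => by simp [e] at hb
  have h1 : p ^ 2 + 1 ≤ n := by
    refine lt_of_le_of_ne big fun e => ?_
    have : p ∣ 1 := (Nat.dvd_add_right (Dvd.intro (a + p * t) rfl)).1 ⟨p, by rw [← sq, e, hn]; ring⟩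
    have := Nat.le_of_dvd one_pos this
    omega
  have h2 : b ≤ p := by
    by_contra h
    have : p ^ 2 ≤ B := by nlinarith
    nlinarith [Nat.mul_le_mul this h1]
  have h3 : (p : ℤ) ∣ b - a := by
    refine ⟨p ^ 2 - b * a - b * p * t + t, mul_left_cancel₀ (by positivity : (p : ℤ) ≠ 0) ?_⟩
    zify at hb hB hn
    rw [show (B : ℤ) = p * b - 1 by linarith, hn] at hB
    linear_combination hB
  obtain ⟨c, hc⟩ := h3
  have c1 : -2 < c := by
    by_contra h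
    nlinarith [mul_le_mul_of_nonneg_left (not_lt.1 h) (by positivity : (0 : ℤ) ≤ p)]
  have c2 : c < 1 := by
    by_contra h
    nlinarith [mul_le_mul_of_nonneg_left (not_lt.1 h) (by positivity : (0 : ℤ) ≤ p)]
  rcases h2.eq_or_lt with rfl | h2
  · refine .inl ⟨?_, by interval_cases c <;> omega⟩
    have h4 : 0 < B := by nlinarith
    refine Nat.eq_of_mul_eq_mul_left h4 ?_
    zify at hb hB ⊢
    linear_combination hB - (b ^ 2 + 1) * hb
  · exact .inr ⟨b, b0, h2, by rw [hb, mul_comm], by interval_cases c <;> omega⟩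

end G2

theorem g2 : G2S.{u} := by
  intro p _ G _ _ b1 b2 loc blk two sy P hm D1 hD1
  classical
  by_contra hne
  have hp := b1.hy.five
  obtain ⟨A, mA⟩ : ∃ A : Finset (Subgroup G), A = (sub P).filter fun D => mD p D = p + 1 := ⟨_, rfl⟩
  have hs : ∑ D ∈ sub P, (mD p D - 1) = A.card * p := by
    have z : ∑ D ∈ (sub P).filter (fun D => ¬ mD p D = p + 1), (mD p D - 1) = 0 :=
      Finset.sum_eq_zero fun D hD => by rw [Finset.mem_filter] at hD; rw [(hm D hD.1).resolve_right hD.2, Nat.sub_self]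
    rw [← Finset.sum_filter_add_sum_filter_not (sub P) fun D => mD p D = p + 1, z, ← mA,
      Finset.sum_congr rfl (g := fun _ => p) fun D hD => by rw [mA, Finset.mem_filter] at hD; rw [hD.2]; rfl]
    simp
  have a2 : A.card ≤ p + 1 := mA ▸ (Finset.card_filter_le _ _).trans (b2.subc P)
  replace mA : ∀ {D}, D ∈ A ↔ (D ≤ P ∧ Nat.card D = p) ∧ mD p D = p + 1 := by
    intro D; rw [mA, Finset.mem_filter, mem_sub]
  have inv : ∀ h ∈ 𝒩((P : Subgroup G)), ∀ D ∈ A, cj h D ∈ A := fun h hh D hD =>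
    mA.2 ⟨⟨cj_le_of_le (mA.1 hD).1.1 hh, by rw [card_cj]; exact (mA.1 hD).1.2⟩, by rw [b1.mcj]; exact (mA.1 hD).2⟩
  have D1A : D1 ∈ A := mA.2 ⟨mem_sub.1 hD1, (hm D1 hD1).resolve_left hne⟩
  have a1 : 0 < A.card := Finset.card_pos.2 ⟨D1, D1A⟩
  obtain ⟨t, ht⟩ := b2.cnt P
  rw [hs] at ht
  obtain ⟨e, k, he, hk, hc⟩ := b1.e0 P
  have ncs : ∀ D ∈ A, Nat.card (Sylow p G) * cD P D = (𝒩(D)).index * (p + 1) := fun D hD => by
    rw [b1.ncs P D (mA.1 hD).1.1, (mA.1 hD).2]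
  rcases G2.nt hp ht hk b1.hy.big a1 a2 with ⟨h1, h2⟩ | ⟨b, b0, bp, hb, hab⟩
  · obtain ⟨j, rfl⟩ := (Fact.out : p.Prime).odd_of_ne_two (by omega)
    have := b2.orb P A inv (j + 1) fun D hD => by
      have h3 := ncs D hD
      rw [h1] at h3
      refine (Nat.dvd_add_right (Dvd.intro (2 * j * cD P D) rfl)).1 ⟨(𝒩(D)).index, ?_⟩
      nlinarith
    rw [h2, show 2 * j + 1 = j + 1 + j by ring] at this
    have := Nat.le_of_dvd (by omega) ((Nat.dvd_add_right dvd_rfl).1 this)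
    omega
  have e0 : 0 < e * k := Nat.pos_of_ne_zero fun h => by
    rw [mul_assoc, h] at hb
    have := Nat.le_of_dvd one_pos (Dvd.intro_left b hb.symm)
    omega
  have typ : ∀ D ∈ A, TB p D ∨ (p ∣ Nat.card (⁅Y0 p D, Y0 p D⁆ : Subgroup G) ∧ p - 1 ∣ 2 * e ∧
      (2 * e ≤ p - 1 → 𝒩((P : Subgroup G)) ≤ 𝒩(D))) := fun D hD => by
    obtain ⟨h1, h2⟩ := mA.1 hD
    rcases loc P D (mem_sub.2 h1) with h | h | h
    · omega
    · exact .inl h
    obtain ⟨-, h3⟩ := (h.2 (by rw [h2]; nlinarith)).resolve_right (by omega)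
    rw [b1.mC P D h1.1, h2, show p ^ 2 * (p ^ 2 - 1) = (p + 1) * (p ^ 2 * (p - 1)) by
      rw [show p ^ 2 - 1 = (p + 1) * (p - 1) from Nat.sq_sub_sq p 1]; ring, mul_left_comm 2 (p + 1)] at h3
    replace h3 := Nat.dvd_of_mul_dvd_mul_left (show 0 < p + 1 by omega) h3
    refine .inr ⟨h.1, Nat.dvd_of_mul_dvd_mul_left (by positivity : 0 < p ^ 2) (h3.trans ?_), fun h4 => ?_⟩
    · rw [mul_left_comm, ← he]
      exact Nat.mul_dvd_mul_left 2 (card_dvd_of_le inf_le_right)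
    · have h5 := Nat.le_of_dvd (by have := Nat.card_pos (α := (𝒞(D) ⊓ 𝒩((P : Subgroup G)) : Subgroup G)); omega) h3
      refine (eq_of_le_of_card_ge (inf_le_right (a := 𝒞(D))) ?_).ge.trans (inf_le_left.trans (cent_le_norm D))
      rw [he]
      nlinarith [Nat.mul_le_mul_left (p ^ 2) h4]
  have allB : (∀ D ∈ A, TB p D) → A.card ∣ e := fun h => by
    rw [b2.orb1 P A inv D1 D1A fun D hD => ?_]
    · exact hc D1 (mA.1 D1A).1.1
    · obtain ⟨g, rfl⟩ := sy D1 D (mA.1 D1A).1.2 (mA.1 hD).1.2 (h D1 D1A) (h D hD)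
      exact b1.fus P D1 g (mA.1 D1A).1.1 (mA.1 hD).1.1
  have b1' : b = 1 := by
    by_cases h : ∀ D ∈ A, TB p D
    · rcases hab with h1 | h1
      · obtain ⟨c, hc⟩ := h1 ▸ allB h
        exact Nat.dvd_one.1 ((Nat.dvd_add_right (Dvd.intro (2 * c * k) rfl)).1 ⟨p, by rw [← hb, hc]; ring⟩)
      · exact h1.1
    · push Not at h
      obtain ⟨D, hD, h⟩ := h
      obtain ⟨c, hc⟩ := ((typ D hD).resolve_left h).2.1
      obtain ⟨q, rfl⟩ : ∃ q, p = q + 1 := ⟨p - 1, by omega⟩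
      obtain ⟨b, rfl⟩ : ∃ c, b = c + 1 := ⟨b - 1, by omega⟩
      rw [hc, Nat.add_sub_cancel] at hb
      have h1 : q ∣ b := (Nat.dvd_add_right (Dvd.intro (b + 1) rfl)).1 ⟨c * k, by nlinarith⟩
      rw [Nat.eq_zero_of_dvd_of_lt h1 (by omega)]
  subst b1'
  have e1 : 2 * e ≤ p - 1 := by
    have : 0 < k := Nat.pos_of_mul_pos_left e0
    have := Nat.le_mul_of_pos_right (2 * e) this
    omega
  have idx : ∀ D ∈ A, 𝒩((P : Subgroup G)) ≤ 𝒩(D) → (𝒩(D)).index = p ^ 2 + 1 := fun D hD h => by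
    have h1 := ncs D hD
    rw [cD, relIndex_eq_one.2 h, mul_one] at h1
    refine Nat.eq_of_mul_eq_mul_left (show 0 < 2 * e * k * (p + 1) from Nat.mul_pos (by rw [mul_assoc]; omega) (by omega)) ?_
    rw [h1] at hk
    zify at hb hk ⊢
    linear_combination hk - (p + 1) * (p ^ 2 + 1) * hb
  rcases hab with h1 | ⟨-, h1⟩
  · have h2 : ∀ D ∈ A, D = D1 := fun D hD => Finset.card_le_one.1 h1.le D hD D1 D1A
    have h3 : 𝒩((P : Subgroup G)) ≤ 𝒩(D1) := fun h hh => cj_eq_iff_mem.1 (h2 _ (inv h hh D1 D1A))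
    obtain ⟨g, hg⟩ : ∃ g : G, cj g D1 ≠ D1 := by
      by_contra h
      push Not at h
      exact b1.hy.nn D1 ⟨fun x hx g => h g ▸ conj_mem_cj g hx⟩ (mA.1 D1A).1.2
    exact (two P D1 hD1 h3).1 (idx D1 D1A h3) g ((two P D1 hD1 h3).2
      (fun D hD h => (hm D hD).resolve_right fun c => h (h2 D (mA.2 ⟨mem_sub.1 hD, c⟩))) g hg)
  · obtain ⟨D, hD, h⟩ : ∃ D ∈ A, ¬ TB p D := by
      by_contra h
      push Not at h
      have := Nat.le_of_dvd (Nat.pos_of_mul_pos_right e0) (allB h)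
      omega
    obtain ⟨h2, -, h3⟩ := (typ D hD).resolve_left h
    have hD' := mem_sub.2 (mA.1 hD).1
    obtain ⟨D0, h4, -, h5⟩ := blk P D hD' (h3 e1) ((two P D hD' (h3 e1)).1 (idx D hD (h3 e1))) h2
    rw [idx D hD (h3 e1)] at h5
    rcases hm D0 h4 with c | c <;> nlinarith

end CL.SP2
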