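/-
Project SP2 (S3597): the assembly of the steps.
-/
import Cfsg.Agent.SP2.G2
import Cfsg.Agent.Fgs.SylTI
import Cfsg.Agent.Inv.PSL2pA

set_option autoImplicit false
set_option linter.unusedSectionVars false
open Cfsg Subgroup CL.Even CL.Grp CL.Fgs

namespace CL.SP2

universe u

theorem ta_of {p : ℕ} [Fact p.Prime] {G : Type u} [Group G] [Finite G] (b1 : B1 p G) (b2 : B2 p G)
    (h : ∀ P : Sylow p G, ∀ D ∈ sub P, mD p D = 1) : Ta p G (Sylow p G) fun Q => Q := by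
  classical
  have hp := b1.hy.five
  have free : ∀ {P Q : Sylow p G}, P ≠ Q → ∀ x ∈ (P : Subgroup G), x • Q = Q → x = 1 := fun {P Q} hn x hx e => by
    by_contra h1
    obtain ⟨k, hk⟩ := exists_orderOf_eq_pow_of_mem P.2 hx
    have hQ : x ∈ (Q : Subgroup G) := mem_sylow_of_mem_normalizer hk ((sylow_smul_eq_iff _ _).1 e)
    have h2 := orderOf_pow_orderOf_div (orderOf_pos x).ne' (hk ▸ dvd_pow_self p fun c => h1 (by
      rw [c] at hk; exact orderOf_eq_one_iff.1 hk))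
    have h3 : ∀ {R : Subgroup G}, x ∈ R → zpowers (x ^ (orderOf x / p)) ≤ R := fun c => zpowers_le.2 (pow_mem c _)
    have h4 := h P _ (mem_sub.2 ⟨h3 hx, (Nat.card_zpowers _).trans h2⟩)
    exact hn (congrArg Subtype.val ((Nat.card_eq_one_iff_unique.1 h4).1.elim ⟨P, h3 hx⟩ ⟨Q, h3 hQ⟩))
  have fix : ∀ P : Sylow p G, ∀ x ∈ (P : Subgroup G), x • P = P := fun P x hx =>
    (sylow_smul_eq_iff _ _).2 (le_normalizer hx)
  have hΩ : Nat.card (Sylow p G) = p ^ 2 + 1 := by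
    obtain ⟨P⟩ : Nonempty (Sylow p G) := inferInstance
    obtain ⟨t, ht⟩ := b2.cnt P
    obtain ⟨e, k, -, hk, -⟩ := b1.e0 P
    have big := b1.hy.big
    rw [Finset.sum_eq_zero fun D hD => by rw [h P D hD, Nat.sub_self], add_zero] at ht
    generalize Nat.card (Sylow p G) = n at *
    generalize 2 * e * k = B at *
    obtain ⟨c, hc⟩ : p ^ 2 ∣ B + 1 := (Nat.dvd_add_right (Dvd.intro (B * t) rfl)).1 ⟨p ^ 2, by
      rw [← pow_add, ← hk, ht]; ring⟩
    have c0 : 0 < c := Nat.pos_of_ne_zero fun z => by simp [z] at hc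
    have t0 : 0 < t := Nat.pos_of_ne_zero fun z => by
      rw [z] at ht
      nlinarith
    have h1 := Nat.le_mul_of_pos_right (p ^ 2) c0
    have h2 := Nat.le_mul_of_pos_right (p ^ 2) t0
    have h3 : p ^ 4 = p ^ 2 * p ^ 2 := by ring
    have h4 : 36 ≤ p ^ 2 := by nlinarith
    generalize p ^ 2 = q at *
    refine le_antisymm ?_ (by omega)
    by_contra h5
    nlinarith [Nat.mul_le_mul (show q ≤ B + 1 by omega) (show q + 2 ≤ n by omega)]
  refine ⟨hp, b1.hy.dvd, hΩ, b1.hy.card, fix, fun g a x hx => ?_, fun a b => free, fun P Q R h1 h2 => ?_, b1.hy.cen⟩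
  · exact smul_mem_pointwise_smul x (MulAut.conj g) (a : Subgroup G) hx
  · have := Fintype.ofFinite (Sylow p G)
    let f : ↥(P : Subgroup G) → {T : Sylow p G // T ≠ P} := fun x => ⟨(x : G) • Q, fun e =>
      h1 (smul_left_cancel (x : G) ((fix P x x.2).trans e.symm))⟩
    have h3 : Function.Injective f := fun x y e => by
      have : (y : G)⁻¹ * x = 1 := free h1 _ (mul_mem (inv_mem y.2) x.2)
        (by rw [mul_smul, inv_smul_eq_iff]; exact congrArg Subtype.val e)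
      exact Subtype.ext (inv_mul_eq_one.1 this).symm
    obtain ⟨x, hx⟩ := (h3.bijective_of_nat_card_le (by
      rw [b1.hy.card P, Nat.subtype_card (Finset.univ.erase P) (by simp),
        Finset.card_erase_of_mem (Finset.mem_univ _), Finset.card_univ,
        ← Nat.card_eq_fintype_card, hΩ, Nat.add_sub_cancel])).2 ⟨R, h2.symm⟩
    exact ⟨x, x.2, congrArg Subtype.val hx⟩

theorem con_of (l0 : L0S.{u}) (ev : EvS.{u}) (l1 : L1S.{u}) (l2 : L2S.{u}) (b1 : B1S.{u}) (b2 : B2S.{u})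
    (loc : LocS.{u}) (blk : BlkS.{u}) (two : TwoS.{u}) (sy : Sy2S.{u}) (g1 : G1S.{u}) (g17 : G17S.{u})
    (tc : TcS.{u}) (t0 : T0S.{u}) (t1 : T1S.{u}) (t2 : T2S.{u}) (t3 : T3S.{u}) (t4 : T4S.{u}) :
    All.{u} fun p G _ _ => Hy p G → Con p G := by
  intro p _ G _ _ hy
  have h1 := b1 ev p G hy
  have h2 := b2 p G h1
  have h3 := loc (l2 l0 l1) p G h1
  refine t4 (fun p _ G Ω _ _ _ _ U ta h => ?_) p G _ _ (ta_of h1 h2 fun P => g2 p G h1 h2 h3 (blk p G h1) (two p G h1)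
    (sy p G h1) P (g17 p G h1 h2 h3 P (g1 p G h1 h3 (blk p G h1) P)))
  have c := tc p G Ω U ta
  by_cases hn : Nh p U
  · exact t3 l0 p G Ω U c hn
  · obtain ⟨y, y1, y2⟩ := t0 p G Ω U c hn
    exact (t2 p G Ω U c y y2 (t1 p G Ω U c h y y1 y2)).elim

theorem fin_of (ch : ChS.{u}) (con : All.{u} fun p G _ _ => Hy p G → Con p G)
    {F : Type*} [Field F] [Fintype F] (p : ℕ) (hp : p.Prime)
    (h5 : 5 < p) (hF : Fintype.card F = p ^ 2) {G : Type u} [Group G] [Finite G]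
    (hcard : Nat.card G = Nat.card (Matrix.ProjectiveSpecialLinearGroup (Fin 2) F))
    (hdeg : ∃ χ : Cfsg.IrrCharacter G, (χ : G → ℂ) 1 = (p ^ 2 : ℕ)) :
    Nonempty (G ≃* Matrix.ProjectiveSpecialLinearGroup (Fin 2) F) := by
  have := Fact.mk hp
  have h1 : 2 * Nat.card G = p ^ 2 * (p ^ 4 - 1) := by
    rw [hcard, CL.Inv.two_mul_card_psl2 (hF ▸ (hp.odd_of_ne_two (by omega)).pow), hF, ← pow_mul]
  obtain ⟨K, _, hy⟩ := ch p G h5 h1 hdeg
  obtain ⟨h2, L, _, _, hL, ⟨e⟩⟩ := con p _ hy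
  have h3 := K.index_mul_card
  have h4 : K.index = Nat.card G := by
    rw [index_eq_card]
    omega
  obtain rfl : K = ⊥ := card_eq_one.1 (Nat.eq_of_mul_eq_mul_left (Nat.card_pos (α := G)) (by rw [mul_one, ← h4, h3, h4]))
  obtain ⟨f⟩ := CL.SLn.nonempty_psl_equiv_of_card_eq (ι := Fin 2) (hL.trans hF.symm)
  exact ⟨(QuotientGroup.quotientBot.symm.trans e).trans f⟩

end CL.SP2
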