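/-
Project SP2 (S3597): basic facts, part 1.
-/
import Cfsg.Agent.SP2.Defs

set_option autoImplicit false
set_option linter.unusedSectionVars false
open Cfsg Subgroup CL.Even CL.Grp

namespace CL.SP2

universe u

namespace B1h

variable {p : ℕ} [Fact p.Prime] {G : Type u} [Group G] [Finite G]

theorem coe_smul (g : G) (P : Sylow p G) : ((g • P : Sylow p G) : Subgroup G) = cj g (P : Subgroup G) := rfl

variable (hy : Hy p G)
include hy

theorem ab (P : Sylow p G) : (P : Subgroup G) ≤ 𝒞((P : Subgroup G)) :=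
  have := IsPGroup.isMulCommutative_of_card_eq_prime_sq (hy.card P)
  le_centralizer _

theorem tr (D : Subgroup G) (P Q : Sylow p G) (hP : D ≤ P) (hQ : D ≤ Q) : ∃ h ∈ 𝒞(D), cj h (P : Subgroup G) = Q :=
  syl_conj ((isSylowIn_top P).of_le ((ab hy P).trans (cent_mono hP)) le_top)
    ((isSylowIn_top Q).of_le ((ab hy Q).trans (cent_mono hQ)) le_top)

theorem mD_eq (P : Sylow p G) {D K : Subgroup G} (hP : D ≤ P) (h1 : 𝒞(D) ≤ K) (h2 : K ≤ 𝒩(D)) :
    mD p D = 𝒩((P : Subgroup G)).relIndex K := by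
  have e1 : MulAction.stabilizer K P = 𝒩((P : Subgroup G)).subgroupOf K :=
    Subgroup.ext fun g => Sylow.smul_eq_iff_mem_normalizer (g := (g : G))
  have e2 : MulAction.orbit K P = {Q : Sylow p G | D ≤ Q} := Set.ext fun Q => ⟨by
    rintro ⟨g, rfl⟩
    exact (cj_eq (h2 g.2)).ge.trans (cj_mono _ hP), fun hQ => by
    obtain ⟨h, hh, e⟩ := tr hy D P Q hP hQ
    exact ⟨⟨h, h1 hh⟩, Sylow.ext e⟩⟩
  rw [relIndex, ← e1, MulAction.index_stabilizer, e2, ← Nat.card_coe_set_eq]
  rfl

theorem mS (P : Sylow p G) (D : Subgroup G) (hP : D ≤ P) : mD p D = Nat.card (Sylow p 𝒞(D)) := by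
  have h := (ab hy P).trans (cent_mono hP)
  rw [mD_eq hy P hP le_rfl (cent_le_norm D), (P.subtype h).card_eq_index_normalizer, relIndex,
    subgroupOf_normalizer_eq h]
  rfl

end B1h

open B1h in
theorem b1 : B1S.{u} := by
  intro ev p hp G _ _ hy
  have p5 := hy.five
  refine ⟨hy, ab hy, fun P D hD D' hD' ne => ?_, fun D x k hD hx hn => ?_, tr hy, fun P D g h1 h2 => ?_,
    fun P D h => ?_, mS hy, fun P D h => ?_, fun P D h e => ev p _ (by omega) (mS hy P D h ▸ e), fun P D h => ?_,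
    fun g D => ?_, ?_, fun P => ?_⟩
  · obtain ⟨h1, h2⟩ := mem_sub.1 hD
    obtain ⟨h3, h4⟩ := mem_sub.1 hD'
    obtain ⟨i, hi, e⟩ := (Nat.dvd_prime_pow hp.out).1 (hy.card P ▸ card_dvd_of_le (sup_le h1 h3))
    have h5 : Nat.card D < Nat.card (D ⊔ D' : Subgroup G) := not_le.1 fun k =>
      ne (eq_of_le_of_card_ge (le_sup_right.trans (eq_of_le_of_card_ge le_sup_left k).ge) (h2.trans h4.symm).le).symm
    refine eq_of_le_of_card_ge (sup_le h1 h3) ?_
    rw [h2, e] at h5
    rw [e, hy.card P]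
    interval_cases i
    · rw [pow_zero] at h5; omega
    · simp at h5
    · rfl
  · obtain ⟨P, hP⟩ := (isPGroup_sup (isPGroup_zpowers hx) (IsPGroup.of_card (n := 1) (by rw [hD, pow_one]))
      (zpowers_le.2 hn)).exists_le_sylow
    exact cent_mono (le_sup_right.trans hP) (ab hy P (hP (mem_sup_left (mem_zpowers x))))
  · obtain ⟨h, hh, e⟩ := tr hy (cj g D) (g • P) P (cj_mono g h1) h2
    exact ⟨h * g, cj_eq_iff_mem.1 (by rw [cj_mul]; exact e), by rw [cj_mul, cj_eq_of_mem_cent hh]⟩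
  · rw [mD_eq hy P h le_rfl (cent_le_norm D), mul_comm, inf_comm, card_inf_mul_relIndex]
  · rw [mS hy P D h, card_sylow_modEq_one p _, Nat.mod_eq_of_lt hp.out.one_lt]
  · rw [mD_eq hy P h (cent_le_norm D) le_rfl, P.card_eq_index_normalizer, cD, mul_comm, mul_comm (index _),
      ← inf_relIndex_right 𝒩(D), ← inf_relIndex_left 𝒩(D), relIndex_mul_index inf_le_left]
    exact relIndex_mul_index inf_le_right
  · refine (Nat.card_congr (Equiv.subtypeEquiv (MulAction.toPerm g) fun Q => ?_)).symm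
    rw [MulAction.toPerm_apply, coe_smul, cj_le_cj]
  · rw [card_sylow_modEq_one p G, Nat.mod_eq_of_lt hp.out.one_lt]
  · have e1 := card_mul_relIndex (le_normalizer : (P : Subgroup G) ≤ 𝒩((P : Subgroup G)))
    rw [hy.card P] at e1
    have e2 := 𝒩((P : Subgroup G)).card_mul_index
    obtain ⟨k, hk⟩ := hy.dvd
    refine ⟨_, k, e1.symm, ?_, fun D hD => ?_⟩
    · rw [← e2, ← e1] at hk
      have e3 : 𝒩((P : Subgroup G)).index = Nat.card (Sylow p G) := P.card_eq_index_normalizer.symm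
      have e4 : 0 < p ^ 4 := by positivity
      have e5 := Nat.eq_of_mul_eq_mul_left (show 0 < p ^ 2 by positivity) (hk.trans (show _ = p ^ 2 * (2 *
        (P : Subgroup G).relIndex 𝒩((P : Subgroup G)) * k * Nat.card (Sylow p G)) by rw [e3]; ring))
      omega
    · exact relIndex_dvd_of_le_left _ (((ab hy P).trans (cent_mono hD)).trans (cent_le_norm D))

end CL.SP2
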