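/-
Project SP2: counting Sylow subgroups and orbits.
-/
import Cfsg.Agent.SP2.Defs
import Cfsg.Agent.Fgs.SylTI

set_option autoImplicit false
set_option linter.unusedSectionVars false
open Cfsg Subgroup CL.Even CL.Grp MulAction

namespace CL.SP2

universe u

namespace B2j

open Classical in
theorem card_orb {H α : Type*} [Group H] [MulAction H α] {A : Finset α} (inv : ∀ h : H, ∀ a ∈ A, h • a ∈ A) {a : α}
    (ha : a ∈ A) : (A.filter (· ∈ orbit H a)).card = (stabilizer H a).index := by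
  rw [index_stabilizer, ← Set.ncard_coe_finset]
  congr 1
  ext b
  rw [Finset.coe_filter]
  exact ⟨fun h => h.2, fun ⟨h, e⟩ => ⟨e ▸ inv h a ha, h, e⟩⟩

theorem dvd_card {H α : Type*} [Group H] [MulAction H α] (d : ℕ) (A : Finset α) (inv : ∀ h : H, ∀ a ∈ A, h • a ∈ A)
    (hd : ∀ a ∈ A, d ∣ (stabilizer H a).index) : d ∣ A.card := by
  classical
  induction A using Finset.strongInduction with
  | H A ih =>
    rcases A.eq_empty_or_nonempty with rfl | ⟨a, ha⟩
    · simp
    rw [← Finset.card_filter_add_card_filter_not (s := A) (· ∈ orbit H a), card_orb inv ha]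
    refine dvd_add (hd a ha) (ih _ (Finset.filter_ssubset.2 ⟨a, ha, not_not.2 (mem_orbit_self a)⟩) (fun h b hb => ?_)
      fun b hb => hd b (Finset.mem_filter.1 hb).1)
    rw [Finset.mem_filter] at hb ⊢
    exact ⟨inv h b hb.1, fun ⟨k, e⟩ => hb.2 ⟨h⁻¹ * k, by simp only [mul_smul]; rw [show k • a = _ from e, inv_smul_smul]⟩⟩

variable {p : ℕ} [hp : Fact p.Prime] {G : Type u} [Group G] [Finite G]

/-- the conjugation action on subgroups -/
@[reducible] def act (N : Subgroup G) : MulAction N (Subgroup G) where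
  smul h D := cj (h : G) D
  one_smul := cj_one
  mul_smul _ _ := cj_mul _ _

theorem stab (P : Sylow p G) (D : Subgroup G) : (@stabilizer _ _ _ (act 𝒩((P : Subgroup G))) D).index = cD P D := by
  rw [cD, relIndex]
  congr 1
  ext h
  exact cj_eq_iff_mem

theorem eq_of_meet {D D' : Subgroup G} (h : Nat.card D = p) (h' : Nat.card D' = p) {x : G} (hx : x ∈ D) (hx' : x ∈ D')
    (x1 : x ≠ 1) : D = D' := by
  rcases (Nat.dvd_prime hp.out).1 (h ▸ card_dvd_of_le (inf_le_left : D ⊓ D' ≤ D)) with e | e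
  · exact absurd (mem_bot.1 (card_eq_one.1 e ▸ (⟨hx, hx'⟩ : x ∈ D ⊓ D'))) x1
  · rw [← eq_of_le_of_card_ge (inf_le_left : D ⊓ D' ≤ D) (by rw [e, h]),
      eq_of_le_of_card_ge (inf_le_right : D ⊓ D' ≤ D') (by rw [e, h'])]

theorem subc (P : Sylow p G) (hP : Nat.card P = p ^ 2) : (sub P).card ≤ p + 1 := by
  classical
  let _ := Fintype.ofFinite G
  have c : ∀ K : Subgroup G, ((Finset.univ.filter (· ∈ K)).erase 1).card = Nat.card K - 1 := fun K => by
    rw [Finset.card_erase_of_mem (by simp), Nat.card_eq_fintype_card, Fintype.card_subtype]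
  have h1 : ((sub P).biUnion fun D => (Finset.univ.filter (· ∈ D)).erase 1).card = (sub P).card * (p - 1) := by
    rw [Finset.card_biUnion, Finset.sum_const_nat fun D hD => by rw [c, (mem_sub.1 hD).2]]
    intro D hD D' hD' ne
    refine Finset.disjoint_left.2 fun x hx hx' => ne ?_
    simp only [Finset.mem_erase, Finset.mem_filter] at hx hx'
    exact eq_of_meet (mem_sub.1 hD).2 (mem_sub.1 hD').2 hx.2.2 hx'.2.2 hx.1
  have h2 := Finset.card_le_card (show ((sub P).biUnion fun D => (Finset.univ.filter (· ∈ D)).erase 1) ⊆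
      (Finset.univ.filter (· ∈ (P : Subgroup G))).erase 1 from fun x hx => by
    simp only [Finset.mem_biUnion, Finset.mem_erase, Finset.mem_filter] at hx ⊢
    obtain ⟨D, hD, x1, k, hx⟩ := hx
    exact ⟨x1, k, (mem_sub.1 hD).1 hx⟩)
  rw [h1, c, show Nat.card (P : Subgroup G) = p ^ 2 from hP, ← one_pow 2, Nat.sq_sub_sq, one_pow] at h2
  exact Nat.le_of_mul_le_mul_right h2 (Nat.sub_pos_of_lt hp.out.one_lt)

theorem cnt (P : Sylow p G) (hP : Nat.card P = p ^ 2) :
    ∃ t, Nat.card (Sylow p G) = 1 + ∑ D ∈ sub P, (mD p D - 1) + p ^ 2 * t := by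
  classical
  let _ := Fintype.ofFinite (Sylow p G)
  have hP' : Nat.card (P : Subgroup G) = p ^ 2 := hP
  have p1 := hp.out.one_lt
  have tri : ∀ Q : Sylow p G, Q ≠ P → (P : Subgroup G) ⊓ Q ∈ sub P ∨ (P : Subgroup G) ⊓ Q = ⊥ := fun Q ne => by
    obtain ⟨k, hk, e⟩ := (Nat.dvd_prime_pow hp.out).1 (hP' ▸ card_dvd_of_le (inf_le_left : (P : Subgroup G) ⊓ Q ≤ P))
    interval_cases k
    · exact Or.inr (card_eq_one.1 e)
    · exact Or.inl (mem_sub.2 ⟨inf_le_left, e.trans (pow_one p)⟩)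
    · exact absurd (CL.Fgs.sylow_eq_of_le (inf_eq_left.1 (eq_of_le_of_card_ge inf_le_left (by rw [e, hP'])))).symm ne
  have nb : ∀ D ∈ sub P, D ≠ ⊥ := fun D hD e => by
    have := (mem_sub.1 hD).2
    rw [e, card_bot] at this
    omega
  have nP : (P : Subgroup G) ∉ sub P := fun h => by
    have := (mem_sub.1 h).2
    rw [hP'] at this
    nlinarith
  obtain ⟨t, ht⟩ := dvd_card (H := (P : Subgroup G)) (p ^ 2) (Finset.univ.filter fun Q : Sylow p G => (P : Subgroup G) ⊓ Q = ⊥)
    (fun h Q hQ => by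
      rw [Finset.mem_filter] at hQ ⊢
      refine ⟨Finset.mem_univ _, ?_⟩
      change (P : Subgroup G) ⊓ cj (h : G) (Q : Subgroup G) = ⊥
      have e := cj_inf (h : G) (P : Subgroup G) Q
      rwa [cj_eq (le_normalizer h.2), hQ.2, cj_bot, eq_comm] at e)
    (fun Q hQ => by
      have : stabilizer (P : Subgroup G) Q = ⊥ := eq_bot_iff.2 fun x hx => by
        obtain ⟨k, hk⟩ := IsPGroup.iff_orderOf.1 P.2 x
        have := CL.Fgs.mem_sylow_of_mem_normalizer (P := Q) ((orderOf_coe x).trans hk)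
          ((CL.Fgs.sylow_smul_eq_iff _ _).1 hx)
        exact Subtype.ext (mem_bot.1 ((Finset.mem_filter.1 hQ).2 ▸ (⟨x.2, this⟩ : (x : G) ∈ (P : Subgroup G) ⊓ Q)))
      rw [this, index_bot, hP'])
  have hE : (Finset.univ.filter fun Q : Sylow p G => (P : Subgroup G) ⊓ Q ∈ sub P).card = ∑ D ∈ sub P, (mD p D - 1) := by
    refine (Finset.card_eq_sum_card_fiberwise (f := fun Q : Sylow p G => (P : Subgroup G) ⊓ Q) (t := sub P)
      fun Q hQ => (Finset.mem_filter.1 (Finset.mem_coe.1 hQ)).2).trans (Finset.sum_congr rfl fun D hD => ?_)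
    rw [mD, Nat.card_eq_fintype_card, Fintype.card_subtype, ← Finset.card_erase_of_mem (a := P)
      (Finset.mem_filter.2 ⟨Finset.mem_univ _, (mem_sub.1 hD).1⟩)]
    congr 1
    ext Q
    simp only [Finset.mem_erase, Finset.mem_filter, Finset.mem_univ, true_and]
    refine ⟨fun h => ⟨fun e => nP (by simpa [e] using h.1), h.2 ▸ inf_le_right⟩, fun h => ?_⟩
    have l : D ≤ (P : Subgroup G) ⊓ Q := le_inf (mem_sub.1 hD).1 h.2
    have k := (tri Q h.1).resolve_right fun e => nb D hD (le_bot_iff.1 (e ▸ l))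
    exact ⟨k, (eq_of_le_of_card_ge l (by rw [(mem_sub.1 k).2, (mem_sub.1 hD).2])).symm⟩
  refine ⟨t, ?_⟩
  rw [← ht, ← hE, add_assoc, ← Finset.card_union_of_disjoint (Finset.disjoint_left.2 fun Q h1 h2 =>
    nb _ (Finset.mem_filter.1 h1).2 (Finset.mem_filter.1 h2).2), add_comm, ← Finset.card_insert_of_notMem (a := P),
    Nat.card_eq_fintype_card, ← Finset.card_univ]
  · congr 1
    ext Q
    simpa [or_iff_not_imp_left (a := Q = P)] using tri Q
  · simp only [Finset.mem_union, Finset.mem_filter, Finset.mem_univ, true_and, inf_idem, not_or]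
    refine ⟨nP, fun e => ?_⟩
    rw [e, card_bot] at hP'
    nlinarith

end B2j

theorem b2 : B2S.{u} := fun _ _ G _ _ h =>
  { subc := fun P => B2j.subc P (h.hy.card P)
    cnt := fun P => B2j.cnt P (h.hy.card P)
    orb := fun P A inv d hd => @B2j.dvd_card _ _ _ (B2j.act 𝒩((P : Subgroup G))) d A (fun k D hD => inv k k.2 D hD)
      fun D hD => B2j.stab P D ▸ hd D hD
    orb1 := fun P A inv D hD tr => by
      classical
      rw [← B2j.stab, ← @B2j.card_orb _ _ _ (B2j.act 𝒩((P : Subgroup G))) A (fun k D hD => inv k k.2 D hD) D hD,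
        Finset.filter_true_of_mem fun D' h' => let ⟨k, hk, e⟩ := tr D' h'; ⟨⟨k, hk⟩, e⟩] }

end CL.SP2
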