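/-
Project SP2 (S3597): the steps `Blk` and `Sy2`.
-/
import Cfsg.Agent.SP2.Defs

set_option autoImplicit false
set_option linter.unusedSectionVars false
open Cfsg Subgroup CL.Even CL.Grp
open scoped commutatorElement

namespace CL.SP2

universe u

namespace BlkJ

variable {G : Type u} [Group G] [Finite G] {p : ℕ} [hp : Fact p.Prime]

theorem bot_or {H D : Subgroup G} (hD : Nat.card D = p) (h : H ≤ D) : H = ⊥ ∨ H = D :=
  ((Nat.dvd_prime hp.out).1 (hD ▸ card_dvd_of_le h)).imp (eq_bot_of_card_eq H) fun e =>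
    eq_of_le_of_card_ge h (by rw [hD, e])

theorem card_or {H Q : Subgroup G} (hQ : Nat.card Q = p ^ 2) (h : H ≤ Q) : H = ⊥ ∨ Nat.card H = p ∨ H = Q := by
  obtain ⟨i, hi, e⟩ := (Nat.dvd_prime_pow hp.out).1 (hQ ▸ card_dvd_of_le h)
  interval_cases i
  · exact .inl (eq_bot_of_card_eq H e)
  · exact .inr (.inl (e.trans (pow_one p)))
  · exact .inr (.inr (eq_of_le_of_card_ge h (by rw [hQ, e])))

theorem ne_bot {D : Subgroup G} (hD : Nat.card D = p) : D ≠ ⊥ := fun e =>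
  hp.out.one_lt.ne (by rw [← hD, e, card_bot])

theorem between {D H Q : Subgroup G} (hD : Nat.card D = p) (hQ : Nat.card Q = p ^ 2) (h1 : D ≤ H) (h2 : H ≤ Q) :
    H = D ∨ H = Q := by
  rcases card_or hQ h2 with e | e | e
  · exact absurd (le_bot_iff.1 (e ▸ h1)) (ne_bot hD)
  · exact .inl (eq_of_le_of_card_ge h1 (by rw [hD, e])).symm
  · exact .inr e

theorem pg {D : Subgroup G} (hD : Nat.card D = p) : IsPGroup p D := IsPGroup.of_card (n := 1) (by rw [hD, pow_one])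

theorem sy_cj (P Q : Sylow p G) : ∃ h : G, cj h (P : Subgroup G) = Q :=
  let ⟨h, _, e⟩ := syl_conj (isSylowIn_top P) (isSylowIn_top Q); ⟨h, e⟩

variable (b : B1 p G) {P : Sylow p G} {D : Subgroup G} (hP : D ≤ P) (hD : Nat.card D = p)
  (hN : 𝒩((P : Subgroup G)) ≤ 𝒩(D))
include b hP hN

/-- a Sylow subgroup contains only one conjugate of `D` -/
theorem uniq {Q : Sylow p G} {h g : G} (e : cj h (P : Subgroup G) = Q) (k : cj g D ≤ Q) : cj g D = cj h D := by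
  obtain ⟨x, hx, e'⟩ := b.fus P D (h⁻¹ * g) hP (by rw [cj_mul, ← le_cj_iff, e]; exact k)
  rw [cj_eq (hN hx), cj_mul] at e'
  rw [← cj_cj_inv h (cj g D), ← e']

include hD

theorem free {g : G} (k : cj g D ≠ D) : D ⊓ 𝒩(cj g D) = ⊥ := by
  refine (bot_or hD inf_le_left).resolve_right fun e => k ?_
  obtain ⟨Q, hQ⟩ := (isPGroup_sup (pg hD) (isPGroup_cj (pg hD) g) (e.ge.trans inf_le_right)).exists_le_sylow
  obtain ⟨h, eh⟩ := sy_cj P Q
  rw [uniq b hP hN eh (le_sup_right.trans hQ), ← uniq b hP hN eh (g := 1) ((cj_one D).le.trans (le_sup_left.trans hQ)),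
    cj_one]

theorem act (hX : ∀ g : G, (P : Subgroup G) ⊓ 𝒩(cj g D) ≠ ⊥) {Q : Sylow p G} (hQ : D ≤ Q) {y : G} (hy : y ∈ Q)
    (g : G) : ∃ d ∈ D, cj y (cj g D) = cj d (cj g D) := by
  have cQ : (Q : Subgroup G) ≤ 𝒩(D) := ((b.ab Q).trans (cent_mono hQ)).trans (cent_le_norm D)
  by_cases k : cj g D = D
  · exact ⟨1, one_mem _, by rw [k, cj_one, cj_eq (cQ hy)]⟩
  obtain ⟨h, -, eh⟩ := b.tr D P Q hP hQ
  have h1 : (Q : Subgroup G) ⊓ 𝒩(cj g D) ≠ ⊥ := fun e => hX (h⁻¹ * g) (by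
    rw [← cj_eq_bot (g := h), cj_inf, eh, cj_norm, cj_mul, cj_cj_inv, e])
  rcases between hD (b.hy.card Q) le_sup_left (sup_le hQ (inf_le_left : _ ⊓ 𝒩(cj g D) ≤ _)) with e | e
  · exact absurd (le_bot_iff.1 ((le_inf (le_sup_right.trans e.le) inf_le_right).trans (free b hP hD hN k).le)) h1
  · obtain ⟨d, hd, x, hx, rfl⟩ := (mem_sup_nl (inf_le_left.trans cQ)).1 (e.ge hy)
    exact ⟨d, hd, by rw [cj_mul, cj_eq hx.2]⟩

omit b hP hD hN

/-- the elements of `C(D)` acting on the conjugates of `D` like elements of `D` -/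
def Sg (D : Subgroup G) : Subgroup G where
  carrier := {y | y ∈ 𝒞(D) ∧ ∀ g : G, ∃ d ∈ D, cj y (cj g D) = cj d (cj g D)}
  one_mem' := ⟨one_mem _, fun _ => ⟨1, one_mem _, rfl⟩⟩
  mul_mem' := fun {y y'} h h' => ⟨mul_mem h.1 h'.1, fun g => by
    obtain ⟨d', hd', e'⟩ := h'.2 g
    obtain ⟨d, hd, e⟩ := h.2 (d' * g)
    exact ⟨d * d', mul_mem hd hd', by rw [cj_mul, e', ← cj_mul d', e, cj_mul, cj_mul]⟩⟩
  inv_mem' := fun {y} h => ⟨inv_mem h.1, fun g => by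
    obtain ⟨d, hd, e⟩ := h.2 (y⁻¹ * g)
    rw [cj_mul, cj_cj_inv] at e
    exact ⟨d⁻¹, inv_mem hd, by rw [← cj_inv_cj d (cj y⁻¹ _), ← e]⟩⟩

theorem Sg_comm (hc : D ≤ 𝒞(D)) {y y' : G} (h : y ∈ Sg D) (h' : y' ∈ Sg D) (g : G) : ⁅y, y'⁆ ∈ 𝒩(cj g D) := by
  obtain ⟨d, hd, e⟩ := h.2 ((y' * y)⁻¹ * g)
  obtain ⟨d', hd', e'⟩ := h'.2 ((y' * y)⁻¹ * g)
  have k : cj (y * y') (cj ((y' * y)⁻¹ * g) D) = cj (y' * y) (cj ((y' * y)⁻¹ * g) D) := by
    rw [cj_mul y, e', ← cj_mul y, ← comm_of_mem h.1 hd', cj_mul d', e, cj_mul y', e, ← cj_mul y',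
      ← comm_of_mem h'.1 hd, cj_mul d, e', ← cj_mul d', ← cj_mul d, comm_of_mem (hc hd) hd']
  rw [cj_mul (y' * y)⁻¹, cj_cj_inv, ← cj_mul] at k
  rw [← cj_eq_iff_mem, commutatorElement_def, ← k, show (y * y' * y⁻¹ * y'⁻¹) = y * y' * (y' * y)⁻¹ by group, k, k]

end BlkJ

open BlkJ

theorem blk : BlkS.{u} := by
  intro p _ G _ _ b P D hD hN hX hp
  obtain ⟨hP, hD⟩ := mem_sub.1 hD
  let C : Subgroup G := ⨅ g : G, 𝒩(cj g D)
  have hC : ∀ g, C ≤ 𝒩(cj g D) := fun g => iInf_le _ g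
  have : C.Normal := ⟨fun x hx h => mem_iInf.2 fun g => by
    have := conj_mem_cj h (hC (h⁻¹ * g) hx)
    rwa [cj_norm, cj_mul, cj_cj_inv] at this⟩
  have hY : Y0 p D ≤ Sg D := iSup_le fun Q y hy => ⟨((b.ab Q.1).trans (cent_mono Q.2)) hy, act b hP hD hN hX Q.2 hy⟩
  have h1 : p ∣ Nat.card C := hp.trans (card_dvd_of_le (commutator_le.2 fun y hy y' hy' => mem_iInf.2
    (Sg_comm (hP.trans ((b.ab P).trans (cent_mono hP))) (hY hy) (hY hy'))))
  have h2 : ¬ D ≤ C := fun k => b.hy.nn D (normalizer_eq_top_iff.1 (eq_top_iff.2 fun g _ => cj_eq_iff_mem.1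
    (by_contra fun e => ne_bot hD (le_bot_iff.1 ((le_inf le_rfl (k.trans (hC g))).trans (free b hP hD hN e).le))))) hD
  have h3 : Nat.card ↥((P : Subgroup G) ⊓ C) = p := by
    rcases card_or (b.hy.card P) (inf_le_left : _ ⊓ C ≤ _) with e | e | e
    · have := (isSylowIn_inf_normal P C).not_dvd
      rw [e, relIndex_bot_left] at this
      exact absurd h1 this
    · exact e
    · exact absurd (hP.trans (e.ge.trans inf_le_right)) h2
  have h4 : ∀ g, (P : Subgroup G) ⊓ C ≠ cj g D := fun g e => h2 fun d hd =>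
    (Normal.mem_comm_iff inferInstance).1 (e.ge (conj_mem_cj g hd)).2 |> fun k => by simpa using k
  refine ⟨_, mem_sub.2 ⟨inf_le_left, h3⟩, fun e => h4 1 (e.trans (cj_one D).symm), ?_⟩
  choose c hc using sy_cj P
  have eq : ∀ x y : G, (x : G ⧸ 𝒩(D)) = y ↔ cj x D = cj y D := fun x y => by
    rw [QuotientGroup.eq, ← cj_eq_iff_mem, cj_mul, ← cj_inj (g := x), cj_cj_inv, eq_comm]
  have le : ∀ Q, cj (c Q) D ≤ (Q : Subgroup G) := fun Q => hc Q ▸ cj_mono _ hP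
  refine Nat.card_congr (Equiv.ofBijective (fun Q => (c Q.1 : G ⧸ 𝒩(D))) ⟨fun Q Q' e => ?_, fun x => ?_⟩)
  · have e' := (eq _ _).1 e
    have k : ∀ R : {Q : Sylow p G // (P : Subgroup G) ⊓ C ≤ Q}, (P : Subgroup G) ⊓ C ⊔ cj (c R.1) D = R.1 := fun R =>
      b.sup R.1 _ (mem_sub.2 ⟨R.2, h3⟩) _ (mem_sub.2 ⟨le _, (card_cj _ _).trans hD⟩) (h4 _)
    exact Subtype.ext (Sylow.ext ((k Q).symm.trans (e' ▸ k Q')))
  · obtain ⟨g, rfl⟩ := QuotientGroup.mk_surjective x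
    obtain ⟨Q, hQ⟩ := (isPGroup_sup (pg h3) (isPGroup_cj (pg hD) g) (inf_le_right.trans (hC g))).exists_le_sylow
    exact ⟨⟨Q, le_sup_left.trans hQ⟩, (eq _ _).2 (uniq b hP hN (hc Q) (le_sup_right.trans hQ)).symm⟩

theorem sy2 : Sy2S.{u} := by
  intro p hp G _ _ b D D' hD hD' ⟨_, M, hM, m2, mc⟩ ⟨_, M', hM', m2', mc'⟩
  have := Fact.mk Nat.prime_two
  have h5 := b.hy.five
  obtain ⟨T, hT⟩ := exists_isSylowIn (p := 2) (⊤ : Subgroup G)
  obtain ⟨g, -, hg⟩ := syl_conj_le hT m2 le_top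
  obtain ⟨g', -, hg'⟩ := syl_conj_le hT m2' le_top
  have hT2 : Nat.card T ≤ 2 * (p + 1) := by
    obtain ⟨j, hj⟩ := m2.exists_card_eq
    obtain ⟨k, hk⟩ := hT.isPGroup.exists_card_eq
    obtain ⟨m, hm⟩ : ∃ m, p = 4 * m + 3 := by
      rw [mc] at hj
      obtain _ | _ | j := j
      · omega
      · omega
      · exact ⟨2 ^ j - 1, by have := Nat.one_le_two_pow (n := j); rw [pow_succ, pow_succ] at hj; omega⟩
    have e : p ^ 2 * (p ^ 4 - 1) = 2 * (2 * (p + 1)) * (p ^ 2 * ((2 * m + 1) * (2 * (4 * m ^ 2 + 6 * m + 2) + 1))) := by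
      rw [show p ^ 4 - 1 = 4 * (p + 1) * ((2 * m + 1) * (2 * (4 * m ^ 2 + 6 * m + 2) + 1)) from
        Nat.sub_eq_of_eq_add (by rw [hm]; ring)]
      ring
    have h1 := (Nat.mul_dvd_mul_left 2 (card_subgroup_dvd_card T)).trans b.hy.dvd
    rw [e] at h1
    have h2 := Nat.Coprime.dvd_of_dvd_mul_right (by
      rw [hk, ← pow_succ']
      exact Nat.Coprime.pow_left _ (Nat.coprime_two_left.2 ((Odd.pow ⟨2 * m + 1, by omega⟩).mul
        ((odd_two_mul_add_one _).mul (odd_two_mul_add_one _))))) h1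
    exact Nat.le_of_dvd (by omega) (Nat.dvd_of_mul_dvd_mul_left two_pos h2)
  have hne : cj g M ⊓ cj g' M' ≠ ⊥ := fun e => by
    have h1 := card_mul_relIndex hg'
    have h2 : (cj g' M').relIndex (cj g M) ≤ (cj g' M').relIndex T :=
      relIndex_le_of_le_right hg FiniteIndex.index_ne_zero
    rw [← inf_relIndex_left, e, relIndex_bot_left, card_cj, mc] at h2
    rw [card_cj, mc'] at h1
    nlinarith
  obtain ⟨⟨t, t1, t2⟩, ht⟩ := ne_bot_iff_exists_ne_one.1 hne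
  have key : ∀ (E : Subgroup G), Nat.card E = p → t ∈ 𝒞(E) → IsSylowIn p E (centralizer {t}) := fun E hE hc =>
    isSylowIn_of_maximal (fun x hx => mem_centralizer_singleton_iff.2 (comm_of_mem hc hx)) (pg hE) fun U hU h1 h2 => by
      obtain ⟨Q, hQ⟩ := hU.exists_le_sylow
      refine (between hE (b.hy.card Q) h1 hQ).resolve_right fun e => ht (Subtype.ext ?_)
      obtain ⟨k, hk⟩ := isPGroup_iff_forall.1 hT.isPGroup t (hg t1)
      refine eq_one_of_coprime_of_mem Q.isPGroup' (Nat.Coprime.coprime_dvd_left (orderOf_dvd_of_pow_eq_one hk)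
        (Nat.Coprime.pow_left _ ((Nat.coprime_primes Nat.prime_two hp.out).2 (by omega)))) (b.hy.cen Q fun x hx => ?_)
      exact mem_centralizer_singleton_iff.1 (h2 (e.ge hx))
  obtain ⟨h, -, e⟩ := syl_conj (key (cj g D) ((card_cj _ _).trans hD) (cj_cent g D ▸ cj_mono g hM t1))
    (key (cj g' D') ((card_cj _ _).trans hD') (cj_cent g' D' ▸ cj_mono g' hM' t2))
  exact ⟨g'⁻¹ * h * g, by rw [cj_mul, cj_mul, e, cj_inv_cj]⟩

end CL.SP2
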