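/-
Project SP2 (S3597): from the character of degree `p²` to the group theoretic hypothesis on the quotient by the scalars.
-/
import Cfsg.Agent.SP2.Defs
import Cfsg.Agent.S0165
import Cfsg.Agent.Char.Ito
import Cfsg.Agent.Char.Values
import Cfsg.Agent.Fgs.SylTI

set_option autoImplicit false
set_option linter.unusedSectionVars false
open Cfsg Subgroup CL.Even CL.Grp Module

namespace CL.SP2

universe u

namespace Ch

variable {G : Type u} [Group G] [Finite G] {V : Type} [AddCommGroup V] [Module ℂ V] [FiniteDimensional ℂ V] {p : ℕ}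

/-- the elements acting as scalars -/
def sk (ρ : Representation ℂ G V) : Subgroup G where
  carrier := {g | ∃ c : ℂ, ∀ v, ρ g v = c • v}
  one_mem' := ⟨1, fun v => by rw [map_one, one_smul]; rfl⟩
  mul_mem' := by
    rintro a b ⟨c, hc⟩ ⟨d, hd⟩
    exact ⟨c * d, fun v => by rw [map_mul, End.mul_apply, hd, hc, mul_smul]⟩
  inv_mem' := by
    rintro a ⟨c, hc⟩
    refine ⟨c⁻¹, fun v => ?_⟩
    have e : ∀ w, c • ρ a⁻¹ w = w := fun w => by
      rw [← hc, ← End.mul_apply, ← map_mul, mul_inv_cancel, map_one, End.one_apply]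
    by_cases h0 : c = 0
    · have hv : v = 0 := by rw [← e v, h0, zero_smul]
      rw [hv, map_zero, smul_zero]
    · rw [eq_inv_smul_iff₀ h0, e]

instance sk_normal (ρ : Representation ℂ G V) : (sk ρ).Normal := ⟨by
  rintro a ⟨c, hc⟩ g
  refine ⟨c, fun v => ?_⟩
  rw [map_mul, map_mul, End.mul_apply, End.mul_apply, hc, map_smul, ← End.mul_apply, ← map_mul, mul_inv_cancel,
    map_one, End.one_apply]⟩

theorem eig_pow (ρ : Representation ℂ G V) {g : G} {v : V} {c : ℂ} (h : ρ g v = c • v) (hv : v ≠ 0) {n : ℕ}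
    (hn : g ^ n = 1) : c ^ n = 1 := by
  have e := CL.Char.pow_apply_of_eigen (ρ g) h n
  rw [← map_pow, hn, map_one, End.one_apply] at e
  exact smul_left_injective ℂ hv (by simpa using e.symm)

theorem span (ρ : Representation ℂ G V) [ρ.IsIrreducible] (M : Subgroup G) (W : Submodule ℂ V) (h0 : W ≠ ⊥)
    (hW : ∀ g ∈ M, ∀ w ∈ W, ρ g w ∈ W) : finrank ℂ V ≤ M.index * finrank ℂ W := by
  classical
  let _ := Fintype.ofFinite (G ⧸ M)
  have key : ∀ s : Finset (G ⧸ M), finrank ℂ (s.sup fun q => W.map (ρ q.out) : Submodule ℂ V) ≤ s.card * finrank ℂ W := by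
    intro s
    induction s using Finset.induction_on with
    | empty => simp
    | insert i s hi ih =>
      rw [Finset.sup_insert, Finset.card_insert_of_notMem hi, add_mul, one_mul, add_comm]
      exact (Submodule.finrank_add_le_finrank_add_finrank _ _).trans (Nat.add_le_add (Submodule.finrank_map_le _ _) ih)
  have hm : ∀ g : G, ∀ w ∈ W, ρ g w ∈ (⨆ q : G ⧸ M, W.map (ρ q.out) : Submodule ℂ V) := fun g w hw => by
    obtain ⟨m, hm⟩ := QuotientGroup.mk_out_eq_mul M g
    refine Submodule.mem_iSup_of_mem (g : G ⧸ M) ⟨ρ m⁻¹ w, hW _ (inv_mem m.2) w hw, ?_⟩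
    rw [hm, ← End.mul_apply, ← map_mul, mul_inv_cancel_right]
  have ht : (⨆ q : G ⧸ M, W.map (ρ q.out) : Submodule ℂ V) = ⊤ := by
    refine CL.Char.eq_top_of_invariant ρ _ (fun g w hw => ?_) fun h => h0 ?_
    · refine Submodule.mem_comap.1 ((iSup_le fun q => ?_ : _ ≤ Submodule.comap (ρ g) _) hw)
      rintro _ ⟨x, hx, rfl⟩
      rw [Submodule.mem_comap, ← End.mul_apply, ← map_mul]
      exact hm _ x hx
    · refine eq_bot_iff.2 fun w hw => ?_
      have := hm 1 w hw
      rwa [h, map_one, End.one_apply] at this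
  have := key Finset.univ
  rwa [Finset.sup_univ_eq_iSup, ht, finrank_top, Finset.card_univ, ← Nat.card_eq_fintype_card] at this

/-- a representation of degree `p²` whose character vanishes on the `p`-singular elements -/
structure H (p : ℕ) (ρ : Representation ℂ G V) : Prop where
  irr : ρ.IsIrreducible
  dim : finrank ℂ V = p ^ 2
  van : ∀ x, p ∣ orderOf x → ρ.character x = 0

variable [hp : Fact p.Prime] {ρ : Representation ℂ G V}

theorem H.nt (h : H p ρ) : ∃ v : V, v ≠ 0 := by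
  have : Nontrivial V := finrank_pos_iff.1 (by rw [h.dim]; exact pow_pos hp.out.pos _)
  exact exists_ne 0

theorem H.cop (h : H p ρ) {k : G} (hk : k ∈ sk ρ) : (orderOf k).Coprime p := by
  obtain ⟨c, hc⟩ := hk
  obtain ⟨v, hv⟩ := h.nt
  refine (hp.out.coprime_iff_not_dvd.2 fun hd => ?_).symm
  have e := CL.Char.char_mul_of_scalar ρ (LinearMap.ext hc : ρ k = c • LinearMap.id) 1
  rw [mul_one, h.van k hd, Representation.char_one, h.dim] at e
  have c0 : c ≠ 0 := fun h0 => by
    have := eig_pow ρ (hc v) hv (pow_orderOf_eq_one k)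
    rw [h0, zero_pow (orderOf_pos k).ne'] at this
    exact zero_ne_one this
  exact mul_ne_zero c0 (Nat.cast_ne_zero.2 (pow_pos hp.out.pos 2).ne') e.symm

theorem H.dvd {x : G} {j : ℕ} (hx : x ^ p ^ j = 1) (h1 : x ≠ 1) : p ∣ orderOf x := by
  by_contra hd
  exact h1 (eq_one_of_coprime_of_pow (hp.out.coprime_iff_not_dvd.2 hd).symm hx)

theorem H.sum (h : H p ρ) {D : Subgroup G} [Fintype D] (hD : IsPGroup p D) : ∑ d : D, ρ.character d = (p ^ 2 : ℕ) := by
  rw [Finset.sum_eq_single 1 (fun d _ h1 => ?_) (fun h1 => absurd (Finset.mem_univ _) h1), OneMemClass.coe_one,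
    Representation.char_one, h.dim]
  obtain ⟨j, hj⟩ := isPGroup_iff_forall.1 hD d d.2
  exact h.van _ (H.dvd hj fun e => h1 (Subtype.ext e))

theorem H.fix (h : H p ρ) {D : Subgroup G} (hD : IsPGroup p D) :
    Nat.card D * finrank ℂ (Representation.invariants (ρ.comp D.subtype)) = p ^ 2 := by
  let _ := Fintype.ofFinite D
  have h0 : (Nat.card D : ℂ) ≠ 0 := Nat.cast_ne_zero.2 Nat.card_pos.ne'
  let _ := invertibleOfNonzero h0
  have h2 := Representation.card_inv_mul_sum_char_eq_finrank (ρ.comp D.subtype)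
  rw [inv_mul_eq_iff_eq_mul₀ h0] at h2
  have h3 : ((Nat.card D * finrank ℂ (Representation.invariants (ρ.comp D.subtype)) : ℕ) : ℂ) = (p ^ 2 : ℕ) := by
    rw [Nat.cast_mul, ← h2, ← h.sum hD]; rfl
  exact_mod_cast h3

theorem H.stab (h : H p ρ) {D : Subgroup G} (hD : IsPGroup p D) {g : G}
    (hg : QuotientGroup.mk' (sk ρ) g ∈ 𝒩(D.map (QuotientGroup.mk' (sk ρ)))) {w : V}
    (hw : w ∈ Representation.invariants (ρ.comp D.subtype)) : ρ g w ∈ Representation.invariants (ρ.comp D.subtype) := by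
  intro d
  change ρ d (ρ g w) = ρ g w
  obtain ⟨d', hd', e⟩ := conj_mem' hg (mem_map_of_mem (QuotientGroup.mk' (sk ρ)) d.2)
  rw [← map_inv, ← map_mul, ← map_mul, QuotientGroup.mk'_eq_mk'] at e
  obtain ⟨k, hk, e⟩ := e
  have hk' := h.cop hk
  obtain ⟨c, hc⟩ := hk
  have e1 : ρ d (ρ g w) = c • ρ g w := by
    rw [← End.mul_apply, ← map_mul, show (d : G) * g = g * (d' * k) by rw [e]; group, map_mul, map_mul, End.mul_apply,
      End.mul_apply, hc, map_smul, map_smul, show ρ d' w = w from hw ⟨d', hd'⟩]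
  by_cases h0 : ρ g w = 0
  · rw [h0, map_zero]
  obtain ⟨j, hj⟩ := isPGroup_iff_forall.1 hD d d.2
  rw [e1, (pow_eq_one_iff_of_coprime (hk'.pow_right j)).1
    ⟨eig_pow ρ (hc _) h0 (pow_orderOf_eq_one k), eig_pow ρ e1 h0 hj⟩, one_smul]

theorem H.le_index (h : H p ρ) {D : Subgroup G} (hD : IsPGroup p D) :
    Nat.card D ≤ (𝒩(D.map (QuotientGroup.mk' (sk ρ)))).index := by
  have := h.irr
  have e := h.fix hD
  have hpos : 0 < finrank ℂ (Representation.invariants (ρ.comp D.subtype)) :=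
    Nat.pos_of_ne_zero fun h0 => by rw [h0, mul_zero] at e; exact (pow_pos hp.out.pos 2).ne e
  have h1 := span ρ ((𝒩(D.map (QuotientGroup.mk' (sk ρ)))).comap (QuotientGroup.mk' (sk ρ)))
    (Representation.invariants (ρ.comp D.subtype)) (fun h0 => by rw [h0, finrank_bot] at hpos; exact lt_irrefl _ hpos)
    fun g hg w hw => h.stab hD hg hw
  rw [index_comap_of_surjective _ (QuotientGroup.mk'_surjective _), h.dim, ← e] at h1
  exact Nat.le_of_mul_le_mul_right h1 hpos

theorem H.card_map (h : H p ρ) {D : Subgroup G} (hD : IsPGroup p D) :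
    Nat.card (D.map (QuotientGroup.mk' (sk ρ))) = Nat.card D := by
  rw [← relIndex_ker, QuotientGroup.ker_mk', ← inf_relIndex_right, show sk ρ ⊓ D = ⊥ from eq_bot_iff.2 fun x hx =>
    (eq_one_of_coprime_of_mem hD (h.cop hx.1) hx.2 : x = 1), relIndex_bot_left]

theorem H.cen (h : H p ρ) {P : Subgroup G} (hP : IsPGroup p P) (hc : Nat.card P = p ^ 2) {y : G}
    (hy : (orderOf y).Coprime p) (hyc : QuotientGroup.mk' (sk ρ) y ∈ 𝒞(P.map (QuotientGroup.mk' (sk ρ)))) :
    y ∈ sk ρ := by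
  let _ := Fintype.ofFinite P
  have e := h.fix hP
  rw [hc, Nat.mul_eq_left (pow_pos hp.out.pos 2).ne'] at e
  obtain ⟨⟨w, hw⟩, hw0, hw1⟩ := finrank_eq_one_iff'.1 e
  replace hw0 : w ≠ 0 := fun h0 => hw0 (Subtype.ext h0)
  obtain ⟨a, ha⟩ := hw1 ⟨ρ y w, h.stab hP (cent_le_norm _ hyc) hw⟩
  replace ha : ρ y w = a • w := (congrArg Subtype.val ha).symm
  have hE : ρ y * ∑ x : P, ρ x = a • ∑ x : P, ρ x := by
    refine LinearMap.ext fun v => ?_
    have hv : (∑ x : P, ρ x) v ∈ Representation.invariants (ρ.comp P.subtype) := fun d => by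
      change ρ d ((∑ x : P, ρ x) v) = _
      rw [← End.mul_apply, Finset.mul_sum, ← Equiv.sum_comp (Equiv.mulLeft d) fun x : P => ρ x]
      simp only [Equiv.coe_mulLeft, Subgroup.coe_mul, map_mul]
    obtain ⟨t, ht⟩ := hw1 ⟨_, hv⟩
    replace ht : (∑ x : P, ρ x) v = t • w := (congrArg Subtype.val ht).symm
    rw [End.mul_apply, LinearMap.smul_apply, ht, map_smul, ha, smul_comm]
  have h1 : ∑ x : P, ρ.character (y * x) = a * (p ^ 2 : ℕ) := by
    have := congrArg (LinearMap.trace ℂ V) hE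
    rw [Finset.mul_sum, map_sum, map_smul, map_sum, smul_eq_mul] at this
    rw [← h.sum hP]
    simpa only [Representation.character, map_mul] using this
  rw [Finset.sum_eq_single 1 (fun x _ hx => h.van _ ?_) (fun h1 => absurd (Finset.mem_univ _) h1), OneMemClass.coe_one,
    mul_one] at h1
  · obtain ⟨c, hc⟩ := (CL.Char.norm_char_eq_iff ρ y).1 (by
      rw [h1, norm_mul, CL.Char.norm_eq_one_of_pow_eq_one' (orderOf_pos y).ne' (eig_pow ρ ha hw0 (pow_orderOf_eq_one y)),
        one_mul, h.dim, Complex.norm_natCast])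
    exact ⟨c, fun v => by rw [hc]; rfl⟩
  · by_contra hd
    have hcm : Commute (QuotientGroup.mk' (sk ρ) y) (QuotientGroup.mk' (sk ρ) x) :=
      (comm_of_mem hyc (mem_map_of_mem _ x.2)).symm
    have h2 : (x : G) ^ (orderOf (y * x) * orderOf y) ∈ sk ρ := by
      have h3 := hcm.mul_pow (orderOf (y * x) * orderOf y)
      rw [← map_mul, ← map_pow, ← map_pow, ← map_pow, pow_mul, pow_orderOf_eq_one, one_pow, pow_mul' y,
        pow_orderOf_eq_one, one_pow, map_one, one_mul, eq_comm] at h3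
      exact (QuotientGroup.eq_one_iff _).1 h3
    have h4 := eq_one_of_coprime_of_mem hP (h.cop h2) (pow_mem x.2 _)
    obtain ⟨j, hj⟩ := isPGroup_iff_forall.1 hP x x.2
    exact hx (Subtype.ext ((pow_eq_one_iff_of_coprime
      (((hp.out.coprime_iff_not_dvd.2 hd).symm.mul_left hy).pow_right j)).1 ⟨h4, hj⟩))

end Ch

open Ch in
theorem ch : ChS.{u} := by
  rintro p hp G _ _ h5 hG ⟨⟨χ, n, ρ, hirr, rfl⟩, h1⟩
  have hn : finrank ℂ (Fin n → ℂ) = p ^ 2 := by
    change ρ.character 1 = _ at h1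
    rw [Representation.char_one] at h1
    exact_mod_cast h1
  have hd : p ^ 2 ∣ Nat.card G :=
    (((Nat.coprime_primes hp.out Nat.prime_two).2 (by omega)).pow_left 2).dvd_of_dvd_mul_left (hG ▸ dvd_mul_right _ _)
  have hd' : ¬ p ^ (2 + 1) ∣ Nat.card G := fun h => by
    have h2 := h.mul_left 2
    rw [hG, pow_succ, Nat.mul_dvd_mul_iff_left (pow_pos hp.out.pos 2)] at h2
    have h3 := (Nat.dvd_sub_iff_right (Nat.one_le_pow 4 p hp.out.pos) (dvd_pow_self p (by norm_num))).1 h2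
    exact hp.out.one_lt.ne' (Nat.dvd_one.1 h3)
  have h : H p ρ := ⟨hirr, hn, fun x hx => Cfsg.Agent.S0165.result ρ p 2 hp.out hd hd' (hn ▸ dvd_rfl) x hx⟩
  have hP : ∀ P : Sylow p G, Nat.card P = p ^ 2 := fun P =>
    Nat.dvd_antisymm (h.fix P.2 ▸ dvd_mul_right _ _) (P.pow_dvd_card_of_pow_dvd_card hd)
  have hs := Sylow.mapSurjective_surjective (QuotientGroup.mk'_surjective (sk ρ)) p
  refine ⟨sk ρ, inferInstance, h5, ?_, fun Q => ?_, fun Q => ?_, ?_, fun D hD hc => ?_⟩
  · rw [← hG]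
    exact Nat.mul_dvd_mul_left 2 (card_quotient_dvd_card _)
  · obtain ⟨P, rfl⟩ := hs Q
    exact (h.card_map P.2).trans (hP P)
  · obtain ⟨P, rfl⟩ := hs Q
    intro x hx
    obtain ⟨g, rfl⟩ := QuotientGroup.mk'_surjective (sk ρ) x
    obtain ⟨k, hk⟩ := exists_pow_coprime (p := p) g
    have h2 := h.cen P.2 (hP P) hk (by rw [map_pow]; exact pow_mem hx _)
    have h3 : QuotientGroup.mk' (sk ρ) g ^ p ^ k = 1 := by
      rw [← map_pow]; exact (QuotientGroup.eq_one_iff _).2 h2
    exact CL.Fgs.le_sylow_of_le_normalizer (isPGroup_zpowers h3) (zpowers_le.2 (cent_le_norm _ hx)) (mem_zpowers _)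
  · obtain ⟨P⟩ : Nonempty (Sylow p G) := inferInstance
    rw [(P.mapSurjective (QuotientGroup.mk'_surjective (sk ρ))).card_eq_index_normalizer, ← hP P]
    exact h.le_index P.2
  · obtain ⟨Q, hQ⟩ := (IsPGroup.of_card (hc.trans (pow_one p).symm)).exists_le_sylow
    obtain ⟨P, rfl⟩ := hs Q
    have hE : IsPGroup p ((P : Subgroup G) ⊓ D.comap (QuotientGroup.mk' (sk ρ)) : Subgroup G) := P.2.to_inf_left
    have e : ((P : Subgroup G) ⊓ D.comap (QuotientGroup.mk' (sk ρ))).map (QuotientGroup.mk' (sk ρ)) = D := by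
      refine le_antisymm (map_le_iff_le_comap.2 inf_le_right) fun x hx => ?_
      obtain ⟨g, hg, rfl⟩ := hQ hx
      exact ⟨g, ⟨hg, hx⟩, rfl⟩
    have h2 := h.le_index hE
    rw [← h.card_map hE, e, hc, normalizer_eq_top, index_top] at h2
    omega

end CL.SP2
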