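/-
Project SP2: the number of Sylow subgroups containing a subgroup of order `p` is `1` or `p + 1`.
-/
import Cfsg.Agent.SP2.Defs

set_option autoImplicit false
set_option linter.unusedSectionVars false
open Cfsg Subgroup CL.Even CL.Grp

namespace CL.SP2

universe u

namespace G1

variable {p : ℕ} [hp : Fact p.Prime] {G : Type u} [Group G] [Finite G]

theorem rel_le (H K : Subgroup G) : H.relIndex K ≤ H.index := by
  rw [← relIndex_top_right]
  exact relIndex_le_of_le_right le_top (by rw [relIndex_top_right]; exact index_ne_zero_of_finite)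

theorem idx_cj (g : G) (H : Subgroup G) : (cj g H).index = H.index :=
  Nat.eq_of_mul_eq_mul_left (Nat.card_pos (α := H)) (by rw [card_mul_index, ← card_cj g H, card_mul_index])

theorem cj_sub {P : Sylow p G} {D : Subgroup G} (hD : D ∈ sub P) {h : G} (hh : h ∈ 𝒩((P : Subgroup G))) :
    cj h D ∈ sub P := mem_sub.2 ⟨cj_le_of_le (mem_sub.1 hD).1 hh, (card_cj _ _).trans (mem_sub.1 hD).2⟩

theorem partA (b : B1 p G) {P : Sylow p G} {D0 D : Subgroup G} (h0 : D0 ∈ sub P) (hD : D ∈ sub P) (ne : D0 ≠ D)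
    (m : mD p D0 = p + 1) (d : p ^ 2 * (p ^ 2 - 1) ∣ 2 * Nat.card 𝒞(D0)) {e : ℕ}
    (he : Nat.card 𝒩((P : Subgroup G)) = p ^ 2 * e) (le : 2 * e ≤ p - 1) :
    Nat.card (𝒞(D) ⊓ 𝒩((P : Subgroup G)) : Subgroup G) ∣ p ^ 2 := by
  have e1 : p ^ 2 - 1 = (p + 1) * (p - 1) := by simpa using Nat.sq_sub_sq p 1
  rw [b.mC P D0 (mem_sub.1 h0).1, m, e1, mul_left_comm, mul_left_comm 2,
    Nat.mul_dvd_mul_iff_left (Nat.succ_pos p)] at d
  have h1 := Nat.le_of_dvd (Nat.mul_pos two_pos Nat.card_pos) d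
  have h2 : 𝒞(D0) ⊓ 𝒩((P : Subgroup G)) = 𝒩((P : Subgroup G)) := eq_of_le_of_card_ge inf_le_right (by
    have := Nat.mul_le_mul_left (p ^ 2) le
    rw [he]; linarith)
  rw [← b.hy.card P]
  refine card_dvd_of_le (le_trans ?_ (b.hy.cen P))
  rw [← b.sup P D0 h0 D hD ne, cent_sup, b.sup P D0 h0 D hD ne]
  exact le_inf (inf_le_right.trans (inf_eq_right.1 h2)) inf_le_left

theorem norm_le (b : B1 p G) {P : Sylow p G} {D : Subgroup G} (hD : D ∈ sub P) (hm : p ^ 2 ≤ mD p D) :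
    𝒩((P : Subgroup G)) ≤ 𝒩(D) := fun h hh => by
  by_contra hn
  have h' := cj_sub hD hh
  have l : 𝒩(cj h D) ⊓ 𝒞(D) ≤ 𝒞(D) ⊓ 𝒩((P : Subgroup G)) := by
    refine le_inf inf_le_right ?_
    rw [← b.sup P D hD _ h' fun e => hn (cj_eq_iff_mem.1 e.symm)]
    exact le_norm_sup (inf_le_right.trans (cent_le_norm _)) inf_le_left
  have h1 := card_inf_mul_relIndex 𝒩(cj h D) 𝒞(D)
  rw [b.mC P D (mem_sub.1 hD).1] at h1
  have h2 : mD p D ≤ (𝒩(cj h D)).index := Nat.le_of_mul_le_mul_left (by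
    rw [mul_comm, ← h1]; exact Nat.mul_le_mul (card_le_of_le l) (rel_le _ _)) Nat.card_pos
  have h3 := b.ncs P _ (mem_sub.1 h').1
  rw [b.mcj] at h3
  obtain ⟨e, k, he, hk, hc⟩ := b.e0 P
  have e0 : 0 < e := Nat.pos_of_ne_zero (by rintro rfl; exact Nat.card_pos.ne' he)
  have p1 : 1 < p ^ 4 := Nat.one_lt_pow (by norm_num) hp.out.one_lt
  have k0 : 0 < k := Nat.pos_of_ne_zero (by rintro rfl; simp at hk; omega)
  have h4 := Nat.le_of_dvd e0 (hc _ (mem_sub.1 h').1)
  have h5 : p ^ 2 * p ^ 2 ≤ _ := Nat.mul_le_mul (hm.trans h2) hm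
  have h6 := Nat.mul_le_mul_left (Nat.card (Sylow p G)) (h4.trans (Nat.le_mul_of_pos_right e k0))
  rw [← h3, ← pow_add] at h5
  nlinarith

theorem arith {p B s m : ℕ} (h5 : 5 < p) (h : B * (s * m) + 1 = p ^ 4) (hs : s = p + 1) (hm : p ^ 2 ≤ m)
    (md : s * m % p = 1) : B = p - 1 ∧ m = p ^ 2 + 1 := by
  subst hs
  have h1 : B < p := by
    by_contra k
    have := Nat.mul_le_mul (not_lt.1 k) (Nat.mul_le_mul_left (p + 1) hm)
    nlinarith
  have h2 : p ∣ B + 1 := by
    have : (B * ((p + 1) * m) + 1) % p = (B + 1) % p := by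
      rw [Nat.add_mod, Nat.mul_mod, md, mul_one, Nat.mod_mod, ← Nat.add_mod]
    rw [h] at this
    exact Nat.dvd_of_mod_eq_zero (by rw [← this]; simp [pow_succ])
  have h3 : B + 1 = p := le_antisymm h1 (Nat.le_of_dvd (Nat.succ_pos _) h2)
  subst h3
  refine ⟨rfl, Nat.eq_of_mul_eq_mul_left (show 0 < B * (B + 1 + 1) by positivity [show 0 < B by omega]) ?_⟩
  nlinarith

end G1

open G1

theorem g1 : G1S.{u} := by
  intro p hp G _ _ b loc blk P D hD
  by_contra hm
  replace hm : p ^ 2 ≤ mD p D := not_lt.1 hm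
  have h5 := b.hy.five
  have po : Odd p := hp.out.odd_of_ne_two (by omega)
  have hN := norm_le b hD hm
  have h3 := b.ncs P _ (mem_sub.1 hD).1
  rw [cD, relIndex_eq_one.2 hN, mul_one] at h3
  obtain ⟨e, k, he, hk, -⟩ := b.e0 P
  have md := b.nmod
  rw [h3] at hk md
  have p1 : 1 < p ^ 4 := Nat.one_lt_pow (by norm_num) hp.out.one_lt
  have B0 : 0 < 2 * e * k := Nat.pos_of_ne_zero fun r => by rw [r] at hk; omega
  have hs : (𝒩(D)).index < p ^ 2 := by
    by_contra r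
    have := (Nat.mul_le_mul (not_lt.1 r) hm).trans (Nat.le_mul_of_pos_left _ B0)
    rw [← pow_add, show 2 + 2 = 4 from rfl] at this
    omega
  have tn : TN p D := by
    rcases loc P D hD with r | r | r
    exacts [by nlinarith, by have := r.1; nlinarith, r]
  obtain ⟨D0, h0, ne, m0⟩ := blk P D hD hN (fun g r => by
    have := card_inf_mul_relIndex 𝒩(cj g D) P
    rw [inf_comm, r, card_bot, one_mul, b.hy.card] at this
    have k := rel_le 𝒩(cj g D) P
    rw [this, ← cj_norm, idx_cj] at k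
    omega) tn.1
  have fin : (𝒩(D)).index = p + 1 →
      2 * e * k = p - 1 ∧ Even (Nat.card (𝒞(D) ⊓ 𝒩((P : Subgroup G)) : Subgroup G)) := fun r => by
    obtain ⟨r1, r2⟩ := arith h5 hk r hm md
    refine ⟨r1, ?_⟩
    obtain ⟨j, hj⟩ := po
    have r3 : mD p D = 2 * (2 * (j * j + j) + 1) := by rw [r2, hj]; ring
    have := b.ev P D (mem_sub.1 hD).1 (r3 ▸ even_two_mul _)
    rw [b.mC P D (mem_sub.1 hD).1, r3, mul_assoc, show 4 = 2 * 2 from rfl, Nat.mul_dvd_mul_iff_left two_pos] at this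
    exact ((Nat.even_mul.1 (even_iff_two_dvd.2 this)).resolve_left (by simp))
  rcases loc P D0 h0 with r | ⟨r, M, -, hM, cM⟩ | r
  · exact b.hy.nn D (normalizer_eq_top_iff.1 (index_eq_one.1 (m0 ▸ r))) (mem_sub.1 hD).2
  · obtain ⟨r1, r2⟩ := fin (m0 ▸ r)
    obtain ⟨j, hj⟩ := hM.exists_card_eq
    have h4 : 4 ∣ p + 1 := by
      rw [← cM, hj]
      refine pow_dvd_pow 2 (m := 2) (by_contra fun q => ?_)
      have : j < 2 := not_le.1 q
      interval_cases j <;> omega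
    have : Even (p ^ 2 * e) := he ▸ r2.trans_dvd (card_dvd_of_le inf_le_right)
    obtain ⟨c, hc⟩ := (Nat.even_mul.1 this).resolve_left (Nat.not_even_iff_odd.2 po.pow)
    have : 2 * e * k = 4 * (c * k) := by rw [hc]; ring
    omega
  · rcases r.2 (m0 ▸ hs) with ⟨r1, r2⟩ | ⟨rfl, r1, -⟩
    · obtain ⟨r3, r4⟩ := fin (m0 ▸ r1)
      have := partA b h0 hD ne r1 r2 he (r3 ▸ Nat.le_mul_of_pos_right _ (Nat.pos_of_mul_pos_left B0))
      exact Nat.not_even_iff_odd.2 po.pow (r4.trans_dvd this)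
    · have := b.mmod P D (mem_sub.1 hD).1
      rw [← m0, r1, mul_assoc 2] at hk
      generalize e * k = c at hk
      generalize mD 17 D = m at hk hm this
      have : c < 2 := by nlinarith
      interval_cases c <;> omega

theorem g17 : G17S.{u} := by
  classical
  intro p hp G _ _ b b2 loc P lt D hD
  by_contra hm
  rw [not_or] at hm
  obtain ⟨rfl, m1, d1⟩ : p = 17 ∧ mD p D = 120 ∧ 17 * 4080 ∣ Nat.card 𝒞(D) := by
    rcases loc P D hD with r | r | r
    exacts [absurd r hm.1, absurd r.1 hm.2, (r.2 (lt D hD)).resolve_left fun q => hm.2 q.1]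
  set A := (sub P).filter fun D => mD 17 D = 120 with hA
  have inv : ∀ h ∈ 𝒩((P : Subgroup G)), ∀ D ∈ A, cj h D ∈ A := fun h hh D hD =>
    Finset.mem_filter.2 ⟨cj_sub (Finset.mem_filter.1 hD).1 hh, (b.mcj _ _).trans (Finset.mem_filter.1 hD).2⟩
  have A0 : 0 < A.card := Finset.card_pos.2 ⟨D, Finset.mem_filter.2 ⟨hD, m1⟩⟩
  have A1 : A.card ≤ 18 := (Finset.card_filter_le _ _).trans (b2.subc P)
  have sA : ∑ D ∈ A, (mD 17 D - 1) = 119 * A.card := by
    rw [Finset.sum_congr rfl (g := fun _ => 119) fun D hD => by rw [(Finset.mem_filter.1 hD).2], Finset.sum_const,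
      smul_eq_mul, mul_comm]
  have nc : ∀ D ∈ A, ∃ s, Nat.card (Sylow 17 G) * cD P D = s * 120 := fun D hD =>
    ⟨_, (Finset.mem_filter.1 hD).2 ▸ b.ncs P D (mem_sub.1 (Finset.mem_filter.1 hD).1).1⟩
  obtain ⟨e, k, he, hk, -⟩ := b.e0 P
  obtain ⟨t, ht⟩ := b2.cnt P
  have md := b.nmod
  have big := b.hy.big
  have orb := b2.orb P A inv
  generalize Nat.card (Sylow 17 G) = n at hk ht md big nc
  have : (e * k = 144 ∧ n = 290) ∨ (e * k = 8 ∧ n = 5220) := by
    rw [mul_assoc 2] at hk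
    generalize e * k = c at hk
    have : c < 145 := by nlinarith
    interval_cases c <;> omega
  rcases this with ⟨-, rfl⟩ | ⟨ek, rfl⟩
  · have := orb 12 fun D hD => by obtain ⟨s, hs⟩ := nc D hD; omega
    have k := Finset.sum_le_sum_of_subset (f := fun D => mD 17 D - 1) (Finset.filter_subset (fun D => mD 17 D = 120) (sub P))
    rw [← hA, sA] at k
    omega
  · have := orb 2 fun D hD => by obtain ⟨s, hs⟩ := nc D hD; omega
    have al : ∀ D0 ∈ sub P, mD 17 D0 = 1 ∨ mD 17 D0 = 120 := fun D0 h0 => by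
      rcases loc P D0 h0 with r | ⟨-, M, -, hM, cM⟩ | r
      · exact Or.inl r
      · obtain ⟨j, hj⟩ := hM.exists_card_eq
        have : 3 ∣ 2 ^ j := by rw [← hj, cM]; norm_num
        exact absurd (Nat.prime_three.dvd_of_dvd_pow this) (by norm_num)
      · rcases r.2 (lt D0 h0) with ⟨r1, r2⟩ | r1
        · have e8 : e ≤ 8 := Nat.le_of_dvd (by norm_num) ⟨k, ek.symm⟩
          have := Nat.le_of_dvd (by norm_num) (partA b h0 hD (by rintro rfl; omega) r1 r2 he (by omega))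
          have q := Nat.le_of_dvd Nat.card_pos d1
          rw [b.mC P D (mem_sub.1 hD).1, m1] at q
          omega
        · exact Or.inr r1.2.1
    rw [← Finset.sum_subset (Finset.filter_subset (fun D => mD 17 D = 120) (sub P)) fun D0 h0 q => by
      rw [(al D0 h0).resolve_right fun r => q (Finset.mem_filter.2 ⟨h0, r⟩), Nat.sub_self], ← hA, sA] at ht
    omega

end CL.SP2
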