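/-
Project SP2 (S3597): fixed-point-free action of an element of order `p`, and the parity of the number of Sylow subgroups.
-/
import Cfsg.Agent.SP2.Defs
import Cfsg.Agent.Grp.Coprime
import Cfsg.Agent.Grp.Primitive
import Mathlib.GroupTheory.Transfer

set_option autoImplicit false
open Cfsg Subgroup CL.Even CL.Grp

namespace CL.SP2

universe u

namespace L0

theorem ge {p n : ℕ} (h1 : n ≡ 1 [MOD p]) (h2 : n ≠ 0) : ∃ a, n = 1 + p * a := by
  obtain ⟨a, ha⟩ := (Nat.modEq_iff_dvd' (Nat.pos_of_ne_zero h2)).1 h1.symm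
  exact ⟨a, by omega⟩

theorem fac (s : ℕ) : (s + 1) ^ 4 - 1 = s * (s + 2) * ((s + 1) ^ 2 + 1) := Nat.sub_eq_of_eq_add (by ring)

theorem odd {p r j : ℕ} (hp : p % 2 = 1) (hr : r.Prime) (h2 : r ≠ 2) (h1 : r ^ j ≡ 1 [MOD p]) (hj : r ^ j ≠ 1)
    (h : r ^ j ∣ p ^ 4 - 1) (h5 : 5 < p) : False := by
  obtain ⟨s, rfl⟩ := Nat.exists_eq_add_one_of_ne_zero (show p ≠ 0 by omega)
  obtain ⟨a, ha⟩ := ge h1 (pow_pos hr.pos j).ne'
  have ho := Nat.odd_iff.1 ((hr.odd_of_ne_two h2).pow (n := j))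
  have k : ∀ {a b : ℕ}, ¬ r ∣ a → r ^ j ∣ a * b → r ^ j ∣ b := fun k1 k2 =>
    (((Nat.Prime.coprime_iff_not_dvd hr).2 k1).pow_left j).dvd_of_dvd_mul_left k2
  have k2 : ∀ a : ℕ, r ∣ a → ¬ r ∣ a + 2 := fun a k1 k2 =>
    h2 ((Nat.prime_dvd_prime_iff_eq hr Nat.prime_two).1 ((Nat.dvd_add_right k1).1 k2))
  obtain ⟨a, rfl⟩ := Nat.exists_eq_add_one_of_ne_zero (show a ≠ 0 by rintro rfl; omega)
  have h3 : s + 2 ≤ r ^ j := by nlinarith
  rw [fac] at h
  by_cases e : r ∣ s * (s + 2)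
  · have h4 := k (show ¬ r ∣ (s + 1) ^ 2 + 1 from (by ring : s * (s + 2) + 2 = (s + 1) ^ 2 + 1) ▸ k2 _ e) (h.trans (mul_comm _ _).dvd)
    by_cases e' : r ∣ s
    · have := Nat.le_of_dvd (by omega) (k (k2 _ e') (h4.trans (mul_comm _ _).dvd))
      omega
    · have := Nat.le_of_dvd (by omega) (k e' h4)
      omega
  · obtain ⟨c, hc⟩ := k e h
    have h6 : c ≡ 1 [MOD s + 1] := by
      have := h1.mul_right c
      rw [← hc, one_mul] at this
      exact this.symm.trans (by simp [Nat.ModEq, pow_two])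
    obtain ⟨b, hb⟩ := ge h6 (by rintro rfl; simp at hc)
    rcases b with _ | b
    · have h7 := Nat.odd_iff.1 ((Nat.odd_iff.2 hp).pow (n := 2))
      rw [hb, mul_zero, add_zero, mul_one] at hc
      omega
    · have h7 : s + 2 ≤ c := by nlinarith
      nlinarith [Nat.mul_le_mul h3 h7]

theorem two {p j : ℕ} (hp : p % 2 = 1) (h1 : 2 ^ j ≡ 1 [MOD p]) (hj : 2 ^ j ≠ 1) (h : 2 * 2 ^ j ∣ p ^ 4 - 1) (h5 : 5 < p) :
    2 ^ j = p + 1 := by
  obtain ⟨t, rfl⟩ : ∃ t, p = 2 * t + 1 := ⟨p / 2, by omega⟩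
  obtain ⟨a, ha⟩ := ge h1 (by positivity)
  rw [fac, show (2 * t + 1) ^ 2 + 1 = 2 * (2 * (t * t + t) + 1) by ring, mul_left_comm] at h
  obtain ⟨c, hc⟩ := (Nat.Coprime.pow_left j (by simp)).dvd_of_dvd_mul_right (Nat.dvd_of_mul_dvd_mul_left two_pos h)
  obtain ⟨a, rfl⟩ := Nat.exists_eq_add_one_of_ne_zero (show a ≠ 0 by rintro rfl; omega)
  rw [ha] at hc ⊢
  have h2 : 2 * t + 1 ∣ c + 1 := (Nat.dvd_add_left (Dvd.intro ((a + 1) * c) rfl)).1 ⟨2 * t + 1, by nlinarith⟩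
  have h3 := Nat.le_of_dvd (by omega) h2
  rcases a with _ | a
  · ring
  · nlinarith [Nat.mul_le_mul_left (1 + (2 * t + 1) * (a + 1 + 1)) (show 2 * t ≤ c by omega), Nat.zero_le (t * t * a),
      Nat.zero_le (t * a)]

end L0

theorem l0 : L0S.{u} := by
  intro p hp G _ _ h5 M x hx hM hf h0 hd
  have hp2 : p % 2 = 1 := hp.out.eq_two_or_odd.resolve_left (by omega)
  have hX : IsPGroup p (zpowers x) := IsPGroup.of_card (n := 1) (by rw [Nat.card_zpowers, hx, pow_one])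
  have hm : ∀ R ≤ M, zpowers x ≤ 𝒩(R) → Nat.card R ≡ 1 [MOD p] := fun R h1 h2 => by
    have := card_modEq_card_inf_centralizer hX h2
    rwa [(eq_bot_iff.2 fun y hy => hf y (h1 hy.1) (mem_centralizer_iff.1 hy.2 x (mem_zpowers x)) :
      R ⊓ centralizer (zpowers x : Set G) = ⊥), card_bot] at this
  have h1 := hm M le_rfl (zpowers_le.2 hM)
  have h2 : (Nat.card (zpowers x)).Coprime (Nat.card M) := by
    rw [Nat.card_zpowers, hx, Nat.Prime.coprime_iff_not_dvd hp.out]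
    exact fun e => hp.out.one_lt.ne' (Nat.dvd_one.1 ((h1.dvd_iff dvd_rfl).1 e))
  have h3 : Nat.card M = 2 ^ (Nat.card M).primeFactorsList.length :=
    Nat.eq_prime_pow_of_unique_prime_dvd Nat.card_pos.ne' fun {r} hr hr' => by
      by_contra h2'
      have := Fact.mk hr
      obtain ⟨R, hR, hn⟩ := exists_isSylowIn_le_normalizer r (zpowers_le.2 hM) h2 (Or.inl (have := hX.isNilpotent; inferInstance))
      have h4 := hm R hR.le hn
      have h5' := ((card_dvd_of_le hR.le).trans (dvd_mul_left _ 2)).trans hd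
      rw [hR.card_eq_pow] at h4 h5'
      exact L0.odd hp2 hr h2' h4 (Nat.one_lt_pow (hr.factorization_pos_of_dvd Nat.card_pos.ne' hr').ne' hr.one_lt).ne' h5' h5
  refine ⟨h3.trans (L0.two hp2 (h3 ▸ h1) (h3 ▸ fun e => h0 (card_eq_one.1 e)) (h3 ▸ hd) h5), IsPGroup.of_card h3⟩

theorem ev : EvS.{u} := by
  intro p hp G _ _ hp2 he
  by_contra h4
  obtain ⟨P⟩ : Nonempty (Sylow p G) := inferInstance
  obtain ⟨S⟩ : Nonempty (Sylow 2 G) := inferInstance
  have h1 : Nat.card (Sylow p G) * Nat.card (normalizer (P : Set G)) = Nat.card G := by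
    rw [P.card_eq_index_normalizer, index_mul_card]
  have h2 : 2 ∣ Nat.card G := h1 ▸ he.two_dvd.mul_right _
  have h3 : Nat.card S = 2 := by
    obtain ⟨k, hk⟩ := S.isPGroup'.exists_card_eq
    have k1 := S.dvd_card_of_dvd_card h2
    have k2 := (S : Subgroup G).card_subgroup_dvd_card
    rw [hk] at k1 k2 ⊢
    rcases k with _ | _ | k
    exacts [by simp at k1, rfl, absurd ((pow_dvd_pow 2 (by omega : 2 ≤ k + 1 + 1)).trans k2) h4]
  obtain ⟨U, _, h6⟩ : ∃ U : Subgroup G, U.Normal ∧ U.index = 2 := ⟨_, inferInstance, (IsCyclic.isComplement'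
    ((Nat.minFac_eq_two_iff _).2 h2) (P := S) (isCyclic_of_prime_card h3)).symm.index_eq_card.trans h3⟩
  have h7 : (P : Subgroup G) ≤ U := fun x hx => by
    obtain ⟨k, hk⟩ := IsPGroup.iff_orderOf.1 P.2 ⟨x, hx⟩
    refine zpowers_le.2 (U.pow_index_mem x) (mem_zpowers_pow_iff.2 ?_)
    rw [h6, ← orderOf_mk x hx, hk]
    exact ((Nat.coprime_primes Nat.prime_two hp.out).2 hp2.symm).pow_right k
  have h8 := U.relIndex_dvd_card (normalizer (P : Set G))
  rw [← relIndex_sup_right, P.normalizer_sup_eq_top' h7, relIndex_top_right, h6] at h8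
  exact h4 (h1 ▸ Nat.mul_dvd_mul he.two_dvd h8)

end CL.SP2
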