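/-
Project SP2 (S3597): perfect groups with a self-centralising Sylow subgroup of order `p`.
-/
import Cfsg.Agent.SP2.Defs
import Cfsg.Agent.S4700
import Cfsg.Agent.S0995
import Cfsg.Agent.Inv.PSL2pA
import Cfsg.Agent.Grp.CoresPi
import Mathlib.GroupTheory.SpecificGroups.ZGroup
import Mathlib.RingTheory.ZMod.UnitsCyclic

set_option autoImplicit false
set_option linter.unusedSectionVars false
open Cfsg Subgroup CL.Even CL.Grp

namespace CL.SP2

universe u

namespace L1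

theorem ar1 {p e n : ℕ} (hp : 5 < p) (he : e ∣ p - 1) (h : 2 * (e * p * (1 + n * p)) = p * (p ^ 2 - 1)) :
    1 + n * p = p + 1 := by
  obtain ⟨q, rfl⟩ : ∃ q, p = q + 1 := ⟨p - 1, by omega⟩
  rw [Nat.add_sub_cancel] at he
  have h0 : (q + 1) ^ 2 - 1 = q * (q + 2) := by rw [Nat.sub_eq_iff_eq_add (Nat.one_le_pow _ _ (by omega))]; ring
  have h1 : 2 * e * (1 + n * (q + 1)) = q * (q + 2) :=
    Nat.eq_of_mul_eq_mul_left (show 0 < q + 1 by omega) (by rw [← h0, ← h]; ring)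
  have h2 : q + 1 ∣ 2 * e + 1 :=
    (Nat.dvd_add_left (Dvd.intro (2 * e * n) rfl)).1 ⟨q + 1, by nlinarith⟩
  have h3 := Nat.le_of_dvd (by omega) he
  obtain ⟨k, hk⟩ := h2
  have h4 : k = 1 := by
    rcases k with _ | _ | k
    · omega
    · rfl
    · nlinarith
  subst h4
  have h5 : q = 2 * e := by omega
  rw [← h5] at h1
  have := Nat.eq_of_mul_eq_mul_left (show 0 < q by omega) h1
  omega

theorem ar1' {p : ℕ} (hp : 5 < p) (h : p * (p ^ 2 - 1) * (p + 1) ∣ p * (p ^ 4 - 1)) : False := by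
  have h0 : p ^ 4 - 1 = (p ^ 2 - 1) * (p ^ 2 + 1) := by
    rw [mul_comm, ← Nat.sq_sub_sq, ← pow_mul]
  have h1 : 1 < p ^ 2 := Nat.one_lt_pow (by decide) (by omega)
  rw [h0, ← mul_assoc] at h
  have h2 := Nat.dvd_of_mul_dvd_mul_left (Nat.mul_pos (by omega) (by omega)) h
  have h3 : p + 1 ∣ 2 := by
    obtain ⟨q, rfl⟩ : ∃ q, p = q + 1 := ⟨p - 1, by omega⟩
    exact (Nat.dvd_add_right (Dvd.intro q rfl)).1 (by convert h2 using 1; ring)
  have := Nat.le_of_dvd (by decide) h3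
  omega

theorem ar2 {k c : ℕ} (hp : 5 < 2 ^ k + 1) (hq : (2 ^ k + 1).Prime)
    (h : 2 * (2 ^ k * ((2 ^ k) ^ 2 - 1) * c) ∣ (2 ^ k + 1) * ((2 ^ k + 1) ^ 4 - 1)) : 2 ^ k = 16 := by
  obtain ⟨r, hr⟩ : ∃ r, 2 ^ k = r + 1 := ⟨2 ^ k - 1, by omega⟩
  have h0 : (r + 1) ^ 2 - 1 = (r + 2) * r := by rw [Nat.sub_eq_iff_eq_add (Nat.one_le_pow _ _ (by omega))]; ring
  have h1 : (r + 1 + 1) ^ 4 - 1 = r * (r ^ 3 + 8 * r ^ 2 + 24 * r + 32) + 15 := by
    rw [Nat.sub_eq_iff_eq_add (Nat.one_le_pow _ _ (by omega))]; ring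
  rw [hr, h0, h1] at h
  have h2 : (r + 2) * r ∣ (r + 2) * (r * (r ^ 3 + 8 * r ^ 2 + 24 * r + 32) + 15) :=
    Dvd.dvd.trans ⟨2 * (r + 1) * c, by ring⟩ h
  have h3 : r ∣ 15 := (Nat.dvd_add_right (Dvd.intro _ rfl)).1 (Nat.dvd_of_mul_dvd_mul_left (by omega) h2)
  have h4 := Nat.le_of_dvd (by decide) h3
  have h5 : r = 5 ∨ r = 15 := by
    have : 3 < r := by omega
    interval_cases r <;> simp_all
  rcases h5 with rfl | rfl
  · have : 3 ∣ 2 ^ k := by rw [hr]; decide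
    exact absurd (Nat.prime_three.dvd_of_dvd_pow this) (by decide)
  · exact hr

theorem ar3 {p n h u : ℕ} (hp : 5 < p) (hn : 1 + n * p < p ^ 2) (h0 : 0 < h) (u0 : 0 < u)
    (e : n * (u + 1) = h * u * p + u ^ 2 + u + h) (d : 1 + n * p ∣ p ^ 4 - 1) : p = 13 ∧ n = 8 := by
  have n1 : n < p := by
    by_contra k
    nlinarith
  have h1 : h = 1 := by
    by_contra k
    have : 2 * u * p ≤ h * u * p := Nat.mul_le_mul_right _ (Nat.mul_le_mul_right _ (by omega))
    nlinarith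
  subst h1
  obtain ⟨B, hB⟩ := d
  have p4 : 1 ≤ p ^ 4 := Nat.one_le_pow _ _ (by omega)
  have hB' : p ^ 4 = (1 + n * p) * B + 1 := by omega
  obtain ⟨b, hb⟩ : p ∣ B + 1 := (Nat.dvd_add_left (Dvd.intro (n * B) rfl)).1 ⟨p ^ 3, by nlinarith⟩
  have e1 : b + n * b * p = p ^ 3 + n := Nat.eq_of_mul_eq_mul_left (show 0 < p by omega) (by
    have : (1 + n * p) * (B + 1) = (1 + n * p) * (p * b) := by rw [hb]
    nlinarith)
  have n2 : p < 2 * n := by
    by_contra k
    nlinarith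
  have e2 : n * b < p ^ 2 := by
    by_contra k
    have k1 : p ^ 2 * p ≤ n * b * p := Nat.mul_le_mul_right _ (by omega)
    have k2 : b ≤ n := by nlinarith
    nlinarith
  obtain ⟨g, hg⟩ : ∃ g, p ^ 2 = n * b + (g + 1) := ⟨p ^ 2 - n * b - 1, by omega⟩
  have e3 : b = n + (g + 1) * p := by
    have : p ^ 3 = (n * b + (g + 1)) * p := by rw [← hg]; ring
    nlinarith
  have g0 : g = 0 := by
    by_contra k
    have : 2 * p ≤ (g + 1) * p := Nat.mul_le_mul_right _ (by omega)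
    nlinarith
  subst g0
  subst e3
  have u1 : u = 1 := by
    by_contra k
    have k1 : 2 * p < 3 * n := by
      by_contra k2
      have : 2 ≤ u := by omega
      nlinarith
    nlinarith
  subst u1
  obtain rfl : p = 2 * n - 3 := by omega
  obtain ⟨m, rfl⟩ : ∃ m, n = m + 2 := ⟨n - 2, by omega⟩
  rw [show 2 * (m + 2) - 3 = 2 * m + 1 by omega] at hg hp ⊢
  have : m = 6 := by nlinarith
  omega

variable {Y : Type u} [Group Y] [Finite Y] {p : ℕ} [hp : Fact p.Prime]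

theorem ncyc (hY : commutator Y = ⊤) (S : Sylow 2 Y) (hS : IsCyclic S) : ¬ 2 ∣ Nat.card Y := fun h2 => by
  have hm := (Nat.minFac_eq_two_iff _).2 h2
  have c := hS.isComplement' hm
  have k : (MonoidHom.transferSylow S (hS.normalizer_le_centralizer hm)).ker = ⊤ := by
    rw [eq_top_iff, ← hY]
    refine commutator_le.2 fun a _ b _ => ?_
    rw [MonoidHom.mem_ker, map_commutatorElement, commutatorElement_eq_one_iff_mul_comm]
    exact hS.isMulCommutative.1.1 _ _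
  rw [k, isComplement'_top_left] at c
  exact S.ne_bot_of_dvd_card h2 c

theorem odd (hY : commutator Y = ⊤) (Q : Sylow p Y) (hQ : Nat.card Q = p) (hC : 𝒞((Q : Subgroup Y)) ≤ Q) (h2 : 2 < p)
    (hm : ¬ 2 ∣ Nat.card (Sylow p Y)) : ¬ 2 ∣ Nat.card Y := by
  have cQ : IsCyclic Q := isCyclic_of_prime_card hQ
  have cA : IsCyclic (MulAut Q) := by
    have : IsCyclic (ZMod (Nat.card Q))ˣ := ZMod.isCyclic_units_prime (hQ.symm ▸ hp.out)
    exact isCyclic_of_surjective _ (cQ.mulAutMulEquiv Q).symm.surjective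
  have zN : IsZGroup 𝒩((Q : Subgroup Y)) :=
    isZGroup_of_coprime (f := inclusion (le_normalizer (H := (Q : Subgroup Y))))
      (f' := (Q : Subgroup Y).normalizerMonoidHom)
      (by rw [normalizerMonoidHom_ker, inclusion_range]; exact comap_mono hC)
      (by rw [cQ.card_mulAut, hQ, Nat.totient_prime hp.out]
          exact (Nat.coprime_self_sub_right hp.out.one_le).2 (Nat.coprime_one_right p))
  obtain ⟨R⟩ : Nonempty (Sylow 2 𝒩((Q : Subgroup Y))) := inferInstance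
  refine ncyc hY ((R.2.map 𝒩((Q : Subgroup Y)).subtype).toSylow ?_) ?_
  · rw [index_map_subtype]
    exact fun k => (Nat.prime_two.dvd_mul.1 k).elim R.not_dvd_index (Q.card_eq_index_normalizer ▸ hm)
  · exact isCyclic_of_surjective _ (𝒩((Q : Subgroup Y)).subtype.subgroupMap_surjective R)

end L1

open L1 in
theorem l1 : L1S.{u} := by
  intro h0 p hp Y _ _ h5 hY Q hQ hC hd hm
  obtain ⟨⟨x, xQ⟩, hx⟩ := exists_prime_orderOf_dvd_card' (G := Q) p hQ.symm.dvd
  rw [← orderOf_coe] at hx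
  have zQ : zpowers x = Q := eq_of_le_of_card_ge (zpowers_le.2 xQ) (by rw [Nat.card_zpowers, hx, hQ])
  have cx : centralizer {x} = zpowers x := le_antisymm
    (by rw [← centralizer_closure, ← zpowers_eq_closure, zQ]; exact hC)
    (zpowers_le.2 (mem_centralizer_singleton_iff.2 rfl))
  obtain ⟨n, t, -, ⟨e, he⟩, hn, hc⟩ := Cfsg.Agent.S0995.result hY p x hx cx
  have t0 : 0 < t := Nat.pos_of_ne_zero (by rintro rfl; omega)
  have cY : Nat.card Y = e * p * (1 + n * p) := Nat.eq_of_mul_eq_mul_right t0 (by rw [hc, he]; ring)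
  have ed : e ∣ p - 1 := ⟨t, by rw [he, mul_comm]⟩
  have d1 : 2 * e * (1 + n * p) ∣ p ^ 4 - 1 :=
    Nat.dvd_of_mul_dvd_mul_left hp.out.pos (by convert hd using 1; rw [cY]; ring)
  have hO : Nat.card (pPrimeCore p Y) = 1 ∨ Nat.card (pPrimeCore p Y) = p + 1 ∧ IsPGroup 2 (pPrimeCore p Y) := by
    by_cases k : pPrimeCore p Y = ⊥
    · exact .inl (card_eq_one.2 k)
    have co := pPrimeCore_coprime p Y
    refine .inr (h0 p Y h5 _ x hx (by rw [normalizer_eq_top]; trivial) (fun y hy c => ?_) k ?_)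
    · have : y ∈ zpowers x := cx ▸ mem_centralizer_singleton_iff.2 c.symm
      exact disjoint_def.1 (disjoint_of_coprime_natCard (by rwa [Nat.card_zpowers, hx])) hy this
    · refine Nat.Coprime.dvd_of_dvd_mul_left (Nat.Coprime.mul_left ?_ co)
        ((Nat.mul_dvd_mul_left 2 (card_subgroup_dvd_card _)).trans hd)
      exact (Nat.coprime_primes Nat.prime_two hp.out).2 (by omega)
  have cq := card_eq_card_quotient_mul_card_subgroup (pPrimeCore p Y)
  rcases Cfsg.Agent.S4700.result hY p Q hQ n hn with ⟨F, _, _, hF, -, ⟨φ⟩⟩ | ⟨k, F, _, _, hF, rfl, -, ⟨φ⟩⟩ |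
    ⟨h, u, h1, h2, h3⟩
  · have c := CL.Inv.two_mul_card_psl2 (F := F) (hF ▸ hp.out.odd_of_ne_two (by omega))
    rw [hF, ← Nat.card_congr φ.toEquiv] at c
    rcases hO with k | ⟨k, -⟩ <;> rw [k] at cq
    · rw [mul_one] at cq
      rw [← cq] at c
      exact .inl ⟨hn.trans (ar1 h5 ed (cY ▸ c)), c.symm.dvd⟩
    · exact (ar1' h5 (by rwa [cq, ← mul_assoc, c] at hd)).elim
  · rw [Nat.card_congr φ.toEquiv, CL.SLn.card_SL_two, hF] at cq
    have q16 := ar2 h5 hp.out (cq ▸ hd)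
    refine .inr ⟨by rw [q16], ?_⟩
    rw [hn, cq]
    rcases hO with k | ⟨k, k2⟩
    · rw [cq, k, q16] at cY
      rw [q16] at ed ⊢
      refine ⟨?_, Dvd.intro _ rfl⟩
      have := Nat.le_of_dvd (by decide) ed
      interval_cases e <;> omega
    · obtain ⟨j, hj⟩ := IsPGroup.iff_card.1 k2
      have : 3 ∣ 2 ^ j := by rw [← hj, k, q16]; decide
      exact absurd (Nat.prime_three.dvd_of_dvd_pow this) (by decide)
  · obtain ⟨rfl, rfl⟩ := ar3 h5 (hn ▸ hm) h1 h2 h3 (Dvd.dvd.trans (Dvd.intro_left _ rfl) d1)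
    have o := odd hY Q hQ hC (by decide) (by rw [hn]; decide)
    have e1 : e = 1 := by
      have := Nat.le_of_dvd (by decide) ed
      rw [cY] at o
      interval_cases e <;> omega
    subst e1
    have : IsZGroup Y := IsZGroup.of_squarefree (by rw [cY]; decide +kernel)
    have : Nontrivial Y := Finite.one_lt_card_iff_nontrivial.1 (by rw [cY]; decide)
    exact absurd hY (IsZGroup.commutator_lt (G := Y)).ne

end CL.SP2
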