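/-
Project SP2: the local dichotomy.
-/
import Cfsg.Agent.SP2.Defs
import Cfsg.Agent.Fgs.SylNum
import Cfsg.Agent.Fgs.SylTI

set_option autoImplicit false
set_option linter.unusedSectionVars false
open Cfsg Subgroup CL.Even CL.Grp
open scoped commutatorElement

namespace CL.SP2

universe u

namespace L2x
variable {X : Type u} [Group X] [Finite X] {p : ℕ} [hp : Fact p.Prime]

theorem syl_in {Q : Sylow p X} {L : Subgroup X} (h : (Q : Subgroup X) ≤ L) : IsSylowIn p (Q : Subgroup X) L :=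
  IsSylowIn.of_le (isSylowIn_top Q) h le_top

theorem exists_cj (Q R : Sylow p X) : ∃ g : X, cj g (Q : Subgroup X) = R := by
  obtain ⟨g, -, hg⟩ := syl_conj (syl_in (Q := Q) le_top) (syl_in (Q := R) le_top)
  exact ⟨g, hg⟩

theorem inf_bot {Q M : Subgroup X} (hQ : Nat.card Q = p) (h : ¬ Q ≤ M) : Q ⊓ M = ⊥ := by
  have h1 : Nat.card (Q ⊓ M : Subgroup X) ∣ p := hQ ▸ card_dvd_of_le inf_le_left
  rcases (Nat.dvd_prime hp.out).1 h1 with h2 | h2
  · exact card_eq_one.1 h2
  · exact absurd (inf_eq_left.1 (eq_of_le_of_card_ge inf_le_left (by rw [hQ, h2]))) h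

theorem card_le (Q : Sylow p X) :
    Nat.card (Sylow p X) ≤ Nat.card (⁅normalClosure ((Q : Subgroup X) : Set X),
      normalClosure ((Q : Subgroup X) : Set X)⁆ : Subgroup X) := by
  set Y := normalClosure ((Q : Subgroup X) : Set X) with hY
  have hQY : (Q : Subgroup X) ≤ Y := le_normalClosure
  have hn : (Q : Subgroup X) ≤ 𝒩((⁅Y, Y⁆ : Subgroup X)) := le_normalizer_of_normal
  refine Nat.card_le_card_of_surjective (fun m : (⁅Y, Y⁆ : Subgroup X) => (m : X) • Q) fun R => ?_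
  obtain ⟨g, hg⟩ := exists_cj Q R
  have hRY : (R : Subgroup X) ≤ Y := hg ▸ cj_le_of_le hQY (le_normalizer_of_normal (mem_top g))
  obtain ⟨y, hy, hyQ⟩ := syl_conj (syl_in hQY) (syl_in hRY)
  have hRL : (R : Subgroup X) ≤ ⁅Y, Y⁆ ⊔ Q := by
    rw [← hyQ]
    rintro _ ⟨q, hq, rfl⟩
    have : (MulAut.conj y).toMonoidHom q = ⁅y, q⁆ * q := by simp [commutatorElement_def]
    rw [this]
    exact mul_mem_sup (commutator_mem_commutator hy (hQY hq)) hq
  obtain ⟨l, hl, hlQ⟩ := syl_conj (syl_in (le_sup_right : (Q : Subgroup X) ≤ ⁅Y, Y⁆ ⊔ Q)) (syl_in hRL)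
  obtain ⟨m, hm, q, hq, rfl⟩ := (mem_sup_nl hn).1 hl
  refine ⟨⟨m, hm⟩, Sylow.ext ?_⟩
  rw [cj_mul, cj_eq (le_normalizer hq)] at hlQ
  exact hlQ

theorem not_dvd (Q : Sylow p X) {M : Subgroup X} [M.Normal] (h : (Q : Subgroup X) ⊓ M = ⊥) : ¬ p ∣ Nat.card M := by
  intro hd
  obtain ⟨x, hx⟩ := exists_prime_orderOf_dvd_card' p hd
  have hx' : orderOf (x : X) = p ^ 1 := by rw [pow_one, ← hx]; exact orderOf_coe x
  obtain ⟨R, hR⟩ := Fgs.exists_sylow_mem_of_orderOf hx'
  obtain ⟨g, hg⟩ := exists_cj Q R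
  have h1 : (x : X) ∈ cj g (Q : Subgroup X) := by rw [hg]; exact hR
  have h2 : g⁻¹ * x * g ∈ (Q : Subgroup X) ⊓ M :=
    ⟨mem_cj.1 h1, conj_mem' (le_normalizer_of_normal (mem_top g)) x.2⟩
  rw [h, mem_bot] at h2
  have h3 : (x : X) = 1 := by
    have : (x : X) = g * (g⁻¹ * x * g) * g⁻¹ := by group
    rw [this, h2]; group
  rw [h3, orderOf_one, pow_one] at hx'
  exact hp.out.one_lt.ne hx'

end L2x
open L2x

theorem l2 : L2S.{u} := by
  intro h0 h1 p hp X _ _ h5 Q hQ hC hd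
  set Y := normalClosure ((Q : Subgroup X) : Set X) with hY
  have hQY : (Q : Subgroup X) ≤ Y := le_normalClosure
  have hmod : Nat.card (Sylow p X) % p = 1 := by
    have := card_sylow_modEq_one p X
    rwa [Nat.ModEq, Nat.mod_eq_of_lt hp.out.one_lt] at this
  by_cases hM : (Q : Subgroup X) ≤ ⁅Y, Y⁆
  · refine Or.inr (Or.inr ⟨hM, fun hlt => ?_⟩)
    have hYY : ⁅Y, Y⁆ = Y := le_antisymm (commutator_le_left Y Y) (normalClosure_le_normal hM)
    have hc : commutator Y = ⊤ := by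
      apply map_injective Y.subtype_injective
      rw [map_subtype_commutator, hYY, ← MonoidHom.range_eq_map, range_subtype]
    have hn := Fgs.card_sylow_of_normal_of_le Y Q hQY
    have hYd : Nat.card Y ∣ Nat.card X := card_subgroup_dvd_card Y
    have := h1 h0 p Y h5 hc (Q.subtype hQY) ((Nat.card_congr (subgroupOfEquivOfLe hQY).toEquiv).trans hQ)
      (fun y hy => hC (show (y : X) ∈ _ from fun q hq =>
        congrArg Subtype.val (hy ⟨q, hQY hq⟩ (show (⟨q, hQY hq⟩ : Y) ∈ (Q : Subgroup X).subgroupOf Y from hq))))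
      ((Nat.mul_dvd_mul_left 2 hYd).trans hd) (hn ▸ hlt)
    rw [hn] at this
    rcases this with ⟨a, b⟩ | ⟨a, b, c⟩
    · exact Or.inl ⟨a, b.trans (Nat.mul_dvd_mul_left 2 hYd)⟩
    · exact Or.inr ⟨a, b, c.trans hYd⟩
  · have hle := card_le Q
    rw [← hY] at hle
    have hi := inf_bot hQ hM
    by_cases hb : (⁅Y, Y⁆ : Subgroup X) = ⊥
    · rw [hb, card_bot] at hle
      left
      rcases Nat.le_one_iff_eq_zero_or_eq_one.1 hle with h | h
      · rw [h] at hmod; simp at hmod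
      · exact h
    · obtain ⟨x, hx⟩ := exists_prime_orderOf_dvd_card' (G := Q) p (dvd_of_eq hQ.symm)
      have hx' : orderOf (x : X) = p := (orderOf_coe x).trans hx
      have hz : zpowers (x : X) = Q :=
        eq_of_le_of_card_ge (zpowers_le.2 x.2) (by rw [Nat.card_zpowers, hx']; exact hQ.le)
      have hco : (2 * Nat.card (⁅Y, Y⁆ : Subgroup X)).Coprime p := by
        refine Nat.Coprime.mul_left ((Nat.coprime_primes Nat.prime_two hp.out).2 (by omega)) ?_
        exact ((Nat.Prime.coprime_iff_not_dvd hp.out).2 (not_dvd Q hi)).symm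
      obtain ⟨hc, h2⟩ := h0 p X h5 ⁅Y, Y⁆ x hx' (le_normalizer_of_normal (mem_top _)) (fun y hy hxy => by
          have : y ∈ (Q : Subgroup X) ⊓ ⁅Y, Y⁆ := by
            refine ⟨hC ?_, hy⟩
            rw [← hz]
            rintro _ ⟨n, rfl⟩
            exact (Commute.zpow_left hxy n).eq
          rwa [hi, mem_bot] at this) hb
        (hco.dvd_of_dvd_mul_left ((Nat.mul_dvd_mul_left 2 (card_subgroup_dvd_card _)).trans hd))
      rw [hc] at hle
      obtain ⟨k, hk⟩ : ∃ k, Nat.card (Sylow p X) = p * k + 1 := ⟨_, by rw [← hmod, Nat.div_add_mod]⟩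
      have hk1 : k ≤ 1 := by
        by_contra hh
        have : p * 2 ≤ p * k := Nat.mul_le_mul_left p (by omega)
        omega
      interval_cases k
      · left; omega
      · exact Or.inr (Or.inl ⟨by omega, _, h2, hc⟩)

theorem loc : LocS.{u} := by
  intro hL p hp G _ _ b P D hD
  obtain ⟨hDP, hDc⟩ := mem_sub.1 hD
  have hSH : ∀ R : Sylow p G, D ≤ R → (R : Subgroup G) ≤ 𝒞(D) := fun R h => (b.ab R).trans (cent_mono h)
  have hPH := hSH P hDP
  have hDH : D ≤ 𝒞(D) := hDP.trans hPH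
  have hDp : IsPGroup p D := P.isPGroup'.to_le hDP
  set H := 𝒞(D) with hH
  have : (D.subgroupOf H).Normal := (normal_subgroupOf_iff_le_normalizer hDH).2 (cent_le_norm D)
  have hD'c : Nat.card (D.subgroupOf H) = p := (Nat.card_congr (subgroupOfEquivOfLe hDH).toEquiv).trans hDc
  have hD'p : IsPGroup p (D.subgroupOf H) := IsPGroup.of_card (n := 1) (by rw [hD'c, pow_one])
  have hn : Nat.card (Sylow p (H ⧸ D.subgroupOf H)) = mD p D :=
    (Fgs.card_sylow_quotient_of_isPGroup _ hD'p).trans (b.mS P D hDP).symm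
  have hX : Nat.card H = Nat.card (H ⧸ D.subgroupOf H) * p := by
    rw [card_eq_card_quotient_mul_card_subgroup (D.subgroupOf H), hD'c]
  set f := QuotientGroup.mk' (D.subgroupOf H) with hf
  have hfs : Function.Surjective f := QuotientGroup.mk'_surjective _
  set Q := (P.subtype hPH).mapSurjective hfs with hQ
  have hQe : (Q : Subgroup (H ⧸ D.subgroupOf H)) = ((P : Subgroup G).subgroupOf H).map f := rfl
  have hQc : Nat.card Q = p := by
    have h1 : Nat.card (((P : Subgroup G).subgroupOf H).map f) =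
        (D.subgroupOf H).relIndex ((P : Subgroup G).subgroupOf H) := by
      rw [← relIndex_ker, QuotientGroup.ker_mk']
    have h2 := card_mul_relIndex (H := D.subgroupOf H) (K := (P : Subgroup G).subgroupOf H) (subgroupOf_mono H hDP)
    have h3 : Nat.card ((P : Subgroup G).subgroupOf H) = p ^ 2 :=
      (Nat.card_congr (subgroupOfEquivOfLe hPH).toEquiv).trans (b.hy.card P)
    rw [hD'c, h3, ← h1, pow_two] at h2
    exact Nat.eq_of_mul_eq_mul_left hp.out.pos h2
  have hcm : ∀ h : H, f h ∈ 𝒞((Q : Subgroup (H ⧸ D.subgroupOf H))) → ∀ r ∈ (P : Subgroup G), ⁅r, (h : G)⁆ ∈ D := by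
    intro h hh r hr
    have h1 : f ⟨r, hPH hr⟩ * f h = f h * f ⟨r, hPH hr⟩ := hh _ ⟨⟨r, hPH hr⟩, hr, rfl⟩
    have h2 : ⁅(⟨r, hPH hr⟩ : H), h⁆ ∈ f.ker := by
      rw [MonoidHom.mem_ker, map_commutatorElement]
      exact commutatorElement_eq_one_iff_mul_comm.2 h1
    rw [QuotientGroup.ker_mk'] at h2
    exact h2
  have hQC : 𝒞((Q : Subgroup (H ⧸ D.subgroupOf H))) ≤ Q := by
    intro x hx
    obtain ⟨h, rfl⟩ := hfs x
    obtain ⟨k, hk⟩ := exists_pow_coprime (p := p) (h : G)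
    have h1 : (h : G) ^ p ^ k ∈ 𝒞((P : Subgroup G)) :=
      mem_cent_of_coprime hDp hk (hcm (h ^ p ^ k) (by rw [map_pow]; exact pow_mem hx _)) (pow_mem h.2 _)
    have h2 := eq_one_of_coprime_of_mem P.isPGroup' hk (b.hy.cen P h1)
    have h3 : (h : G)⁻¹ ∈ 𝒩((P : Subgroup G)) := by
      refine inv_mem (mem_norm_of_cj_le ?_)
      rintro _ ⟨r, hr, rfl⟩
      have : (MulAut.conj (h : G)).toMonoidHom r = ⁅r, (h : G)⁆⁻¹ * r := by simp [commutatorElement_def, mul_assoc]
      rw [this]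
      exact mul_mem (inv_mem (hDP (hcm h hx r hr))) hr
    have h4 := Fgs.le_sylow_of_le_normalizer (isPGroup_zpowers h2) (zpowers_le.2 (inv_mem_iff.1 h3))
    exact ⟨h, h4 (mem_zpowers _), rfl⟩
  have hd : 2 * Nat.card (H ⧸ D.subgroupOf H) ∣ p * (p ^ 4 - 1) := by
    have := (Nat.mul_dvd_mul_left 2 (card_subgroup_dvd_card H)).trans b.hy.dvd
    rw [hX] at this
    refine Nat.dvd_of_mul_dvd_mul_left hp.out.pos ?_
    rwa [← mul_assoc p p, ← pow_two, mul_comm p, mul_assoc]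
  rcases hL p (H ⧸ D.subgroupOf H) b.hy.five Q hQc hQC hd with h | ⟨h, M, hM2, hMc⟩ | ⟨h, h'⟩
  · exact Or.inl (hn ▸ h)
  · refine Or.inr (Or.inl ⟨hn ▸ h, ?_⟩)
    obtain ⟨j, hj⟩ := IsPGroup.iff_card.1 hM2
    have hdv : 2 ^ j ∣ Nat.card H := by
      rw [← hj, hX]; exact (card_subgroup_dvd_card M).mul_right p
    obtain ⟨K, hK⟩ := Sylow.exists_subgroup_card_pow_prime 2 hdv
    have hK' : Nat.card (K.map H.subtype) = 2 ^ j := (card_map_of_injective H.subtype_injective).trans hK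
    exact ⟨K.map H.subtype, map_subtype_le K, IsPGroup.of_card hK', by rw [hK', ← hj, hMc]⟩
  · refine Or.inr (Or.inr ⟨?_, fun hlt => ?_⟩)
    · have hYH : Y0 p D ≤ H := iSup_le fun R => hSH R.1 R.2
      have hHN : H ≤ 𝒩(Y0 p D) := by
        refine le_norm_of_cj_le fun g hg => ?_
        rw [Y0, Subgroup.map_iSup]
        refine iSup_le fun R => ?_
        have h1 : D ≤ ((g • R.1 : Sylow p G) : Subgroup G) := by
          have := cj_mono g R.2
          rwa [cj_eq_of_mem_cent hg] at this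
        exact le_iSup (fun R : {Q : Sylow p G // D ≤ Q} => (R.1 : Subgroup G)) ⟨g • R.1, h1⟩
      have : ((Y0 p D).subgroupOf H).Normal := (normal_subgroupOf_iff_le_normalizer hYH).2 hHN
      have : (((Y0 p D).subgroupOf H).map f).Normal := Normal.map inferInstance f hfs
      have hPY : (P : Subgroup G) ≤ Y0 p D :=
        le_iSup (fun R : {Q : Sylow p G // D ≤ Q} => (R.1 : Subgroup G)) ⟨P, hDP⟩
      have h1 : normalClosure ((Q : Subgroup (H ⧸ D.subgroupOf H)) : Set (H ⧸ D.subgroupOf H)) ≤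
          ((Y0 p D).subgroupOf H).map f :=
        normalClosure_le_normal (map_mono (f := f) (subgroupOf_mono H hPY))
      have h2 := h.trans (commutator_mono h1 h1)
      rw [← Subgroup.map_commutator] at h2
      have h3 := (card_dvd_of_le h2).trans (card_map_dvd _ f)
      rw [← card_map_of_injective H.subtype_injective, Subgroup.map_commutator, map_subgroupOf_eq_of_le hYH] at h3
      exact (dvd_of_eq hQc.symm).trans h3
    · rw [hn] at h'
      rcases h' hlt with ⟨a, c⟩ | ⟨a, c, d⟩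
      · refine Or.inl ⟨a, ?_⟩
        rw [hX]
        convert Nat.mul_dvd_mul_left p c using 1 <;> ring
      · refine Or.inr ⟨a, c, ?_⟩
        rw [hX, mul_comm]
        exact Nat.mul_dvd_mul d (a ▸ dvd_rfl)

end CL.SP2
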