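/-
Project SP2 (helper76), job SP2-T1 (helper74): an element of prime order whose fixed points form a line is a reflection.
-/
import Cfsg.Agent.SP2.Defs
import Cfsg.Agent.Perm.ZassBasic

set_option autoImplicit false
set_option linter.unusedSectionVars false
open Cfsg Subgroup CL.Even CL.Grp

namespace CL.SP2

universe u

namespace T1

open MulAction Equiv CL.Perm

theorem fix4 {α : Type*} [Fintype α] [DecidableEq α] {σ : Perm α} (h : σ * σ = 1) (s : Perm.sign σ = 1) :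
    Nat.card {x // σ x = x} % 4 = Nat.card α % 4 := by
  have h1 := Perm.sign_of_pow_two_eq_one (σ := σ) (by rwa [pow_two])
  have h2 : Nat.card α ≡ Nat.card {x // σ x = x} [MOD 2] := by
    have := ncard_fixedBy_modEq (G := Perm α) (Ω := α) (g := σ) (p := 2) (n := 1) (by rwa [pow_one, pow_two])
    rwa [← Nat.card_coe_set_eq] at this
  have h3 : Nat.card {x // σ x = x} ≤ Nat.card α := Nat.card_le_card_of_injective _ Subtype.val_injective
  rw [s, ← Nat.card_eq_fintype_card, ← Nat.card_eq_fintype_card] at h1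
  change 1 = (-1) ^ ((Nat.card α - Nat.card {x // σ x = x}) / 2) at h1
  have h4 : Even ((Nat.card α - Nat.card {x // σ x = x}) / 2) := by
    by_contra k
    rw [(Nat.not_even_iff_odd.1 k).neg_one_pow] at h1
    exact absurd h1 (by decide)
  rw [Nat.even_iff] at h4
  rw [Nat.ModEq] at h2
  omega

theorem two_fix {α : Type*} [Finite α] {q : α → Prop} (h : Nat.card {x // q x} % 4 = 2) : ∃ a b, a ≠ b ∧ q a ∧ q b := by
  obtain ⟨a, b, e⟩ := (Finite.one_lt_card_iff_nontrivial.1 (show 1 < Nat.card {x // q x} by omega)).exists_pair_ne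
  exact ⟨a, b, fun k => e (Subtype.ext k), a.2, b.2⟩

variable {p : ℕ} {G Ω : Type u} [Group G] [MulAction G Ω] {U : Ω → Subgroup G} {y : G}

/-- the action of `C(y)` on the fixed points of `y` -/
@[reducible] def act (Ω : Type u) [MulAction G Ω] (y : G) : MulAction (centralizer {y} : Subgroup G) {c : Ω // y • c = c} where
  smul g c := ⟨g.1 • c.1, by rw [← mul_smul, ← mem_centralizer_singleton_iff.1 g.2, mul_smul, c.2]⟩
  one_smul c := Subtype.ext (one_smul G c.1)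
  mul_smul g h c := Subtype.ext (mul_smul g.1 h.1 c.1)

def phi (Ω : Type u) [MulAction G Ω] (y : G) : (centralizer {y} : Subgroup G) →* Perm {c : Ω // y • c = c} :=
  @toPermHom _ _ _ (act Ω y)

theorem phi_eq {g : (centralizer {y} : Subgroup G)} {a b : {c : Ω // y • c = c}} : phi Ω y g a = b ↔ g.1 • a.1 = b.1 :=
  Subtype.ext_iff

theorem mem_ker {g : (centralizer {y} : Subgroup G)} : g ∈ (phi Ω y).ker ↔ ∀ c : Ω, y • c = c → g.1 • c = c :=
  ⟨fun h c hc => phi_eq.1 (DFunLike.congr_fun (MonoidHom.mem_ker.1 h) ⟨c, hc⟩),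
    fun h => MonoidHom.mem_ker.2 (Perm.ext fun c => phi_eq.2 (h c.1 c.2))⟩

variable [Finite G] [Finite Ω] [Fact p.Prime] {L : Subgroup (centralizer {y} : Subgroup G)}

theorem tr2 (h5 : 5 < p) (l : Ln p Ω U y) (hU : ∀ a, ∀ x : (centralizer {y} : Subgroup G), x.1 ∈ U a → x ∈ L)
    (fix : ∀ a, ∀ x ∈ U a, x • a = a) {a b c d : {c : Ω // y • c = c}} (hab : a ≠ b) (hcd : c ≠ d) :
    ∃ g ∈ L, phi Ω y g a = c ∧ phi Ω y g b = d := by
  have s1 : ∀ {a b d : {c : Ω // y • c = c}}, a ≠ b → a ≠ d → ∃ g ∈ L, phi Ω y g a = a ∧ phi Ω y g b = d :=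
    fun {a b d} h1 h2 => by
      obtain ⟨x, hx, e⟩ := l.tr a b d a.2 b.2 d.2 (Subtype.coe_ne_coe.2 h1) (Subtype.coe_ne_coe.2 h2)
      exact ⟨⟨x, hx.2⟩, hU _ _ hx.1, phi_eq.2 (fix _ _ hx.1), phi_eq.2 e⟩
  have s2 : ∀ {a b c d : {c : Ω // y • c = c}}, a ≠ b → c ≠ d → a ≠ d →
      ∃ g ∈ L, phi Ω y g a = c ∧ phi Ω y g b = d := fun h1 h2 h3 => by
    obtain ⟨g, hg, e1, e2⟩ := s1 h1 h3
    obtain ⟨k, hk, e3, e4⟩ := s1 h3.symm h2.symm
    exact ⟨k * g, mul_mem hk hg, by rw [map_mul, Perm.mul_apply, e1, e4], by rw [map_mul, Perm.mul_apply, e2, e3]⟩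
  by_cases h : a = d
  · subst h
    obtain ⟨e, e1, e2⟩ := exists_third_of_three (three_of_card (by rw [l.card]; omega)) a b
    obtain ⟨g, hg, k1, k2⟩ := s2 hab e2 hab
    obtain ⟨k, hk, k3, k4⟩ := s2 e2 hcd e1
    exact ⟨k * g, mul_mem hk hg, by rw [map_mul, Perm.mul_apply, k1, k3], by rw [map_mul, Perm.mul_apply, k2, k4]⟩
  · exact s2 hab hcd h

theorem isZ (h5 : 5 < p) (l : Ln p Ω U y) (hU : ∀ a, ∀ x : (centralizer {y} : Subgroup G), x.1 ∈ U a → x ∈ L)
    (fix : ∀ a, ∀ x ∈ U a, x • a = a) : IsZ (L.map (phi Ω y)) {c : Ω // y • c = c} where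
  trans h1 h2 := let ⟨g, hg, e⟩ := tr2 h5 l hU fix h1 h2; ⟨⟨_, g, hg, rfl⟩, e⟩
  fix3 := by
    rintro ⟨_, g, hg, rfl⟩ a b c h1 h2 h3 e1 e2 e3
    exact Subtype.ext (MonoidHom.mem_ker.1 (mem_ker.2 (l.three g g.2 a b c a.2 b.2 c.2 (Subtype.coe_ne_coe.2 h1)
      (Subtype.coe_ne_coe.2 h2) (Subtype.coe_ne_coe.2 h3) (phi_eq.1 e1) (phi_eq.1 e2) (phi_eq.1 e3))))
  three := three_of_card (by rw [l.card]; omega)

theorem main (h5 : 5 < p) (l : Ln p Ω U y) (hU : ∀ a, ∀ x : (centralizer {y} : Subgroup G), x.1 ∈ U a → x ∈ L)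
    (fix : ∀ a, ∀ x ∈ U a, x • a = a) (hK : (phi Ω y).ker ≤ L) {v : (centralizer {y} : Subgroup G)} (hv : v ∈ L)
    (v1 : phi Ω y v ≠ 1) (v2 : phi Ω y v * phi Ω y v = 1) {a b : {c : Ω // y • c = c}} (hab : a ≠ b)
    (va : phi Ω y v a = a) (vb : phi Ω y v b = b) : Nat.card (phi Ω y).ker = 2 ∧ L = ⊤ ∧
      Nat.card (centralizer {y} : Subgroup G) = (p + 1) * p * (p - 1) := by
  have z := isZ h5 l hU fix
  have ev : Even (Nat.card (stab2 (L.map (phi Ω y)) a b)) := by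
    have h1 : orderOf (⟨⟨_, v, hv, rfl⟩, va, vb⟩ : stab2 (L.map (phi Ω y)) a b) = 2 :=
      orderOf_eq_prime (Subtype.ext (Subtype.ext ((pow_two (phi Ω y v)).trans v2)))
        fun e => v1 (congrArg (fun x => x.1.1) e)
    exact even_iff_two_dvd.2 (h1 ▸ orderOf_dvd_natCard _)
  have h1 := z.card_le_of_even hab ev
  obtain ⟨o1, o2⟩ := l.ord a b a.2 b.2 (Subtype.coe_ne_coe.2 hab)
  let A := (st2 G a.1 b.1).subgroupOf (centralizer {y})
  have hA : Nat.card A = Nat.card (centralizer {y} ⊓ st2 G a.1 b.1 : Subgroup G) := by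
    rw [← Nat.card_congr (subgroupOfEquivOfLe (inf_le_left : centralizer {y} ⊓ st2 G a.1 b.1 ≤ _)).toEquiv,
      inf_subgroupOf_left]
  have kA : (phi Ω y).ker ≤ A ⊓ L := fun g hg => ⟨⟨mem_ker.1 hg _ a.2, mem_ker.1 hg _ b.2⟩, hK hg⟩
  have h2 := (mul_comm _ _).trans (card_mul_relIndex kA)
  have h3 : stab2 (L.map (phi Ω y)) a b = ((A ⊓ L).map (phi Ω y)).subgroupOf (L.map (phi Ω y)) := by
    ext ⟨_, g, hg, rfl⟩
    refine ⟨fun k => ⟨g, ⟨⟨phi_eq.1 k.1, phi_eq.1 k.2⟩, hg⟩, rfl⟩, fun ⟨t, ht, e⟩ => ?_⟩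
    have e' : phi Ω y t = phi Ω y g := e
    exact ⟨show phi Ω y g a = a from e' ▸ phi_eq.2 ht.1.1, show phi Ω y g b = b from e' ▸ phi_eq.2 ht.1.2⟩
  rw [h3, Nat.card_congr (subgroupOfEquivOfLe (map_mono inf_le_right)).toEquiv, ← relIndex_ker, l.card] at h1
  have h4 : Nat.card (A ⊓ L : Subgroup _) ≤ Nat.card A := card_le_of_le inf_le_left
  have h5' := Nat.le_of_dvd (by omega) o2
  have h6 : 1 < Nat.card (phi Ω y).ker := (one_lt_card_iff_ne_bot _).2 fun e => by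
    have k : (⟨y, mem_centralizer_singleton_iff.2 rfl⟩ : (centralizer {y} : Subgroup G)) ∈ (phi Ω y).ker :=
      mem_ker.2 fun c hc => hc
    rw [e] at k
    exact l.ne (congrArg Subtype.val (mem_bot.1 k))
  rw [← hA] at h5' o1
  generalize (phi Ω y).ker.relIndex (A ⊓ L) = f at h1 h2
  have h7 : Nat.card (phi Ω y).ker = 2 := by
    by_contra k
    have : f * 3 ≤ f * Nat.card (phi Ω y).ker := Nat.mul_le_mul_left _ (by omega)
    omega
  rw [h7] at h2
  have h8 : A ⊓ L = A := eq_of_le_of_card_ge inf_le_left (by omega)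
  refine ⟨h7, (eq_top_iff' _).2 fun g => ?_, by rw [o1, show Nat.card A = p - 1 by omega]⟩
  obtain ⟨t, ht, e1, e2⟩ := tr2 h5 l hU fix hab ((phi Ω y g).injective.ne hab)
  have h9 : t⁻¹ * g ∈ A := ⟨phi_eq.1 (show phi Ω y (t⁻¹ * g) a = a by simp [← e1]),
    phi_eq.1 (show phi Ω y (t⁻¹ * g) b = b by simp [← e2])⟩
  exact (mul_mem_cancel_left (inv_mem ht)).1 (h8.ge h9).2

theorem inv4 (t : Tc p G Ω U) (h2 : ∀ H : Subgroup G, H.index ≠ 2) {v : G} (hv : v * v = 1) :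
    Nat.card {c : Ω // v • c = c} % 4 = 2 := by
  classical
  have := Fintype.ofFinite Ω
  have h1 : (Perm.sign.comp (toPermHom G Ω)).ker.index = 1 := by
    refine ((Nat.dvd_prime Nat.prime_two).1 ?_).resolve_right (h2 _)
    rw [index_ker, ← Fintype.card_units_int, ← Nat.card_eq_fintype_card]
    exact card_subgroup_dvd_card _
  have h3 := fix4 (σ := toPermHom G Ω v) (by rw [← map_mul, hv, map_one]) ((index_eq_one.1 h1).ge (mem_top v))
  obtain ⟨k, hk⟩ := (Fact.out : p.Prime).odd_of_ne_two (by have := t.ta.five; omega)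
  rw [t.ta.cardΩ, hk, show (2 * k + 1) ^ 2 + 1 = 4 * (k ^ 2 + k) + 2 by ring] at h3
  exact h3.trans (by omega)

theorem not3 (t : Tc p G Ω U) (h2 : ∀ H : Subgroup G, H.index ≠ 2) (hy : (orderOf y).Prime) (l : Ln p Ω U y) :
    p % 4 = 1 := by
  have h5 := t.ta.five
  have pp : p.Prime := Fact.out
  have po := Nat.odd_iff.1 (pp.odd_of_ne_two (by omega))
  by_contra h3
  have yy : y * y ≠ 1 := fun e => by
    have := inv4 t h2 e
    rw [l.card] at this
    omega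
  have yo : (orderOf y).Coprime 2 := (Nat.coprime_primes hy Nat.prime_two).2 fun e =>
    yy (by rw [← pow_two, ← e, pow_orderOf_eq_one])
  obtain ⟨a0, b0, -, h0, -⟩ := three_of_card (Ω := {c : Ω // y • c = c}) (by rw [l.card]; omega)
  obtain ⟨v, hv⟩ := exists_prime_orderOf_dvd_card' (G := (centralizer {y} : Subgroup G)) 2 (by
    rw [(l.ord a0 b0 a0.2 b0.2 (Subtype.coe_ne_coe.2 h0)).1]
    exact ((Nat.dvd_of_mod_eq_zero (by omega)).mul_right _).mul_right _)
  have vv : v * v = 1 := by rw [← pow_two, ← hv, pow_orderOf_eq_one]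
  have v4 := inv4 t h2 (congrArg Subtype.val vv)
  obtain ⟨a, b, hab, ha, hb⟩ := two_fix v4
  have c2 : Nat.card {c : Ω // v.1 • c = c} = 2 := by
    have k1 := t.fx a b v hab ha hb
    have k2 := card_dvd_of_le (inf_le_left : U a ⊓ centralizer {v.1} ≤ U a)
    rw [t.ta.cardU] at k2
    obtain ⟨i, hi, e⟩ := (Nat.dvd_prime_pow pp).1 k2
    rw [e] at k1
    interval_cases i
    · exact k1
    · rw [k1, pow_one] at v4
      omega
    · have k3 : U a ⊓ centralizer {v.1} = U a := eq_of_le_of_card_ge inf_le_left (by rw [e, t.ta.cardU])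
      have k4 : v = 1 := Subtype.ext (t.fa a b v hab ha hb fun x hx => mem_centralizer_singleton_iff.1 (k3.ge hx).2)
      rw [k4, orderOf_one] at hv
      omega
  have only : ∀ c : Ω, v.1 • c = c → c = a ∨ c = b := fun c hc => by
    obtain ⟨x, -, hx⟩ := (Nat.card_eq_two_iff' (⟨a, ha⟩ : {c : Ω // v.1 • c = c})).1 c2
    refine or_iff_not_imp_left.2 fun k => congrArg Subtype.val ((hx ⟨c, hc⟩ fun e => k (congrArg Subtype.val e)).trans
      (hx ⟨b, hb⟩ fun e => hab (congrArg Subtype.val e).symm).symm)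
  have mv : ∀ c : Ω, v.1 • c = c → v.1 • y • c = y • c := fun c hc => by
    rw [← mul_smul, mem_centralizer_singleton_iff.1 v.2, mul_smul, hc]
  have ya : y • a = a := (only _ (mv a ha)).elim id fun e => by
    have e2 : y • b = a := (only _ (mv b hb)).resolve_right fun k => hab (smul_left_cancel y (e.trans k.symm))
    exact mem_of_pow_mem_of_coprime (K := stabilizer G a) yo (by rw [mem_stabilizer_iff, pow_two, mul_smul, e, e2])
  have yb : y • b = b := (only _ (mv b hb)).resolve_left fun k => hab (smul_left_cancel y (ya.trans k.symm))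
  have v1 : phi Ω y v ≠ 1 := fun e => by
    have := Nat.card_le_card_of_injective (fun c : {c : Ω // y • c = c} => (⟨c.1, mem_ker.1 e c.1 c.2⟩ : {c : Ω // v.1 • c = c}))
      fun c d k => Subtype.ext (congrArg (fun x : {c : Ω // v.1 • c = c} => x.1) k)
    rw [l.card, c2] at this
    omega
  have k := (main (L := ⊤) h5 l (fun _ _ _ => mem_top _) t.ta.fix le_top (mem_top v) v1 (by rw [← map_mul, vv, map_one])
    (a := ⟨a, ya⟩) (b := ⟨b, yb⟩) (fun e => hab (congrArg Subtype.val e)) (phi_eq.2 ha) (phi_eq.2 hb)).1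
  have := pow_card_eq_one' (x := (⟨⟨y, mem_centralizer_singleton_iff.2 rfl⟩, mem_ker.2 fun c hc => hc⟩ : (phi Ω y).ker))
  rw [k, pow_two] at this
  exact yy (congrArg (fun x => x.1.1) this)

end T1

open T1 MulAction Equiv CL.Perm in
theorem t1 : T1S.{u} := by
  intro p _ G Ω _ _ _ _ U t h2 y hy l
  classical
  have h5 := t.ta.five
  have md := not3 t h2 hy l
  have := Fintype.ofFinite {c : Ω // y • c = c}
  have hU : ∀ a, ∀ x : (centralizer {y} : Subgroup G), x.1 ∈ U a → x ∈ (Perm.sign.comp (phi Ω y)).ker := fun a x hx => by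
    have k1 : x ^ p ^ 2 = 1 := Subtype.ext (by
      rw [← t.ta.cardU a]
      exact congrArg (fun x : U a => x.1) (pow_card_eq_one' (x := (⟨x.1, hx⟩ : U a))))
    refine mem_of_pow_mem_of_coprime (n := 2) ((Nat.Coprime.pow_left 2 ((Nat.coprime_primes Fact.out Nat.prime_two).2
      (by omega))).coprime_dvd_left (orderOf_dvd_of_pow_eq_one k1)) ?_
    rw [MonoidHom.mem_ker, map_pow, Int.units_sq]
  have f4 : ∀ v ∈ (Perm.sign.comp (phi Ω y)).ker, phi Ω y v * phi Ω y v = 1 →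
      ∃ a b, a ≠ b ∧ phi Ω y v a = a ∧ phi Ω y v b = b := fun v hv e =>
    two_fix (by rw [fix4 e (MonoidHom.mem_ker.1 hv), l.card]; omega)
  have z := isZ h5 l hU t.ta.fix
  obtain ⟨a0, b0, -, h0, -⟩ := z.three
  obtain ⟨⟨_, v, hv, rfl⟩, s1, s2, -⟩ := z.exists_invol_swap h0
  have v2 : phi Ω y v * phi Ω y v = 1 := congrArg Subtype.val s1
  obtain ⟨a, b, hab, ha, hb⟩ := f4 v hv v2
  obtain ⟨k1, k2, k3⟩ := main h5 l hU t.ta.fix (fun g hg => by
    rw [MonoidHom.mem_ker, MonoidHom.comp_apply, MonoidHom.mem_ker.1 hg, map_one]) hv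
    (fun e => h0 (by rw [← s2]; exact (DFunLike.congr_fun e a0).symm)) v2 hab ha hb
  obtain ⟨x, -, hx⟩ := (Nat.card_eq_two_iff' (1 : (phi Ω y).ker)).1 k1
  have ker : ∀ k ∈ centralizer {y}, (∀ c : Ω, y • c = c → k • c = c) → k = 1 ∨ k = y := fun k hk h =>
    or_iff_not_imp_left.2 fun e => congrArg (fun x => x.1.1) ((hx ⟨⟨k, hk⟩, mem_ker.2 h⟩
      fun e' => e (congrArg (fun x => x.1.1) e')).trans (hx ⟨⟨y, mem_centralizer_singleton_iff.2 rfl⟩,
        mem_ker.2 fun c hc => hc⟩ fun e' => l.ne (congrArg (fun x => x.1.1) e')).symm)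
  refine ⟨(ker (y * y) (mem_centralizer_singleton_iff.2 (mul_assoc y y y)) fun c hc => by
    rw [mul_smul, hc, hc]).resolve_right fun e => l.ne (mul_eq_left.1 e), md, k3, ker, fun w hw e => ?_⟩
  obtain ⟨c, -, -, hc, -⟩ := f4 ⟨w, hw⟩ (k2 ▸ mem_top _) (by rw [← map_mul, ← map_one (phi Ω y)]; exact congrArg _ (Subtype.ext e))
  exact ⟨c, c.2, phi_eq.1 hc⟩

end CL.SP2
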