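/-
Project SP2 (S3597): there is no reflection.
-/
import Cfsg.Agent.SP2.Defs
import Cfsg.Agent.S0215

set_option autoImplicit false
set_option linter.unusedSectionVars false
open Cfsg Subgroup CL.Even CL.Grp

namespace CL.SP2

universe u

namespace T2

variable {p : ℕ} [hp : Fact p.Prime] {G Ω : Type u} [Group G] [Finite G] [Finite Ω] [MulAction G Ω]
  {U : Ω → Subgroup G} {y : G}

theorem inv_of {s t x : G} {V : Subgroup G} (hs : s * s = 1) (st : s * t = t * s) (ab : V ≤ 𝒞(V))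
    (sV : ∀ x ∈ V, s * x * s⁻¹ ∈ V) (h : ∀ w ∈ V, w * t = t * w → w * s = s * w → w = 1) (hx : x ∈ V)
    (xt : x * t = t * x) : s * x * s⁻¹ = x⁻¹ := by
  have c : s * x * s⁻¹ * x = x * (s * x * s⁻¹) := ab hx _ (sV x hx)
  have i : s⁻¹ = s := inv_eq_of_mul_eq_one_right hs
  refine eq_inv_of_mul_eq_one_right (h _ (mul_mem hx (sV x hx)) ?_ ?_)
  · exact ((show Commute x t from xt).mul_left (((show Commute s t from st).mul_left xt).mul_left
      (show Commute s t from st).inv_left) :)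
  · calc x * (s * x * s⁻¹) * s = s * (s * x * s⁻¹ * x) := by
          rw [i, show s * (s * x * s * x) = (s * s) * x * s * x by group, hs]
          rw [show x * (s * x * s) * s = x * s * x * (s * s) by group, hs, one_mul, mul_one]
      _ = s * (x * (s * x * s⁻¹)) := by rw [c]

/-- a second common fixed point -/
theorem second (hL : Ln p Ω U y) (h2 : p % 4 = 1) {v : G} (hv : v * y = y * v) (vv : v * v = 1) {a : Ω} (ya : y • a = a)
    (va : v • a = a) : ∃ b, y • b = b ∧ v • b = b ∧ a ≠ b := by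
  classical
  have := Fintype.ofFinite {c : Ω // y • c = c}
  have := Fact.mk Nat.prime_two
  let f : {c : Ω // y • c = c} → {c : Ω // y • c = c} := fun c => ⟨v • c.1, by rw [← mul_smul, ← hv, mul_smul, c.2]⟩
  have hf : Function.Involutive f := fun c => Subtype.ext (by
    change v • v • c.1 = c.1
    rw [← mul_smul, vv, one_smul])
  obtain ⟨b, h1, h3⟩ := Equiv.Perm.exists_fixed_point_of_prime' (p := 2) (n := 1) (σ := hf.toPerm f)
    (by rw [← Nat.card_eq_fintype_card, hL.card]; omega) (Equiv.ext fun c => hf c) (a := ⟨a, ya⟩) (Subtype.ext va)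
  exact ⟨b.1, b.2, congrArg Subtype.val h1, fun e => h3 (Subtype.ext e.symm)⟩

theorem eq_of_card {A B : Subgroup G} (h : A ≤ B) (e : Nat.card A = Nat.card B) : A = B :=
  eq_of_le_of_card_ge h e.ge

/-- the product of the two reflections inverts `U a` -/
theorem inverts (hT : Tc p G Ω U) (hL : Ln p Ω U y) (hR : Rf p Ω y) {v : G} (hv : v * y = y * v) (vv : v * v = 1)
    (v1 : v ≠ 1) (vy : v ≠ y) (hc : Nat.card {c : Ω // v • c = c} = p + 1) {a b : Ω} (ab : a ≠ b) (ya : y • a = a)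
    (yb : y • b = b) (va : v • a = a) (vb : v • b = b) : ∀ x ∈ U a, y * v * x * (y * v)⁻¹ = x⁻¹ := by
  have c1 := hL.fixc a ya
  have c2 : Nat.card (U a ⊓ centralizer {v} : Subgroup G) = p := by
    have := hT.fx a b v ab va vb
    omega
  have ne : ¬ (U a ⊓ centralizer {y} : Subgroup G) = U a ⊓ centralizer {v} := fun e => by
    refine (hR.ker v (mem_centralizer_singleton_iff.2 hv) fun c hc => ?_).elim v1 vy
    by_cases k : a = c
    · exact k ▸ va
    obtain ⟨x, hx, rfl⟩ := hL.tr a b c ya yb hc ab k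
    rw [e] at hx
    rw [← mul_smul, ← mem_centralizer_singleton_iff.1 (mem_inf.1 hx).2, mul_smul, vb]
  have triv : ∀ w ∈ U a, w * y = y * w → w * v = v * w → w = 1 := fun w hw h1 h2 => by
    have d : Nat.card (U a ⊓ centralizer {y} ⊓ (U a ⊓ centralizer {v}) : Subgroup G) ∣ p :=
      c1 ▸ card_dvd_of_le inf_le_left
    rcases (Nat.dvd_prime hp.out).1 d with d | d
    · exact mem_bot.1 (card_eq_one.1 d ▸ mem_inf.2 ⟨mem_inf.2 ⟨hw, mem_centralizer_singleton_iff.2 h1⟩,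
        mem_inf.2 ⟨hw, mem_centralizer_singleton_iff.2 h2⟩⟩)
    · exact (ne ((eq_of_card inf_le_left (d.trans c1.symm)).symm.trans (eq_of_card inf_le_right (d.trans c2.symm)))).elim
  have nv : ∀ x ∈ U a, v * x * v⁻¹ ∈ U a := fun x hx => by simpa only [va] using hT.ta.conj v a x hx
  have ny : ∀ x ∈ U a, y * x * y⁻¹ ∈ U a := fun x hx => by simpa only [ya] using hT.ta.conj y a x hx
  let I : Subgroup G :=
    { carrier := {x | x ∈ U a ∧ y * v * x * (y * v)⁻¹ = x⁻¹}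
      one_mem' := ⟨one_mem _, by simp⟩
      mul_mem' := fun {x x'} h h' => ⟨mul_mem h.1 h'.1, by
        rw [hT.ab a h'.1 x h.1, mul_inv_rev x' x, ← h.2, ← h'.2, ← hT.ab a h'.1 x h.1]; group⟩
      inv_mem' := fun {x} h => ⟨inv_mem h.1, by
        calc y * v * x⁻¹ * (y * v)⁻¹ = (y * v * x * (y * v)⁻¹)⁻¹ := by group
          _ = x⁻¹⁻¹ := by rw [h.2]⟩ }
  have l1 : U a ⊓ centralizer {y} ≤ I := fun x hx => ⟨(mem_inf.1 hx).1, by
    have k := mem_centralizer_singleton_iff.1 (inv_mem (mem_inf.1 hx).2)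
    have k' := inv_of vv hv (hT.ab a) nv triv (mem_inf.1 hx).1 (mem_centralizer_singleton_iff.1 (mem_inf.1 hx).2)
    calc y * v * x * (y * v)⁻¹ = y * (v * x * v⁻¹) * y⁻¹ := by group
      _ = x⁻¹ := by rw [k', ← k, mul_inv_cancel_right]⟩
  have l2 : U a ⊓ centralizer {v} ≤ I := fun x hx => ⟨(mem_inf.1 hx).1, by
    have k := mem_centralizer_singleton_iff.1 (mem_inf.1 hx).2
    have k' := inv_of hR.yy hv.symm (hT.ab a) ny (fun w hw h1 h2 => triv w hw h2 h1) (mem_inf.1 hx).1 k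
    calc y * v * x * (y * v)⁻¹ = y * (v * x * v⁻¹) * y⁻¹ := by group
      _ = x⁻¹ := by rw [← k, mul_inv_cancel_right, k']⟩
  have l3 : I ≤ U a := fun x hx => hx.1
  obtain ⟨i, hi, e⟩ := (Nat.dvd_prime_pow hp.out).1 (hT.ta.cardU a ▸ card_dvd_of_le l3)
  have d := card_dvd_of_le l1
  rw [c1, e] at d
  rcases i with _ | _ | i
  · exact absurd (Nat.dvd_one.1 d) hp.out.one_lt.ne'
  · rw [zero_add, pow_one] at e
    exact (ne ((eq_of_card l1 (c1.trans e.symm)).trans (eq_of_card l2 (c2.trans e.symm)).symm)).elim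
  · obtain rfl : i = 0 := by omega
    intro x hx
    rw [← eq_of_card l3 (e.trans (hT.ta.cardU a).symm)] at hx
    exact hx.2

/-- the reflection is isolated -/
theorem iso (hT : Tc p G Ω U) (hL : Ln p Ω U y) (hR : Rf p Ω y) (g : G) (hv : g * y * g⁻¹ * y = y * (g * y * g⁻¹)) :
    g * y * g⁻¹ = y := by
  by_contra vy
  set v := g * y * g⁻¹ with hvd
  have vv : v * v = 1 := by rw [hvd, conj_mul, hR.yy, mul_one, mul_inv_cancel]
  have v1 : v ≠ 1 := fun e => hL.ne (conj_eq_one_iff.1 e)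
  have tr : ∀ c : Ω, v • c = c ↔ y • g⁻¹ • c = g⁻¹ • c := fun c => by
    rw [hvd, mul_smul, mul_smul, smul_eq_iff_eq_inv_smul]
  have hc : Nat.card {c : Ω // v • c = c} = p + 1 :=
    (Nat.card_congr ((MulAction.toPerm g⁻¹).subtypeEquiv tr)).trans hL.card
  obtain ⟨a, ya, va⟩ := hR.fix v (mem_centralizer_singleton_iff.2 hv) vv
  obtain ⟨b, yb, vb, ab⟩ := second hL hR.md hv vv ya va
  have hz := inverts hT hL hR hv vv v1 vy hc ab ya yb va vb
  set z := y * v with hzd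
  have vz : v = y * z := by rw [hzd, ← mul_assoc, hR.yy, one_mul]
  have zz : z * z = 1 := by rw [hzd, mul_assoc, ← mul_assoc v, hv, mul_assoc, vv, mul_one, hR.yy]
  have za : z • a = a := by rw [hzd, mul_smul, va, ya]
  have zb : z • b = b := by rw [hzd, mul_smul, vb, yb]
  have cz : ∀ h ∈ st2 G a b, h * z * h⁻¹ = z := fun h hh => by
    have m : h * z * h⁻¹ * z⁻¹ ∈ st2 G a b := by
      have : z ∈ st2 G a b := mem_inf.2 ⟨za, zb⟩
      exact mul_mem (mul_mem (mul_mem hh this) (inv_mem hh)) (inv_mem this)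
    refine mul_inv_eq_one.1 (hT.fa a b _ ab (mem_inf.1 m).1 (mem_inf.1 m).2 fun x hx => ?_)
    have k1 : h⁻¹ * x * h⁻¹⁻¹ ∈ U a := by
      have := hT.ta.conj h⁻¹ a x hx
      rwa [show h⁻¹ • a = a from (mem_inf.1 (inv_mem hh)).1] at this
    have k2 := hz _ (inv_mem k1)
    have k3 := hz _ (inv_mem hx)
    calc x * (h * z * h⁻¹ * z⁻¹) = h * (h⁻¹ * x * h⁻¹⁻¹)⁻¹⁻¹ * z * h⁻¹ * z⁻¹ := by group
      _ = h * (z * (h⁻¹ * x * h⁻¹⁻¹)⁻¹ * z⁻¹) * z * h⁻¹ * z⁻¹ := by rw [k2]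
      _ = h * z * h⁻¹ * z⁻¹ * (z * x⁻¹ * z⁻¹) := by group
      _ = h * z * h⁻¹ * z⁻¹ * x := by rw [k3, inv_inv]
  obtain ⟨h, hy, ha, hb⟩ := hL.t2 a b _ _ ya yb ((tr a).1 va) ((tr b).1 vb) ab fun e => ab (smul_left_cancel _ e)
  have nE : g * h ∈ st2 G a b := mem_inf.2 ⟨show (g * h) • a = a by rw [mul_smul, ha, smul_inv_smul],
    show (g * h) • b = b by rw [mul_smul, hb, smul_inv_smul]⟩
  have ny : g * h * y * (g * h)⁻¹ = y * z := by
    rw [← vz, hvd, mul_assoc g, mem_centralizer_singleton_iff.1 hy]; group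
  generalize g * h = n at nE ny
  have sw : ∀ k ∈ st2 G a b, k * y * k⁻¹ = y * z → k * (y * z) * k⁻¹ = y := fun k hk e => by
    rw [← conj_mul, e, cz k hk, mul_assoc, zz, mul_one]
  have fx : ∀ k ∈ st2 G a b, k * y * k⁻¹ = y → k * (y * z) * k⁻¹ = y * z := fun k hk e => by
    rw [← conj_mul, e, cz k hk]
  have cm : ∀ k k' : G, k * k' * y * (k * k')⁻¹ = k * (k' * y * k'⁻¹) * k⁻¹ := fun k k' => by group
  let B : Subgroup G :=
    { carrier := {k | k ∈ st2 G a b ∧ (k * y * k⁻¹ = y ∨ k * y * k⁻¹ = y * z)}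
      one_mem' := ⟨one_mem _, Or.inl (by simp)⟩
      mul_mem' := fun {k k'} h h' => ⟨mul_mem h.1 h'.1, by
        rw [cm]
        rcases h'.2 with e | e <;> rw [e]
        · exact h.2
        · exact h.2.symm.imp (sw k h.1) (fx k h.1)⟩
      inv_mem' := fun {k} h => ⟨inv_mem h.1, h.2.imp (fun e => by rw [← congrArg (k⁻¹ * · * k⁻¹⁻¹) e]; group)
        fun e => by rw [← congrArg (k⁻¹ * · * k⁻¹⁻¹) (sw k h.1 e)]; group⟩ }
  have mA : ∀ k ∈ st2 G a b, k ∈ (centralizer {y} ⊓ st2 G a b : Subgroup G) ↔ k * y * k⁻¹ = y := fun k hk => by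
    rw [mem_inf, mem_centralizer_singleton_iff, mul_inv_eq_iff_eq_mul, and_iff_left hk]
  have le : centralizer {y} ⊓ st2 G a b ≤ B := fun k hk => ⟨(mem_inf.1 hk).2, Or.inl ((mA k (mem_inf.1 hk).2).1 hk)⟩
  have i2 : (centralizer {y} ⊓ st2 G a b : Subgroup G).relIndex B = 2 :=
    relIndex_eq_two_iff.2 ⟨n, ⟨nE, Or.inr ny⟩, fun k hk => by
      rw [mA _ (mul_mem hk.1 nE), mA _ hk.1, cm, ny]
      rcases hk.2 with e | e
      · exact Or.inr ⟨e, by rw [fx k hk.1 e, ← vz]; exact vy⟩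
      · exact Or.inl ⟨sw k hk.1 e, by rw [e, ← vz]; exact vy⟩⟩
  have c1 : Nat.card (centralizer {y} ⊓ st2 G a b : Subgroup G) = p - 1 :=
    Nat.eq_of_mul_eq_mul_left (mul_pos p.succ_pos hp.out.pos) ((hL.ord a b ya yb ab).1.symm.trans hR.card)
  have c2 := card_mul_relIndex le
  rw [c1, i2] at c2
  have c3 : 2 * ((p - 1) * 2) ∣ p ^ 2 - 1 :=
    (mul_dvd_mul_left 2 (c2 ▸ card_dvd_of_le (show B ≤ st2 G a b from fun k hk => hk.1))).trans (hT.ord a b ab).2
  rw [show p ^ 2 - 1 = (p + 1) * (p - 1) from Nat.sq_sub_sq p 1, show 2 * ((p - 1) * 2) = 4 * (p - 1) by ring] at c3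
  have := Nat.dvd_of_mul_dvd_mul_right (Nat.sub_pos_of_lt hp.out.one_lt) c3
  have := hR.md
  omega

theorem odd_index (hT : Tc p G Ω U) (hR : Rf p Ω y) : ¬ 2 ∣ (centralizer {y} : Subgroup G).index := fun h => by
  have d := hT.ta.dvd
  have e : p ^ 2 * (p ^ 4 - 1) = (p + 1) * p * (p - 1) * (p * (p ^ 2 + 1)) := by
    obtain ⟨q, rfl⟩ : ∃ q, p = q + 1 := ⟨p - 1, (Nat.sub_add_cancel hp.out.pos).symm⟩
    rw [show (q + 1) ^ 4 - 1 = q ^ 4 + 4 * q ^ 3 + 6 * q ^ 2 + 4 * q from Nat.sub_eq_of_eq_add (by ring),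
      Nat.add_sub_cancel]
    ring
  rw [← (centralizer {y} : Subgroup G).card_mul_index, hR.card, e, mul_left_comm] at d
  have d' : 4 ∣ p * (p ^ 2 + 1) := (mul_dvd_mul_left 2 h).trans (Nat.dvd_of_mul_dvd_mul_left
    (mul_pos (mul_pos p.succ_pos hp.out.pos) (Nat.sub_pos_of_lt hp.out.one_lt)) d)
  rw [Nat.dvd_iff_mod_eq_zero, Nat.mul_mod, Nat.add_mod, Nat.pow_mod, hR.md] at d'
  norm_num at d'

end T2

open T2

theorem t2 : T2S.{u} := by
  intro p hp G Ω _ _ _ _ U hT y hL hR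
  have := Fact.mk Nat.prime_two
  have o : orderOf y = 2 := orderOf_eq_prime (by rw [pow_two, hR.yy]) hL.ne
  obtain ⟨S, hS, hy⟩ := exists_isSylowIn_ge (p := 2) (U := zpowers y) (H := centralizer {y})
    (IsPGroup.of_card (n := 1) (by rw [Nat.card_zpowers, o, pow_one]))
    (zpowers_le.2 (mem_centralizer_singleton_iff.2 rfl))
  obtain ⟨P, rfl⟩ := isSylowIn_top_iff.1 (show IsSylowIn 2 S ⊤ from ⟨le_top, hS.isPGroup, fun h => by
    rw [relIndex_top_right, ← relIndex_mul_index hS.le] at h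
    exact (Nat.prime_two.dvd_mul.1 h).elim hS.not_dvd (odd_index hT hR)⟩)
  obtain ⟨N, hN, odd, hc⟩ := Cfsg.Agent.S0215.result P y o (hy (mem_zpowers y)) fun g hg =>
    iso hT hL hR g (mem_centralizer_singleton_iff.1 (hS.le hg))
  have fix : ∀ n ∈ N, ∀ a : Ω, n • a = a := fun n hn a => by
    by_contra ne
    have : MulAction.orbit N a = Set.univ := Set.eq_univ_of_forall fun c => by
      by_cases k : a = c
      · exact k ▸ MulAction.mem_orbit_self a
      obtain ⟨g, h1, h2⟩ := hT.t2 a (n • a) a c (Ne.symm ne) k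
      refine ⟨⟨_, hN.conj_mem n hn g⟩, ?_⟩
      change (g * n * g⁻¹) • a = c
      rw [mul_smul, mul_smul, inv_smul_eq_iff.2 h1.symm, h2]
    have d := (MulAction.stabilizer N a).index_dvd_card
    rw [MulAction.index_stabilizer, this, Set.ncard_univ, hT.ta.cardΩ] at d
    have h1 := Nat.odd_iff.1 (odd.of_dvd_nat d)
    have h2 : p % 2 = 1 := by have := hR.md; omega
    rw [Nat.add_mod, Nat.pow_mod, h2] at h1
    norm_num at h1
  obtain ⟨a, ya, -⟩ := hR.fix 1 (one_mem _) (mul_one 1)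
  obtain ⟨b, yb, -, ab⟩ := second hL hR.md (v := 1) (by simp) (mul_one 1) ya (one_smul _ a)
  refine hL.ne (hT.fa a b y ab ya yb fun x hx => ?_)
  have m : y * x * y⁻¹ * x⁻¹ ∈ U a := mul_mem (by simpa only [ya] using hT.ta.conj y a x hx) (inv_mem hx)
  have := hT.ta.free a b ab _ m (fix _ (hc x) b)
  rw [mul_inv_eq_one, mul_inv_eq_iff_eq_mul] at this
  exact this.symm

end CL.SP2
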