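/-
Project SP2 (S3597): the Zassenhaus case and the reduction to groups without subgroups of index two.
-/
import Cfsg.Agent.SP2.Defs
import Cfsg.Agent.Perm.ZassAll
import Mathlib.GroupTheory.Transfer

set_option autoImplicit false
set_option linter.unusedSectionVars false
open Cfsg Subgroup CL.Even CL.Grp

namespace CL.SP2

universe u

namespace T3

variable {p : ℕ} [hp : Fact p.Prime] {G Ω : Type u} [Group G] [Finite G] [Finite Ω] [MulAction G Ω]
  {U : Ω → Subgroup G}

theorem sq_odd (h : 5 < p) : ∃ k, p ^ 2 = 2 * k + 1 := (hp.out.odd_of_ne_two (by omega)).pow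

theorem big (h : 5 < p) : 36 ≤ p ^ 2 := by nlinarith

theorem four (h : 5 < p) : p ^ 4 - 1 = (p ^ 2 + 1) * (p ^ 2 - 1) := by
  have := big h
  obtain ⟨k, hk⟩ : ∃ k, p ^ 2 = k + 1 := ⟨p ^ 2 - 1, by omega⟩
  rw [show p ^ 4 = p ^ 2 * p ^ 2 by ring, hk, Nat.add_sub_cancel]
  exact Nat.sub_eq_of_eq_add (by ring)

theorem exists_x (h : Ta p G Ω U) (a : Ω) : ∃ x ∈ U a, orderOf x = p := by
  obtain ⟨x, hx⟩ := exists_prime_orderOf_dvd_card' (G := U a) p (by rw [h.cardU]; exact dvd_pow_self p two_ne_zero)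
  exact ⟨x, x.2, by rwa [Subgroup.orderOf_coe]⟩

theorem fix_of (h : Ta p G Ω U) {a : Ω} {x g : G} (hx : x ∈ U a) (h1 : x ≠ 1) (hg : g * x * g⁻¹ ∈ U a) :
    g • a = a := by
  by_contra hn
  have := h.free a (g • a) (Ne.symm hn) _ hg (h.fix _ _ (h.conj g a x hx))
  exact h1 (by simpa using this)

/-- there is no regular normal subgroup -/
theorem reg (L0 : L0S.{u}) (h : Ta p G Ω U) (a : Ω) (N : Subgroup G) [N.Normal]
    (hN : ∀ y ∈ N, y • a = a → y = 1) (hc : Nat.card N = p ^ 2 + 1) : False := by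
  obtain ⟨x, hx, ho⟩ := exists_x h a
  have h5 := h.five
  have hb := big h5
  have x1 : x ≠ 1 := fun e => hp.out.one_lt.ne (by rw [← ho, e, orderOf_one])
  obtain ⟨k, hk⟩ := sq_odd h5
  have := (L0 p G h5 N x ho (le_normalizer_of_normal (H := N) (K := ⊤) (mem_top x))
    (fun y hy e => hN y hy (fix_of h hx x1 (by rw [← e, mul_inv_cancel_right]; exact hx)))
    (fun e => by rw [e, card_bot] at hc; omega)
    ⟨k, by rw [four h5, hc, hk, Nat.add_sub_cancel]; ring⟩).1
  nlinarith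

theorem three (h : Tc p G Ω U) (hN : Nh p U) (g : G) (a b c : Ω) (hab : a ≠ b) (hbc : b ≠ c) (hac : a ≠ c)
    (ha : g • a = a) (hb : g • b = b) (hc : g • c = c) : g = 1 := by
  by_contra g1
  obtain ⟨x, hx, e⟩ := h.ta.tr a b c hab hac
  have x1 : x ≠ 1 := by rintro rfl; exact hbc (by simpa using e)
  have h1 : g * x * g⁻¹ ∈ U a := ha ▸ h.ta.conj g a x hx
  have hb' : g⁻¹ • b = b := inv_smul_eq_iff.2 hb.symm
  have h2 := h.ta.free a b hab (x⁻¹ * (g * x * g⁻¹)) (mul_mem (inv_mem hx) h1) (by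
    rw [mul_smul, mul_smul, mul_smul, hb', e, hc, ← e, inv_smul_smul])
  have h3 : Commute g x := by
    rw [inv_mul_eq_one, eq_mul_inv_iff_mul_eq] at h2
    exact h2.symm
  have hr := Nat.minFac_prime (mt orderOf_eq_one_iff.1 g1)
  have ho := orderOf_pow_orderOf_div (orderOf_pos g).ne' (Nat.minFac_dvd (orderOf g))
  refine hN a x hx x1 _ (ho ▸ hr) (fun e => ?_) (h3.pow_left _)
  have h4 : p ∣ p ^ 2 - 1 := by
    have hg : g ∈ st2 G a b := ⟨ha, hb⟩
    have := (((Nat.minFac_dvd _).trans (orderOf_dvd_natCard _ hg)).mul_left 2).trans (h.ord a b hab).2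
    rwa [← ho, e] at this
  have := big h.ta.five
  exact hp.out.one_lt.ne' (Nat.dvd_one.1 ((Nat.dvd_sub_iff_right (by omega) (dvd_pow_self p two_ne_zero)).1 h4))

theorem st_ne (L0 : L0S.{u}) (h : Tc p G Ω U) {a b : Ω} (hab : a ≠ b) : st2 G a b ≠ ⊥ := fun e => by
  have hs : ∀ g : G, g • a = a → g ∈ U a := fun g hg => by
    obtain ⟨x, hx, e'⟩ := h.ta.tr a b (g • b) hab fun e => hab (smul_left_cancel g (hg.trans e))
    have : x⁻¹ * g ∈ st2 G a b := ⟨show (x⁻¹ * g) • a = a by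
      rw [mul_smul, hg, inv_smul_eq_iff, h.ta.fix a x hx], show (x⁻¹ * g) • b = b by rw [mul_smul, ← e', inv_smul_smul]⟩
    rw [e, mem_bot, inv_mul_eq_one] at this
    exact this ▸ hx
  have hG := (h.ord a b hab).1
  rw [e, card_bot, mul_one] at hG
  have hi : (U a).index = p ^ 2 + 1 := by
    have := (U a).index_mul_card
    rw [h.ta.cardU, hG] at this
    exact Nat.eq_of_mul_eq_mul_right (pow_pos hp.out.pos 2) this
  let P : Sylow p G := (IsPGroup.of_card (h.ta.cardU a)).toSylow (by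
    rw [hi]
    exact fun hd => hp.out.one_lt.ne' (Nat.dvd_one.1 ((Nat.dvd_add_right (dvd_pow_self p two_ne_zero)).1 hd)))
  obtain ⟨x, hx, ho⟩ := exists_x h.ta a
  have x1 : x ≠ 1 := fun e => hp.out.one_lt.ne (by rw [← ho, e, orderOf_one])
  have hP : normalizer ((P : Subgroup G) : Set G) ≤ centralizer ((P : Subgroup G) : Set G) := fun g hg =>
    h.ab a (hs g (fix_of h.ta hx x1 ((mem_normalizer_iff.1 hg x).1 hx)))
  have hc := MonoidHom.ker_transferSylow_isComplement' P hP
  refine reg L0 h.ta a (MonoidHom.transferSylow P hP).ker (fun y hy ey => ?_) (hc.index_eq_card.symm.trans hi)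
  exact disjoint_def.1 hc.disjoint hy (hs y ey)

end T3

open T3

theorem t3 : T3S.{u} := by
  intro L0 p hp G Ω _ _ _ _ U h hN
  have h5 := h.ta.five
  have hb := big h5
  have hΩ := h.ta.cardΩ
  have := Fintype.ofFinite Ω
  obtain ⟨a, b, c, hab, hac, hbc⟩ := Fintype.two_lt_card_iff.1 (show 2 < Fintype.card Ω by
    rw [← Nat.card_eq_fintype_card]; omega)
  have hZ : IsZassenhausGroup G Ω := by
    refine ⟨⟨fun {g g'} e => ?_⟩, MulAction.is_two_pretransitive_iff.2 fun hab hcd => h.t2 _ _ _ _ hab hcd,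
      three h hN, ?_, fun N hn ht => ?_⟩
    · have k : ∀ d : Ω, (g'⁻¹ * g) • d = d := fun d => by rw [mul_smul, e, inv_smul_smul]
      exact (inv_mul_eq_one.1 (three h hN _ a b c hab hbc hac (k a) (k b) (k c))).symm
    · obtain ⟨⟨g, hg⟩, g1⟩ := ne_bot_iff_exists_ne_one.1 (st_ne L0 h hab)
      exact ⟨g, fun e => g1 (Subtype.ext e), a, b, hab, hg.1, hg.2⟩
    · refine ⟨a, fun e => reg L0 h.ta a N (fun y hy ey => ?_) ?_⟩
      · have : (⟨y, hy⟩ : N) ∈ MulAction.stabilizer N a := ey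
        rw [e, mem_bot] at this
        exact congrArg Subtype.val this
      · rw [← hΩ, ← MulAction.index_stabilizer_of_transitive N a, e, index_bot]
  obtain ⟨o1, o2⟩ := h.ord a b hab
  rcases CL.Perm.zassenhaus_cases hZ hab with e | ⟨e, K, _, _, e1, -, e2⟩ | ⟨K, _, _, m, -, -, e, -⟩
  · have := Nat.le_of_dvd (by omega) o2
    change Nat.card (st2 G a b) = _ at e
    omega
  · change _ = 2 * Nat.card (st2 G a b) at e
    refine ⟨?_, K, inferInstance, inferInstance, by omega, e2⟩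
    rw [o1, four h5, show p ^ 2 - 1 = 2 * Nat.card (st2 G a b) by omega]
    ring
  · have e1 : p = 2 ^ (2 * m + 1) := Nat.pow_left_injective two_ne_zero (by beta_reduce; omega)
    have := (Nat.prime_dvd_prime_iff_eq Nat.prime_two hp.out).1 (e1 ▸ dvd_pow_self 2 (by omega))
    omega

theorem t4 : T4S.{u} := by
  intro hyp p hp G Ω _ _ _ _ U h
  induction hn : Nat.card G using Nat.strong_induction_on generalizing G with
  | _ n ih =>
  refine hyp p G Ω U h fun H hH => ?_
  have h5 := h.five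
  have hle : ∀ a, U a ≤ H := fun a x hx => by
    obtain ⟨k, hk⟩ := sq_odd h5
    have e : x ^ p ^ 2 = 1 := orderOf_dvd_iff_pow_eq_one.1 (h.cardU a ▸ orderOf_dvd_natCard _ hx)
    have := H.pow_mem (sq_mem_of_index_two hH x) (k + 1)
    rwa [← pow_mul, show 2 * (k + 1) = p ^ 2 + 1 by omega, pow_succ, e, one_mul] at this
  have hc : Nat.card G = 2 * Nat.card H := by rw [← H.index_mul_card, hH]
  have hpos : 0 < Nat.card H := Nat.card_pos
  have hT : Ta p H Ω fun a => (U a).subgroupOf H :=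
    { five := h5
      dvd := (Nat.mul_dvd_mul_left 2 H.card_subgroup_dvd_card).trans h.dvd
      cardΩ := h.cardΩ
      cardU := fun a => (Nat.card_congr (subgroupOfEquivOfLe (hle a)).toEquiv).trans (h.cardU a)
      fix := fun a x hx => h.fix a x hx
      conj := fun g a x hx => h.conj g a x hx
      free := fun a b hab x hx e => Subtype.ext (h.free a b hab x hx e)
      tr := fun a b c h1 h2 => by
        obtain ⟨x, hx, e⟩ := h.tr a b c h1 h2
        exact ⟨⟨x, hle a hx⟩, hx, e⟩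
      cen := fun a x hx => h.cen a fun y hy => congrArg Subtype.val (hx ⟨y, hle a hy⟩ hy) }
  have e := (ih (Nat.card H) (by omega) H _ hT rfl).1
  have := Nat.le_of_dvd (by omega) h.dvd
  omega

end CL.SP2
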