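/-
Project SP2 (S3597): counting facts in the case of trivial intersections, and the line of a homology.
-/
import Cfsg.Agent.SP2.Defs
import Cfsg.Agent.Perm.ZassBasic

set_option autoImplicit false
set_option linter.unusedSectionVars false
open Cfsg Subgroup CL.Even CL.Grp MulAction

namespace CL.SP2

universe u

namespace Tcx

variable {p : ℕ} {G Ω : Type u} [Group G] [MulAction G Ω] [Finite Ω] {U : Ω → Subgroup G} {H : Subgroup G} {S : Set Ω}

/-- double transitivity on an invariant set -/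
theorem t2gen (hS : ∀ h ∈ H, ∀ c ∈ S, h • c ∈ S) (h3 : 2 < S.ncard)
    (tr : ∀ a ∈ S, ∀ b ∈ S, ∀ c ∈ S, a ≠ b → a ≠ c → ∃ x ∈ H, x • a = a ∧ x • b = c) {a b c d : Ω} (ha : a ∈ S)
    (hb : b ∈ S) (hc : c ∈ S) (hd : d ∈ S) (hab : a ≠ b) (hcd : c ≠ d) : ∃ h ∈ H, h • a = c ∧ h • b = d := by
  obtain ⟨e, he, h1, h2⟩ : ∃ e ∈ S, e ≠ a ∧ e ≠ c := by
    by_contra hn
    have h1 : S ⊆ {a, c} := fun e he => by
      by_contra h2
      exact hn ⟨e, he, fun h => h2 (.inl h), fun h => h2 (.inr h)⟩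
    have h2 := (Set.ncard_le_ncard h1).trans (Set.ncard_insert_le a {c})
    rw [Set.ncard_singleton] at h2
    omega
  obtain ⟨x, hx, -, e1⟩ := tr e he a ha c hc h1 h2
  obtain ⟨z, hz, e2, e3⟩ := tr c hc _ (hS x hx b hb) d hd (fun h => hab (smul_left_cancel x (e1.trans h))) hcd
  exact ⟨z * x, mul_mem hz hx, by rw [mul_smul, e1, e2], by rw [mul_smul, e3]⟩

/-- the order of a group that is doubly transitive on an invariant set -/
theorem two (hS : ∀ h ∈ H, ∀ c ∈ S, h • c ∈ S) {a b : Ω} (ha : a ∈ S) (hb : b ∈ S) (hab : a ≠ b)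
    (t2 : ∀ c ∈ S, ∀ d ∈ S, c ≠ d → ∃ h ∈ H, h • a = c ∧ h • b = d) :
    Nat.card H = S.ncard * (S.ncard - 1) * Nat.card ↥(H ⊓ st2 G a b) := by
  have h1 : orbit H a = S := by
    refine Set.Subset.antisymm (by rintro _ ⟨g, rfl⟩; exact hS g g.2 a ha) fun c hc => ?_
    by_cases e : c = a
    · exact e ▸ mem_orbit_self c
    · obtain ⟨h, hh, e1, -⟩ := t2 c hc a ha e
      exact ⟨⟨h, hh⟩, e1⟩
  have h2 : orbit ↥(H ⊓ stabilizer G a) b = S \ {a} := by
    refine Set.Subset.antisymm ?_ fun c hc => ?_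
    · rintro _ ⟨g, rfl⟩
      exact ⟨hS g g.2.1 b hb, fun e => hab (smul_left_cancel (g : G) ((show (g : G) • a = a from g.2.2).trans e.symm))⟩
    · obtain ⟨h, hh, e1, e2⟩ := t2 a ha c hc.1 (Ne.symm hc.2)
      exact ⟨⟨h, hh, e1⟩, e2⟩
  rw [CL.Perm.card_eq_ncard_orbit_mul H a, CL.Perm.card_eq_ncard_orbit_mul (H ⊓ stabilizer G a) b, h1, h2,
    Set.ncard_sdiff_singleton_of_mem ha, inf_assoc, mul_assoc]

theorem fixiff (h : Ta p G Ω U) {a b : Ω} {g x : G} (hab : a ≠ b) (ha : g • a = a) (hb : g • b = b) (hx : x ∈ U a) :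
    g • x • b = x • b ↔ x ∈ centralizer {g} := by
  rw [mem_centralizer_singleton_iff]
  refine ⟨fun e => ?_, fun e => by rw [← mul_smul, ← e, mul_smul, hb]⟩
  have h1 := h.free a b hab _ (mul_mem (inv_mem hx) (ha ▸ h.conj g a x hx))
    (by rw [mul_smul, mul_smul, mul_smul, inv_smul_eq_iff.2 hb.symm, e, inv_smul_smul])
  rw [inv_mul_eq_one, eq_mul_inv_iff_mul_eq] at h1
  exact h1

theorem fx (h : Ta p G Ω U) (a b : Ω) (g : G) (hab : a ≠ b) (ha : g • a = a) (hb : g • b = b) :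
    Nat.card {c : Ω // g • c = c} = Nat.card (U a ⊓ centralizer {g} : Subgroup G) + 1 := by
  have h1 : {c : Ω | g • c = c} = insert a ((fun x : G => x • b) '' (U a ⊓ centralizer {g} : Subgroup G)) := by
    refine Set.Subset.antisymm (fun c hc => ?_) ?_
    · by_cases e : c = a
      · exact .inl e
      · obtain ⟨x, hx, rfl⟩ := h.tr a b c hab (Ne.symm e)
        exact .inr ⟨x, ⟨hx, (fixiff h hab ha hb hx).1 hc⟩, rfl⟩
    · rintro _ (rfl | ⟨x, hx, rfl⟩)
      exacts [ha, (fixiff h hab ha hb hx.1).2 hx.2]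
  have h2 : Nat.card {c : Ω // g • c = c} = {c : Ω | g • c = c}.ncard := rfl
  rw [h2, h1, Set.ncard_insert_of_notMem, Set.InjOn.ncard_image]
  · rfl
  · intro x hx z hz e
    have h3 := h.free a b hab _ (mul_mem (inv_mem hz.1) hx.1) (by rw [mul_smul, inv_smul_eq_iff]; exact e)
    exact (inv_mul_eq_one.1 h3).symm
  · rintro ⟨x, hx, e⟩
    exact hab (smul_left_cancel x ((h.fix a x hx.1).trans (Eq.symm e)))

theorem num {p d : ℕ} (hp : 0 < p) (h1 : 2 * ((p + 1) * p * d) ∣ p ^ 2 * (p ^ 4 - 1)) (h2 : 2 * d ∣ p ^ 2 - 1) :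
    d ∣ p - 1 := by
  obtain ⟨m, rfl⟩ := Nat.exists_eq_add_one_of_ne_zero hp.ne'
  have e1 : (m + 1) ^ 2 - 1 = m * (m + 2) := Nat.sub_eq_of_eq_add (by ring)
  have e2 : (m + 1) ^ 4 - 1 = m * (m + 2) * (m * (m + 2) + 2) := Nat.sub_eq_of_eq_add (by ring)
  rw [e1] at h2
  rw [e2, show 2 * ((m + 1 + 1) * (m + 1) * d) = (m + 2) * (m + 1) * (2 * d) by ring,
    show (m + 1) ^ 2 * (m * (m + 2) * (m * (m + 2) + 2)) =
      (m + 2) * (m + 1) * ((m + 1) * m * (m * (m + 2)) + 2 * ((m + 1) * m)) by ring] at h1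
  have h3 := (Nat.dvd_add_right (h2.mul_left _)).1 (Nat.dvd_of_mul_dvd_mul_left (by positivity) h1)
  have h4 : Nat.Coprime d (m + 1) := by
    refine Nat.Coprime.coprime_dvd_left ((dvd_mul_left d 2).trans h2) (Nat.Coprime.mul_left (by simp) ?_)
    rw [show m + 2 = 1 + (m + 1) by ring]
    simp
  exact h4.dvd_of_dvd_mul_left (Nat.dvd_of_mul_dvd_mul_left two_pos h3)

end Tcx

open Tcx

theorem tc : TcS.{u} := by
  intro p _ G Ω _ _ _ _ U h
  have h5 := h.five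
  have t2 : ∀ a b c d : Ω, a ≠ b → c ≠ d → ∃ g ∈ (⊤ : Subgroup G), g • a = c ∧ g • b = d := fun a b c d h1 h2 =>
    t2gen (H := ⊤) (S := Set.univ) (fun _ _ _ _ => trivial) (by rw [Set.ncard_univ, h.cardΩ]; nlinarith)
      (fun a _ b _ c _ k1 k2 => let ⟨x, hx, e⟩ := h.tr a b c k1 k2; ⟨x, trivial, h.fix a x hx, e⟩)
      trivial trivial trivial trivial h1 h2
  refine ⟨h, fun a => le_centralizer_iff_isMulCommutative.2 (IsPGroup.isMulCommutative_of_card_eq_prime_sq (h.cardU a)),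
    fun a b c d h1 h2 => (t2 a b c d h1 h2).imp fun _ k => k.2, fun a b hab => ?_,
    fun a b g hab _ hb hg => h.free a b hab g (h.cen a hg) hb, fx h⟩
  have h1 := two (H := (⊤ : Subgroup G)) (S := Set.univ) (fun _ _ _ _ => trivial) trivial trivial hab
    fun c _ d _ k => t2 a b c d hab k
  rw [card_top, Set.ncard_univ, h.cardΩ, Nat.add_sub_cancel, top_inf_eq] at h1
  refine ⟨h1, ?_⟩
  have h2 := h.dvd
  rw [h1, show p ^ 4 - 1 = (p ^ 2 + 1) * (p ^ 2 - 1) by rw [← Nat.sq_sub_sq, ← pow_mul], ← mul_assoc (p ^ 2),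
    mul_comm (p ^ 2), mul_left_comm] at h2
  exact Nat.dvd_of_mul_dvd_mul_left (by positivity) h2

theorem t0 : T0S.{u} := by
  intro p hp G Ω _ _ _ _ U hc hn
  have h := hc.ta
  have h5 := h.five
  simp only [Nh, not_forall, not_not] at hn
  obtain ⟨a, x, hx, hx1, y, hr, hrp, e⟩ := hn
  have y1 : y ≠ 1 := by rintro rfl; exact Nat.not_prime_one (orderOf_one (G := G) ▸ hr)
  have ya : y • a = a := by
    by_contra k
    exact hx1 (h.free _ a k x (by simpa only [e, mul_inv_cancel_right] using h.conj y a x hx) (h.fix a x hx))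
  obtain ⟨b, yb, hab⟩ : ∃ b, y • b = b ∧ a ≠ b := by
    by_contra k
    have := Fact.mk hr
    have h1 := (IsPGroup.of_card (p := orderOf y) (G := zpowers y) (n := 1)
      (by rw [Nat.card_zpowers, pow_one])).card_modEq_card_fixedPoints Ω
    have h2 : Nat.card (fixedPoints (zpowers y) Ω) = 1 := by
      refine Nat.card_eq_one_iff_exists.2 ⟨⟨a, fun g => (zpowers_le (H := stabilizer G a)).2 ya g.2⟩,
        fun c => Subtype.ext ?_⟩
      by_contra k'
      exact k ⟨c, c.2 ⟨y, mem_zpowers y⟩, Ne.symm k'⟩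
    rw [h2, h.cardΩ] at h1
    have h3 := (Nat.modEq_iff_dvd' (Nat.le_add_left 1 _)).1 h1.symm
    rw [Nat.add_sub_cancel] at h3
    exact hrp ((Nat.prime_dvd_prime_iff_eq hr hp.out).1 (hr.dvd_of_dvd_pow h3))
  have c1 : Nat.card (U a ⊓ centralizer {y} : Subgroup G) = p := by
    obtain ⟨k, hk, ek⟩ := (Nat.dvd_prime_pow hp.out).1
      (h.cardU a ▸ card_dvd_of_le (inf_le_left : U a ⊓ centralizer {y} ≤ U a))
    interval_cases k
    · have h1 : x ∈ U a ⊓ centralizer {y} := ⟨hx, mem_centralizer_singleton_iff.2 e.symm⟩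
      rw [card_eq_one.1 ek] at h1
      exact absurd h1 hx1
    · rw [ek, pow_one]
    · have h1 := eq_of_le_of_card_ge (inf_le_left : U a ⊓ centralizer {y} ≤ U a) (by rw [ek, h.cardU])
      exact absurd (hc.fa a b y hab ya yb fun z hz => mem_centralizer_singleton_iff.1 (h1.ge hz).2) y1
  have c2 : Nat.card {c : Ω // y • c = c} = p + 1 := by rw [hc.fx a b y hab ya yb, c1]
  have c3 : {c : Ω | y • c = c}.ncard = p + 1 := c2
  have fc : ∀ c, y • c = c → Nat.card (U c ⊓ centralizer {y} : Subgroup G) = p := fun c yc => by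
    by_cases k : c = a
    · rw [k, c1]
    · exact Nat.add_right_cancel ((hc.fx c a y k yc ya).symm.trans c2)
  have tr : ∀ a b c : Ω, y • a = a → y • b = b → y • c = c → a ≠ b → a ≠ c →
      ∃ x ∈ U a ⊓ centralizer {y}, x • b = c := fun a b c k1 k2 k3 k4 k5 => by
    obtain ⟨z, hz, rfl⟩ := h.tr a b c k4 k5
    exact ⟨z, ⟨hz, (fixiff h k4 k1 k2 hz).1 k3⟩, rfl⟩
  have hS : ∀ g ∈ centralizer {y}, ∀ c ∈ {c : Ω | y • c = c}, g • c ∈ {c : Ω | y • c = c} := fun g hg c k =>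
    show y • g • c = g • c by rw [← mul_smul, ← mem_centralizer_singleton_iff.1 hg, mul_smul, k]
  have t2 : ∀ a b c d : Ω, y • a = a → y • b = b → y • c = c → y • d = d → a ≠ b → c ≠ d →
      ∃ h ∈ centralizer {y}, h • a = c ∧ h • b = d := fun a b c d =>
    t2gen hS (by omega) fun a k1 b k2 c k3 k4 k5 =>
      let ⟨z, hz, e⟩ := tr a b c k1 k2 k3 k4 k5; ⟨z, hz.2, h.fix a z hz.1, e⟩
  refine ⟨y, hr, y1, c2, fc, tr, t2, fun k _ a b c ya yb yc hab hbc hac ka kb kc d yd => ?_, fun a b ya yb hab => ?_⟩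
  · by_cases e : d = a
    · rw [e, ka]
    obtain ⟨z, hz, rfl⟩ := tr a b c ya yb yc hab hac
    obtain ⟨w, hw, rfl⟩ := tr a b d ya yb yd hab (Ne.symm e)
    obtain ⟨n, hn⟩ := mem_zpowers_of_prime_card (fc a ya) (g := ⟨z, hz⟩) (g' := ⟨w, hw⟩)
      (fun k => hbc (by rw [show z = 1 from congrArg Subtype.val k, one_smul]))
    refine (fixiff h hab ka kb hw.1).2 ?_
    rw [← show z ^ n = w from congrArg Subtype.val hn]
    exact zpow_mem ((fixiff h hab ka kb hz.1).1 kc) n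
  · have h1 := two hS ya yb hab fun c k1 d k2 k3 => t2 a b c d ya yb k1 k2 hab k3
    rw [c3, Nat.add_sub_cancel] at h1
    refine ⟨h1, num hp.out.pos (h1 ▸ (Nat.mul_dvd_mul_left 2 (card_subgroup_dvd_card _)).trans h.dvd)
      ((Nat.mul_dvd_mul_left 2 (card_dvd_of_le inf_le_right)).trans (hc.ord a b hab).2)⟩

end CL.SP2
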