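/-
Project SP2 (S3597): the intersections of a Sylow subgroup with the normalisers of the conjugates of `D`.
-/
import Cfsg.Agent.SP2.Defs
import Cfsg.Agent.Perm.HksPrime4

set_option autoImplicit false
set_option linter.unusedSectionVars false
open Cfsg Subgroup CL.Even CL.Grp

namespace CL.SP2

universe u

namespace TwoX

open MulAction CL.Perm

theorem core {G Ω : Type*} [Group G] [Finite G] [Finite Ω] [MulAction G Ω] {p : ℕ} [hp : Fact p.Prime]
    (hΩ : Nat.card Ω = p ^ 2 + 1) (htr : ∀ a b : Ω, ∃ g : G, g • a = b) {a b : Ω} {P D : Subgroup G}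
    (hP : Nat.card P = p ^ 2) (hD : Nat.card D = p) (hDP : D ≤ P) (hPa : ∀ x ∈ P, x • a = a)
    (hN : ∀ g : G, g • a = a → g ∈ 𝒩(D)) (hb : ∀ x ∈ P, x • b = b → x = 1) : p = 2 := by
  have h1 := hp.out.one_lt
  have hDne : D ≠ ⊥ := fun e => by rw [e, card_bot] at hD; omega
  obtain ⟨d0, hd0, hd1⟩ := (ne_bot_iff_exists_ne_one.1 hDne).imp fun x h => And.intro x.2 h
  have hd1' : (d0 : G) ≠ 1 := fun e => hd1 (Subtype.ext e)
  have hab : a ≠ b := fun e => hd1' (hb _ (hDP hd0) (e ▸ hPa _ (hDP hd0)))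
  have inj : ∀ x ∈ P, ∀ y ∈ P, x • b = y • b → x = y := fun x hx y hy e =>
    (inv_mul_eq_one.1 (hb _ (mul_mem (inv_mem hy) hx) (by rw [mul_smul, e, inv_smul_smul]))).symm
  have reg : ∀ c, c ≠ a → ∃ x ∈ P, x • b = c := by
    let F : P → {c : Ω // c ≠ a} := fun x => ⟨(x : G) • b, fun e => hab (by
      rw [← hPa _ (inv_mem x.2), ← e, inv_smul_smul])⟩
    have hF : Function.Injective F := fun x y e => Subtype.ext (inj _ x.2 _ y.2 (congrArg Subtype.val e))
    have hc : Nat.card {c : Ω // c ≠ a} = p ^ 2 := by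
      have := IsZ.ncard_ne a
      rw [hΩ] at this
      exact this
    have hs := (hF.bijective_of_nat_card_le (by rw [hc, hP])).2
    intro c hc'
    obtain ⟨x, hx⟩ := hs ⟨c, hc'⟩
    exact ⟨x, x.2, congrArg Subtype.val hx⟩
  have two1 : ∀ c d : Ω, c ≠ d → ∃ g : G, g • a = c ∧ g • b = d := fun c d hcd => by
    obtain ⟨g, rfl⟩ := htr a c
    obtain ⟨x, hx, e⟩ := reg (g⁻¹ • d) (fun e => hcd (by rw [← e, smul_inv_smul]))
    exact ⟨g * x, by rw [mul_smul, hPa x hx], by rw [mul_smul, e, smul_inv_smul]⟩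
  let f := (toPermHom G Ω).rangeRestrict
  have hf : ∀ (g : G) (c : Ω), f g • c = g • c := fun _ _ => rfl
  have hfs : Function.Surjective f := MonoidHom.rangeRestrict_surjective _
  have hS : SqDeg (toPermHom G Ω).range Ω p := ⟨hΩ, fun {a' b' c d} h2 h3 => by
    obtain ⟨g, e1, e2⟩ := two1 a' b' h2
    obtain ⟨g', e3, e4⟩ := two1 c d h3
    exact ⟨f (g' * g⁻¹), by rw [hf, mul_smul, ← e1, inv_smul_smul, e3],
      by rw [hf, mul_smul, ← e2, inv_smul_smul, e4]⟩,
    fun g hg => Subtype.ext (Equiv.ext hg)⟩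
  have hn : stab2 (toPermHom G Ω).range a b ≤ 𝒩(D.map f) := fun g hg => by
    obtain ⟨g, rfl⟩ := hfs g
    refine mem_norm_of_cj_le ?_
    rintro _ ⟨_, ⟨d, hd, rfl⟩, rfl⟩
    exact ⟨g * d * g⁻¹, conj_mem (hN g (mem_stab2.1 hg).1) hd, by simp⟩
  refine (hS.card_eq_twenty_of_lt hab (L := D.map f ⊔ stab2 (toPermHom G Ω).range a b)
    (lt_of_le_of_ne le_sup_right fun e => ?_) (lt_of_le_of_ne (sup_le ?_ fun g hg => (mem_stab2.1 hg).1)
      fun e => ?_)).1
  · have : f d0 ∈ stab2 (toPermHom G Ω).range a b := e ▸ mem_sup_left (mem_map_of_mem f hd0)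
    exact hd1' (hb _ (hDP hd0) (mem_stab2.1 this).2)
  · rintro _ ⟨d, hd, rfl⟩
    exact hPa d (hDP hd)
  · have hle : P ≤ D := fun x hx => by
      have : f x ∈ D.map f ⊔ stab2 (toPermHom G Ω).range a b := e ▸ (show f x • a = a from hPa x hx)
      obtain ⟨_, ⟨d, hd, rfl⟩, k, hk, e'⟩ := (mem_sup_nl hn).1 this
      have e2 : d • b = x • b := by rw [← hf x, ← e', mul_smul, (mem_stab2.1 hk).2, hf]
      exact inj _ (hDP hd) _ hx e2 ▸ hd
    have := card_le_of_le hle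
    rw [hP, hD] at this
    nlinarith

variable {p : ℕ} [hp : Fact p.Prime] {G : Type u} [Group G] [Finite G]

/-- a Sylow subgroup contains at most one conjugate of `D` -/
theorem uniq (h : B1 p G) {P : Sylow p G} {D : Subgroup G} (hD : D ≤ P) (hN : 𝒩((P : Subgroup G)) ≤ 𝒩(D))
    (Q : Sylow p G) {g g' : G} (h1 : cj g D ≤ Q) (h2 : cj g' D ≤ Q) : cj g D = cj g' D := by
  obtain ⟨k, rfl⟩ := MulAction.exists_smul_eq G P Q
  have key : ∀ g : G, cj g D ≤ ((k • P : Sylow p G) : Subgroup G) → cj g D = cj k D := fun g hg => by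
    have h3 : cj (k⁻¹ * g) D ≤ P := by
      rw [cj_mul]
      exact le_cj_iff.1 hg
    obtain ⟨n, hn, e⟩ := h.fus P D _ hD h3
    rw [cj_eq (hN hn), cj_mul] at e
    rw [e, cj_cj_inv]
    nth_rw 1 [← cj_cj_inv k (cj g D), ← e]
    rw [e, cj_cj_inv]
  rw [key g h1, key g' h2]

end TwoX

theorem two : TwoS.{u} := by
  intro p hp G _ _ h P D hD hN
  obtain ⟨hDP, hDc⟩ := mem_sub.1 hD
  refine ⟨fun hi g e => ?_, fun hm g hg => ?_⟩
  · have h5 := h.hy.five
    have := TwoX.core (G := G) (Ω := G ⧸ 𝒩(D)) (p := p) hi (fun a b => MulAction.exists_smul_eq G a b)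
      (a := ((1 : G) : G ⧸ 𝒩(D))) (b := (g : G ⧸ 𝒩(D))) (h.hy.card P) hDc hDP
      (fun x hx => QuotientGroup.eq.2 (by simpa using hN (le_normalizer hx)))
      (fun x hx => by simpa using QuotientGroup.eq.1 hx) (fun x hx hb => by
        have h1 : (x * g)⁻¹ * g ∈ 𝒩(D) := QuotientGroup.eq.1 hb
        have h2 : x ∈ 𝒩(cj g D) := by
          rw [← cj_norm, mem_cj]
          simpa [mul_assoc] using inv_mem h1
        exact mem_bot.1 (e ▸ (mem_inf.2 ⟨hx, h2⟩)))
    omega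
  · by_contra hne
    obtain ⟨⟨x, hxP, hxN⟩, hx1⟩ := ne_bot_iff_exists_ne_one.1 hne
    have hx1' : x ≠ 1 := fun e => hx1 (Subtype.ext e)
    obtain ⟨k, hk⟩ := isPGroup_iff_forall.1 P.isPGroup' x hxP
    have hpd : p ∣ orderOf x := by
      obtain ⟨j, -, hj⟩ := (Nat.dvd_prime_pow hp.out).1 (orderOf_dvd_of_pow_eq_one hk)
      rcases j with _ | j
      · exact absurd (orderOf_eq_one_iff.1 (by simpa using hj)) hx1'
      · exact hj ▸ dvd_pow_self p (Nat.succ_ne_zero j)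
    have ho := orderOf_pow_orderOf_div (orderOf_pos x).ne' hpd
    set y := x ^ (orderOf x / p) with hy
    have hyP : y ∈ (P : Subgroup G) := pow_mem hxP _
    have hy1 : y ^ p ^ 1 = 1 := by rw [pow_one, ← ho, pow_orderOf_eq_one]
    have hc : Nat.card (cj g D) = p := (card_cj g D).trans hDc
    have hyC : y ∈ 𝒞(cj g D) := h.nc _ y 1 hc hy1 (pow_mem hxN _)
    have hpg : IsPGroup p (zpowers y ⊔ cj g D : Subgroup G) :=
      isPGroup_sup (isPGroup_zpowers hy1) (IsPGroup.of_card (n := 1) (by rw [hc, pow_one]))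
        ((zpowers_le.2 hyC).trans (cent_le_norm _))
    obtain ⟨Q, hQ⟩ := hpg.exists_le_sylow
    have hz : zpowers y ∈ sub P := mem_sub.2 ⟨zpowers_le.2 hyP, by rw [Nat.card_zpowers, ho]⟩
    by_cases e : zpowers y = D
    · refine hg ((TwoX.uniq h hDP hN Q (g' := 1) (le_sup_right.trans hQ) ?_).trans (cj_one D))
      rw [cj_one, ← e]
      exact le_sup_left.trans hQ
    · have h1 := hm _ hz e
      have h2 := (Nat.card_eq_one_iff_unique.1 h1).1
      have h3 : Q = P := congrArg Subtype.val (h2.elim ⟨Q, le_sup_left.trans hQ⟩ ⟨P, zpowers_le.2 hyP⟩)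
      subst h3
      refine hg ((TwoX.uniq h hDP hN Q (g' := 1) (le_sup_right.trans hQ) ?_).trans (cj_one D))
      rwa [cj_one]

end CL.SP2
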